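import Cfsg.Agent.Blocks.Star.Norms
import Cfsg.Agent.FusionTwo.Dihedral

/-!
# The block of the centralizer of the central involution of a dihedral defect group is nilpotent

An element of odd order normalizing a subgroup `Q` of a dihedral 2-group and fixing an involution
central in `Q` centralizes `Q`.
-/

set_option autoImplicit false
set_option maxHeartbeats 1000000
open scoped MonoidAlgebra

namespace CfsgLib.Blocks.CentralPair

open Cfsg CfsgLib CfsgLib.FusionTwo

universe u

section Auto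

variable {G : Type u} [Group G]

/-- An element of odd order acts trivially on a cyclic 2-group. -/
theorem conj_eq_of_zpowers {a w : G} {e : ℕ} (ha : orderOf a = 2 ^ e) {j : ℤ}
    (hj : w * a * w⁻¹ = a ^ j) {k : ℕ} (hk : Odd k) (hwk : w ^ k * a * (w ^ k)⁻¹ = a) :
    w * a * w⁻¹ = a := by
  rcases Nat.eq_zero_or_pos e with rfl | he
  · rw [pow_zero, orderOf_eq_one_iff] at ha
    rw [ha, mul_one, mul_inv_cancel]
  have hiter : ∀ i : ℕ, w ^ i * a * (w ^ i)⁻¹ = a ^ (j ^ i) := by
    intro i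
    induction i with
    | zero => simp
    | succ i ih =>
      rw [pow_succ', show w * w ^ i * a * (w * w ^ i)⁻¹ = w * (w ^ i * a * (w ^ i)⁻¹) * w⁻¹ by group,
        ih, ← conj_zpow, hj, ← zpow_mul, pow_succ' j]
  have h1 : ((2 ^ e : ℕ) : ℤ) ∣ j ^ k - 1 := by
    rw [← ha, orderOf_dvd_iff_zpow_eq_one, zpow_sub, zpow_one, ← hiter, hwk, mul_inv_cancel]
  have hodd : Odd j := by
    by_contra h
    rw [Int.not_odd_iff_even] at h
    have h2 : (2 : ℤ) ∣ j ^ k - 1 :=
      (dvd_trans (by exact_mod_cast dvd_pow_self 2 he.ne') h1)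
    have h3 : (2 : ℤ) ∣ j ^ k := dvd_pow (even_iff_two_dvd.1 h) hk.pos.ne'
    omega
  have hsum : Odd (∑ i ∈ Finset.range k, j ^ i) := by
    have hpar : ∀ i : ℕ, (Odd (∑ l ∈ Finset.range i, j ^ l) ↔ Odd i) := by
      intro i
      induction i with
      | zero => simp
      | succ i ih =>
        have := hodd.pow (n := i)
        rw [Finset.sum_range_succ, Nat.odd_add_one, ← ih, Int.not_odd_iff_even, Int.odd_add']
        exact ⟨fun h' => h'.1 this, fun h' => ⟨fun _ => h', fun _ => this⟩⟩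
    exact (hpar k).2 hk
  rw [← geom_sum_mul] at h1
  have h4 : ((2 ^ e : ℕ) : ℤ) ∣ j - 1 := by
    refine Int.dvd_of_dvd_mul_right_of_gcd_one h1 ?_
    rw [Int.gcd_eq_natAbs_gcd_natAbs, Int.natAbs_natCast]
    exact Nat.Coprime.pow_left _ (Nat.coprime_two_left.2 (Int.natAbs_odd.2 hsum))
  rw [hj]
  rw [← ha, orderOf_dvd_iff_zpow_eq_one, zpow_sub, zpow_one, mul_inv_eq_one] at h4
  exact h4

variable [Finite G] {D : Subgroup G} {m : ℕ} {x y : G}

/-- The automorphisms of odd order of subgroups fixing a central involution. -/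
theorem mem_centralizer_of_fix (h : IsDihGen D m x y) {Q : Subgroup G} (hQD : Q ≤ D) {c : G}
    (hcQ : c ∈ Q) (hc : orderOf c = 2) (hcc : ∀ q ∈ Q, c * q = q * c) {w : G}
    (hwN : w ∈ Subgroup.normalizer (Q : Set G)) (hwc : w * c * w⁻¹ = c) (hodd : Odd (orderOf w)) :
    w ∈ Subgroup.centralizer (Q : Set G) := by
  classical
  set k := orderOf w with hk
  have hwk : ∀ q : G, w ^ k * q * (w ^ k)⁻¹ = q := fun q => by simp [hk, pow_orderOf_eq_one]
  have hmem : ∀ {q}, q ∈ Q → w * q * w⁻¹ ∈ Q := fun {q} hq =>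
    (Subgroup.mem_normalizer_iff.1 hwN q).1 hq
  rw [Subgroup.mem_centralizer_iff]
  suffices hfix : ∀ q ∈ Q, w * q * w⁻¹ = q by
    intro q hq
    conv_lhs => rw [← hfix q hq]
    group
  have hrot1 : ∀ i : ℤ, x ^ i * x ^ i = 1 → x ^ i = 1 ∨ x ^ i = x ^ ((2 : ℤ) ^ (m - 1)) := by
    intro i hi
    rw [← zpow_add, h.zpow_eq_one_iff, ← two_mul, h.two_pow_pred,
      mul_dvd_mul_iff_left two_ne_zero] at hi
    obtain ⟨c', rfl⟩ := hi
    rcases Int.even_or_odd' c' with ⟨t, rfl | rfl⟩
    · left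
      rw [h.zpow_eq_one_iff, h.two_pow_pred]
      exact ⟨t, by ring⟩
    · right
      rw [h.zpow_eq_iff, h.two_pow_pred]
      exact ⟨t, by ring⟩
  by_cases hbig : ∃ a ∈ Q, a * a ≠ 1
  · obtain ⟨a, haQ, ha2⟩ := hbig
    have hrot : ∀ q ∈ Q, q * q ≠ 1 → q ∈ Subgroup.zpowers x := by
      intro q hq h2
      obtain ⟨i, rfl | rfl⟩ := h.mem_cases (hQD hq)
      · exact ⟨i, rfl⟩
      · exact absurd (h.mul_self i) h2
    have hconj2 : ∀ q : G, q * q ≠ 1 → (w * q * w⁻¹) * (w * q * w⁻¹) ≠ 1 := by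
      intro q h2 he
      apply h2
      calc q * q = w⁻¹ * ((w * q * w⁻¹) * (w * q * w⁻¹)) * w := by group
        _ = 1 := by rw [he]; group
    -- rotations of `Q` are carried to rotations
    have hA : ∀ q ∈ Q, q ∈ Subgroup.zpowers x → w * q * w⁻¹ ∈ Subgroup.zpowers x := by
      intro q hq hqx
      by_cases h2 : q * q = 1
      · -- `q` is a power of `a`
        have hwa : w * a * w⁻¹ ∈ Subgroup.zpowers x := hrot _ (hmem haQ) (hconj2 _ ha2)
        have hd : q ∈ Subgroup.zpowers a := by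
          by_cases hq1 : q = 1
          · rw [hq1]; exact Subgroup.one_mem _
          obtain ⟨i, rfl⟩ := hqx
          obtain ⟨l, rfl⟩ := hrot a haQ ha2
          simp only at h2 hq1 ha2 ⊢
          obtain ⟨e, -, he⟩ := (Nat.dvd_prime_pow Nat.prime_two).1
            (h.ox ▸ orderOf_dvd_of_mem_zpowers ⟨l, rfl⟩ : orderOf (x ^ l) ∣ 2 ^ m)
          have he0 : e ≠ 0 := fun e0 => ha2 (by
            rw [e0, pow_zero, orderOf_eq_one_iff] at he
            rw [he, mul_one])
          obtain ⟨e, rfl⟩ := Nat.exists_eq_succ_of_ne_zero he0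
          set r := (x ^ l) ^ 2 ^ e with hr
          have hr2 : r * r = 1 := by
            rw [hr, ← pow_add, ← two_mul, ← pow_succ', ← he, pow_orderOf_eq_one]
          have hr1 : r ≠ 1 := fun e1 => by
            have := orderOf_dvd_of_pow_eq_one e1
            rw [he, Nat.pow_dvd_pow_iff_le_right (by norm_num)] at this
            omega
          have hrx : r = x ^ (l * (2 ^ e : ℕ)) := by rw [hr, zpow_mul, zpow_natCast]
          rw [hrx] at hr2 hr1
          refine ⟨((2 ^ e : ℕ) : ℤ), ?_⟩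
          show (x ^ l) ^ (((2 ^ e : ℕ) : ℤ)) = x ^ i
          rw [← zpow_mul, ((hrot1 _ hr2).resolve_left hr1), ((hrot1 _ h2).resolve_left hq1)]
        obtain ⟨r, hr⟩ := hd
        rw [← hr, ← conj_zpow]
        exact Subgroup.zpow_mem _ hwa r
      · exact hrot _ (hmem hq) (hconj2 q h2)
    have hAinv : ∀ i : ℕ, ∀ q ∈ Q, q ∈ Subgroup.zpowers x →
        w ^ i * q * (w ^ i)⁻¹ ∈ Q ∧ w ^ i * q * (w ^ i)⁻¹ ∈ Subgroup.zpowers x := by
      intro i
      induction i with
      | zero => intro q hq hqx; simpa using And.intro hq hqx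
      | succ i ih =>
        intro q hq hqx
        obtain ⟨h1, h2⟩ := ih q hq hqx
        rw [pow_succ', show w * w ^ i * q * (w * w ^ i)⁻¹ = w * (w ^ i * q * (w ^ i)⁻¹) * w⁻¹ by
          group]
        exact ⟨hmem h1, hA _ h1 h2⟩
    -- fixed rotations
    haveI : IsCyclic (Q ⊓ Subgroup.zpowers x : Subgroup G) :=
      Subgroup.isCyclic_of_le inf_le_right
    obtain ⟨a₀, ha₀⟩ := IsCyclic.exists_generator (α := (Q ⊓ Subgroup.zpowers x : Subgroup G))
    have hrotfix : ∀ q ∈ Q, q ∈ Subgroup.zpowers x → w * q * w⁻¹ = q := by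
      have h0 : w * (a₀ : G) * w⁻¹ = a₀ := by
        obtain ⟨e, he⟩ : ∃ e : ℕ, orderOf (a₀ : G) = 2 ^ e := by
          obtain ⟨i, hi⟩ := a₀.2.2
          obtain ⟨e, -, he⟩ := (Nat.dvd_prime_pow Nat.prime_two).1
            (h.ox ▸ (orderOf_dvd_of_mem_zpowers ⟨i, hi⟩ : orderOf (a₀ : G) ∣ orderOf x))
          exact ⟨e, he⟩
        obtain ⟨j, hj⟩ := ha₀ ⟨w * (a₀ : G) * w⁻¹, hmem a₀.2.1, hA _ a₀.2.1 a₀.2.2⟩
        exact conj_eq_of_zpowers he (congrArg Subtype.val hj).symm hodd (hwk _)
      intro q hq hqx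
      obtain ⟨r, hr⟩ := ha₀ ⟨q, hq, hqx⟩
      have hr' : (a₀ : G) ^ r = q := congrArg Subtype.val hr
      rw [← hr', ← conj_zpow, h0]
    intro q hq
    by_cases hqx : q ∈ Subgroup.zpowers x
    · exact hrotfix q hq hqx
    have hq' : w * q * w⁻¹ ∉ Subgroup.zpowers x := by
      intro h'
      apply hqx
      have hpos : 0 < k := hodd.pos
      have := (hAinv (k - 1) _ (hmem hq) h').2
      rw [show w ^ (k - 1) * (w * q * w⁻¹) * (w ^ (k - 1))⁻¹ =
        w ^ (k - 1 + 1) * q * (w ^ (k - 1 + 1))⁻¹ by rw [pow_succ]; group,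
        Nat.sub_add_cancel hpos, hwk] at this
      exact this
    set d := w * q * w⁻¹ * q⁻¹ with hd
    have hdx : d ∈ Subgroup.zpowers x := by
      obtain ⟨i, e | e⟩ := h.mem_cases (hQD hq)
      · exact absurd ⟨i, e.symm⟩ hqx
      obtain ⟨i', e' | e'⟩ := h.mem_cases (hQD (hmem hq))
      · exact absurd ⟨i', e'.symm⟩ hq'
      rw [hd, e', e]
      exact ⟨i' - i, by show x ^ (i' - i) = _; rw [mul_inv_rev]; group⟩
    have hdQ : d ∈ Q := Q.mul_mem (hmem hq) (Q.inv_mem hq)
    have hdfix := hrotfix d hdQ hdx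
    have hit : ∀ i : ℕ, w ^ i * q * (w ^ i)⁻¹ = d ^ i * q := by
      intro i
      induction i with
      | zero => simp
      | succ i ih =>
        rw [pow_succ', show w * w ^ i * q * (w * w ^ i)⁻¹ = w * (w ^ i * q * (w ^ i)⁻¹) * w⁻¹ by
          group, ih, show w * (d ^ i * q) * w⁻¹ = (w * d ^ i * w⁻¹) * (w * q * w⁻¹) by group,
          ← conj_pow, hdfix, show w * q * w⁻¹ = d * q by rw [hd, inv_mul_cancel_right],
          ← mul_assoc, ← pow_succ]
    have hdk : d ^ k = 1 := by
      have := hit k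
      rw [hwk] at this
      exact mul_eq_right.1 this.symm
    obtain ⟨i, hi⟩ := hdx
    have hd1 : d = 1 := by
      rw [← orderOf_eq_one_iff]
      obtain ⟨e, -, he⟩ := (Nat.dvd_prime_pow Nat.prime_two).1
        (h.ox ▸ (orderOf_dvd_of_mem_zpowers ⟨i, hi⟩ : orderOf d ∣ orderOf x))
      have h1 : orderOf d ∣ k := orderOf_dvd_of_pow_eq_one hdk
      rw [he] at h1 ⊢
      rcases e with _ | e
      · rfl
      · exact absurd ((dvd_pow_self 2 (Nat.succ_ne_zero e)).trans h1)
          (fun h2 => Nat.not_even_iff_odd.2 hodd (even_iff_two_dvd.2 h2))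
    rw [hd, mul_inv_eq_one] at hd1
    exact hd1
  · -- at most four elements
    push Not at hbig
    obtain ⟨S, hS, hQS⟩ : ∃ S : Finset G, S.card ≤ 4 ∧ ∀ q ∈ Q, q ∈ S := by
      by_cases hr : ∃ r ∈ Q, r ∉ Subgroup.zpowers x
      · obtain ⟨r, hr, hrx⟩ := hr
        refine ⟨{1, x ^ ((2 : ℤ) ^ (m - 1)), r, x ^ ((2 : ℤ) ^ (m - 1)) * r}, Finset.card_le_four,
          fun q hq => ?_⟩
        simp only [Finset.mem_insert, Finset.mem_singleton]
        obtain ⟨i, rfl | rfl⟩ := h.mem_cases (hQD hq)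
        · rcases hrot1 i (hbig _ hq) with e | e <;> simp [e]
        · obtain ⟨l, rfl | rfl⟩ := h.mem_cases (hQD hr)
          · exact absurd ⟨l, rfl⟩ hrx
          have hp : x ^ i * y * (x ^ l * y) = x ^ (i - l) := by
            rw [mul_assoc, ← mul_assoc y, h.y_mul_zpow, mul_assoc, h.yy, mul_one, ← zpow_add,
              ← sub_eq_add_neg]
          have hp' := hbig _ (Q.mul_mem hq hr)
          rw [hp] at hp'
          have e2 : x ^ i * y = x ^ (i - l) * (x ^ l * y) := by
            rw [← mul_assoc, ← zpow_add, sub_add_cancel]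
          rcases hrot1 _ hp' with e | e <;> rw [e2, e] <;> simp
      · push Not at hr
        refine ⟨{1, x ^ ((2 : ℤ) ^ (m - 1))}, Finset.card_le_two.trans (by norm_num), fun q hq => ?_⟩
        obtain ⟨i, rfl⟩ := hr q hq
        rcases hrot1 i (hbig _ hq) with e | e <;> simp [e]
    intro q hq
    by_cases hq1 : q = 1
    · rw [hq1, mul_one, mul_inv_cancel]
    by_cases hqc : q = c
    · rw [hqc, hwc]
    set b := w * q * w⁻¹ with hb
    set d := w * b * w⁻¹ with hd
    by_contra hne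
    have hb1 : b ≠ 1 := fun e => hq1 (by rw [hb] at e; simpa using e)
    have hbc : b ≠ c := fun e => hqc (by
      rw [← hwc, hb] at e
      exact mul_left_cancel (mul_right_cancel e))
    have hd1 : d ≠ 1 := fun e => hb1 (by rw [hd] at e; simpa using e)
    have hdc : d ≠ c := fun e => hbc (by
      rw [← hwc, hd] at e
      exact mul_left_cancel (mul_right_cancel e))
    have hdb : d ≠ b := fun e => hne (by
      rw [hd, hb] at e
      exact mul_left_cancel (mul_right_cancel e))
    have hdq : d ≠ q := by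
      intro e
      obtain ⟨r, hr⟩ := hodd
      have h2 : Commute (w ^ 2) q := by
        show w ^ 2 * q = q * w ^ 2
        calc w ^ 2 * q = w * (w * q * w⁻¹) * w⁻¹ * w ^ 2 := by
              rw [pow_two]
              simp only [mul_assoc, inv_mul_cancel_left, mul_inv_cancel_left, inv_mul_cancel, mul_one]
          _ = q * w ^ 2 := by rw [← hb, ← hd, e]
      have h1 : Commute (w ^ k) q := by
        rw [hk, pow_orderOf_eq_one]; exact Commute.one_left q
      rw [hr, pow_succ, pow_mul] at h1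
      have h3 : Commute w q := by
        have := ((h2.pow_left r).inv_left).mul_left h1
        rwa [inv_mul_cancel_left] at this
      exact hne (by rw [hb, h3.eq, mul_inv_cancel_right])
    have hc1 : c ≠ 1 := fun e => by rw [e, orderOf_one] at hc; norm_num at hc
    have hsub : ({1, c, q, b, d} : Finset G) ⊆ S := by
      intro a ha
      simp only [Finset.mem_insert, Finset.mem_singleton] at ha
      rcases ha with rfl | rfl | rfl | rfl | rfl
      exacts [hQS _ Q.one_mem, hQS _ hcQ, hQS _ hq, hQS _ (hmem hq), hQS _ (hmem (hmem hq))]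
    have h5 : ({1, c, q, b, d} : Finset G).card = 5 := by
      simp [Ne.symm hc1, Ne.symm hq1, Ne.symm hb1, Ne.symm hd1, Ne.symm hqc, Ne.symm hbc,
        Ne.symm hdc, Ne.symm hne, Ne.symm hdq, Ne.symm hdb]
    have := Finset.card_le_card hsub
    omega

end Auto

section Block

variable {M : Ideal AlgInt} [hM : M.IsMaximal] {G : Type u} [Group G] [Fintype G]
  [hp : Fact (Nat.Prime 2)] [CharP (kres M) 2] {B : Set (IrrCharacter G)} (hB : IsPBlock M B)
  {g : (kres M)[G]} {D : Subgroup G} (hmax : IsMaxPairIdem 2 ⊤ (topEl M B) D g)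

include hB hmax in
/-- The defect group below a central element is the whole group. -/
theorem isDefectGroupIdem_center {z : G} (hz : z ∈ D) (hzc : ∀ d ∈ D, z * d = d * z) :
    IsDefectGroupIdem 2 (Subgroup.centralizer (Subgroup.zpowers z : Set G))
      (fBelow 2 D g (Subgroup.zpowers z)) D := by
  have hDC : D ≤ Subgroup.centralizer (Subgroup.zpowers z : Set G) := by
    rw [Blocks.centralizer_zpowers_eq]
    exact fun d hd => Subgroup.mem_centralizer_singleton_iff.2 (hzc d hd).symm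
  have h := (isDefectGroupIdem_centralizer_iff (isBlockIdem_topEl hB) hmax
    (fBelow_spec hmax.1.1 (Subgroup.zpowers_le.2 hz))).mp fun x _ => by
      rw [inf_eq_left.2 hDC]
      exact Subgroup.card_le_of_le inf_le_left
  rwa [inf_eq_left.2 hDC] at h

include hB hmax in
/-- The block below the central involution is nilpotent. -/
theorem isNilpotentIdem_center {m : ℕ} {x y : G} (h : IsDihGen D m x y) {z : G} (hz : z ∈ D)
    (hz2 : orderOf z = 2) :
    IsNilpotentIdem 2 (Subgroup.centralizer (Subgroup.zpowers z : Set G))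
      (fBelow 2 D g (Subgroup.zpowers z)) := by
  have hE := isBlockIdem_topEl hB (M := M)
  set U := Subgroup.zpowers z with hU
  have hle : U ≤ D := Subgroup.zpowers_le.2 hz
  have hUp : IsPGroup 2 U := hmax.1.1.1.to_le hle
  obtain ⟨hfb, hfo⟩ := mem_blocksOver.mp (fBelow_mem_blocksOver hB hmax hle)
  rw [top_inf_eq] at hfb
  set f := fBelow 2 D g U with hf
  intro Q e hQe w hwC hwN hwe hreg
  obtain ⟨⟨hQp, hQC, heb⟩, hQo⟩ := hQe
  have hQN : Q ≤ Subgroup.normalizer (U : Set G) :=
    hQC.trans (Subgroup.centralizer_le_normalizer _)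
  have hQ'p : IsPGroup 2 (Q ⊔ U : Subgroup G) := hQp.to_sup_of_normal_right' hUp hQN
  have hcent : Subgroup.centralizer ((Q ⊔ U : Subgroup G) : Set G) =
      Subgroup.centralizer (U : Set G) ⊓ Subgroup.centralizer (Q : Set G) := by
    refine le_antisymm (le_inf (Subgroup.centralizer_le (SetLike.coe_subset_coe.mpr (le_sup_right : U ≤ Q ⊔ U)))
      (Subgroup.centralizer_le (SetLike.coe_subset_coe.mpr (le_sup_left : Q ≤ Q ⊔ U)))) fun t ht => ?_
    refine Subgroup.le_centralizer_iff.mp ?_ ht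
    exact sup_le (Subgroup.le_centralizer_iff.mp inf_le_right)
      (Subgroup.le_centralizer_iff.mp inf_le_left)
  have hblock : IsBlockIdem ((⊤ : Subgroup G) ⊓ Subgroup.centralizer ((Q ⊔ U : Subgroup G) : Set G))
      e := by
    rw [top_inf_eq, hcent]; exact heb
  have htr : ∀ a : (kres M)[G], brTrunc (Q ⊔ U) a = brTrunc Q (brTrunc U a) := by
    intro a
    refine MonoidAlgebra.ext (Finsupp.ext fun t => ?_)
    by_cases ht : t ∈ Subgroup.centralizer ((Q ⊔ U : Subgroup G) : Set G)
    · rw [coeff_brTrunc_of_mem _ ht]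
      rw [hcent] at ht
      rw [coeff_brTrunc_of_mem _ ht.2, coeff_brTrunc_of_mem _ ht.1]
    · rw [coeff_brTrunc_of_not_mem _ ht]
      rw [hcent] at ht
      by_cases htQ : t ∈ Subgroup.centralizer (Q : Set G)
      · rw [coeff_brTrunc_of_mem _ htQ, coeff_brTrunc_of_not_mem _ fun htU => ht ⟨htU, htQ⟩]
      · rw [coeff_brTrunc_of_not_mem _ htQ]
  have hover : BrOver (Q ⊔ U) e (topEl M B) := by
    show brTrunc (Q ⊔ U) (topEl M B) * e = e
    have hE' : IsFixedBy (brTrunc U (topEl M B)) (Subgroup.centralizer (U : Set G)) :=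
      (hE.1.2.mono le_top).brTrunc (Subgroup.centralizer_le_normalizer _)
    have h1 : brTrunc Q f * e = e := hQo
    have hfo' : brTrunc U (topEl M B) * f = f := hfo
    have h2 : brTrunc Q (brTrunc U (topEl M B)) * brTrunc Q f = brTrunc Q f := by
      rw [← brTrunc_mul hQp (hE'.mono hQC) (hfb.1.2.mono hQC), hfo']
    calc brTrunc (Q ⊔ U) (topEl M B) * e
        = brTrunc Q (brTrunc U (topEl M B)) * (brTrunc Q f * e) := by rw [htr, h1]
      _ = brTrunc Q f * e := by rw [← mul_assoc, h2]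
      _ = e := h1
  have hwU : w ∈ Subgroup.normalizer ((Q ⊔ U : Subgroup G) : Set G) := by
    refine mem_normalizer_of_map_conj_le ?_
    rw [Subgroup.map_sup, map_conj_eq_self_of_mem_normalizer hwN,
      map_conj_eq_of_mem_centralizer hwC]
  obtain ⟨t, -, ht⟩ := IsPairOfIdem.exists_conj_le hE (⟨⟨hQ'p, le_top, hblock⟩, hover⟩ :
    IsPairOfIdem 2 ⊤ (topEl M B) (Q ⊔ U) e) hmax
  have hzU : z ∈ Q ⊔ U := Subgroup.mem_sup_right (Subgroup.mem_zpowers z)
  have hzc : ∀ q ∈ Q ⊔ U, z * q = q * z := by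
    intro q hq
    have : q ∈ Subgroup.centralizer (U : Set G) := by
      refine (sup_le hQC ?_) hq
      exact Subgroup.zpowers_le.2 (by
        rw [hU, Blocks.centralizer_zpowers_eq, Subgroup.mem_centralizer_singleton_iff])
    exact Subgroup.mem_centralizer_iff.1 this z (Subgroup.mem_zpowers z)
  have hwodd : Odd (orderOf w) := Nat.not_even_iff_odd.1 fun he => hreg (even_iff_two_dvd.1 he)
  have key := mem_centralizer_of_fix h ht.le (c := t * z * t⁻¹) ⟨z, hzU, by simp⟩
    (by rw [show t * z * t⁻¹ = MulAut.conj t z by simp, MulEquiv.orderOf_eq, hz2])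
    (by
      rintro _ ⟨q, hq, rfl⟩
      simp only [MulEquiv.coe_toMonoidHom, MulAut.conj_apply]
      calc t * z * t⁻¹ * (t * q * t⁻¹) = t * (z * q) * t⁻¹ := by group
        _ = t * (q * z) * t⁻¹ := by rw [hzc q hq]
        _ = _ := by group)
    (w := t * w * t⁻¹)
    (mem_normalizer_of_map_conj_le (by
      rw [map_conj_map_conj, show t * w * t⁻¹ * t = t * w by group, ← map_conj_map_conj,
        map_conj_eq_self_of_mem_normalizer hwU]))
    (by
      have := Subgroup.mem_centralizer_iff.1 hwC z (Subgroup.mem_zpowers z)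
      calc t * w * t⁻¹ * (t * z * t⁻¹) * (t * w * t⁻¹)⁻¹ = t * (w * z) * w⁻¹ * t⁻¹ := by group
        _ = t * (z * w) * w⁻¹ * t⁻¹ := by rw [← this]
        _ = _ := by group)
    (by rw [show t * w * t⁻¹ = MulAut.conj t w by simp, MulEquiv.orderOf_eq]; exact hwodd)
  rw [Subgroup.mem_centralizer_iff]
  intro q hq
  have := Subgroup.mem_centralizer_iff.1 key (t * q * t⁻¹) ⟨q, Subgroup.mem_sup_left hq, by simp⟩
  calc q * w = t⁻¹ * (t * q * t⁻¹ * (t * w * t⁻¹)) * t := by group
    _ = t⁻¹ * (t * w * t⁻¹ * (t * q * t⁻¹)) * t := by rw [this]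
    _ = w * q := by group

end Block

end CfsgLib.Blocks.CentralPair
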