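import Cfsg.Agent.Blocks.Dihedral.Lattice

/-!
# From the values on the rotations to the integral columns

The values `F p a` are combinations of powers of a primitive root of unity of order `L = 2 ^ m`
with integral coefficients `c p`, even in `a`, orthogonal for different `± a`; the differences
`c p i - c p 0` are the integral columns.
-/

set_option autoImplicit false
set_option maxHeartbeats 1000000
open scoped ComplexConjugate

namespace CfsgLib.Blocks.DihedralColumns

open CfsgLib.Blocks.DihedralLattice (sgn)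

variable {ι : Type*}

/-- The hypotheses. -/
structure Cols (s : Finset ι) (m : ℕ) (μ : ℂ) (c : ι → ℕ → ℤ) (F : ι → ℕ → ℂ) : Prop where
  two_le : 2 ≤ m
  prim : IsPrimitiveRoot μ (2 ^ m)
  expand : ∀ p ∈ s, ∀ a : ℕ, F p a = ∑ j ∈ Finset.range (2 ^ m), (c p j : ℂ) * μ ^ (j * a)
  even : ∀ p ∈ s, ∀ a, 0 < a → a < 2 ^ m → F p (2 ^ m - a) = F p a
  orth : ∀ a b, 0 < a → a < 2 ^ m → 0 < b → b < 2 ^ m → ∑ p ∈ s, F p a * conj (F p b) =
    ((2 ^ m : ℕ) : ℂ) * ((if a = b then 1 else 0) + (if a + b = 2 ^ m then 1 else 0))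

/-- The integral column with index `i`. -/
def vec (c : ι → ℕ → ℤ) (i : ℕ) (p : ι) : ℤ := c p i - c p 0

/-- The value at the middle. -/
def mid (m : ℕ) (c : ι → ℕ → ℤ) (p : ι) : ℤ := ∑ j ∈ Finset.range (2 ^ m), (-1) ^ j * c p j

variable {s : Finset ι} {m : ℕ} {μ : ℂ} {c : ι → ℕ → ℤ} {F : ι → ℕ → ℂ}

theorem geom (h : Cols s m μ c F) (n : ℕ) :
    ∑ a ∈ Finset.range (2 ^ m), μ ^ (n * a) = if 2 ^ m ∣ n then ((2 ^ m : ℕ) : ℂ) else 0 := by
  simp only [pow_mul]
  by_cases hn : 2 ^ m ∣ n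
  · rw [if_pos hn, (h.prim.pow_eq_one_iff_dvd n).2 hn]
    simp
  · rw [if_neg hn, geom_sum_eq (fun e => hn ((h.prim.pow_eq_one_iff_dvd n).1 e)),
      ← pow_mul, mul_comm, pow_mul, h.prim.pow_eq_one, one_pow, sub_self, zero_div]

theorem conj_pow (h : Cols s m μ c F) {j : ℕ} (hj : j ≤ 2 ^ m) (a : ℕ) :
    conj (μ ^ (j * a)) = μ ^ ((2 ^ m - j) * a) := by
  have h1 : ‖μ‖ = 1 :=
    Complex.norm_eq_one_of_pow_eq_one h.prim.pow_eq_one (Nat.two_pow_pos m).ne'
  have e1 : μ ^ ((2 ^ m - j) * a) * μ ^ (j * a) = 1 := by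
    rw [← pow_add, ← add_mul, Nat.sub_add_cancel hj, pow_mul, h.prim.pow_eq_one, one_pow]
  rw [eq_inv_of_mul_eq_one_left e1, map_pow, ← Complex.inv_eq_conj h1, inv_pow]

/-- The coefficients from the values. -/
theorem inversion (h : Cols s m μ c F) {p : ι} (hp : p ∈ s) {j : ℕ} (hj : j < 2 ^ m) :
    ∑ a ∈ Finset.range (2 ^ m), F p a * μ ^ ((2 ^ m - j) * a) = ((2 ^ m : ℕ) : ℂ) * c p j := by
  rw [Finset.sum_congr rfl fun a _ => by rw [h.expand p hp a, Finset.sum_mul], Finset.sum_comm]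
  rw [Finset.sum_congr rfl (g := fun i => (c p i : ℂ) *
      if 2 ^ m ∣ i + (2 ^ m - j) then ((2 ^ m : ℕ) : ℂ) else 0) fun i _ => ?_]
  · rw [Finset.sum_eq_single j]
    · rw [Nat.add_sub_cancel' hj.le, if_pos dvd_rfl]
      ring
    · intro i hi hne
      rw [Finset.mem_range] at hi
      rw [if_neg, mul_zero]
      intro hd
      have h1 := Nat.le_of_dvd (by omega) hd
      have h2 := Nat.eq_zero_of_dvd_of_lt (Nat.dvd_sub hd dvd_rfl) (by omega)
      omega
    · intro hn
      exact absurd (Finset.mem_range.2 hj) hn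
  · rw [← geom h, Finset.mul_sum]
    exact Finset.sum_congr rfl fun a _ => by rw [mul_assoc, ← pow_add, add_mul]

/-- The coefficients are even. -/
theorem coeff_even (h : Cols s m μ c F) {p : ι} (hp : p ∈ s) {j : ℕ} (hj0 : 0 < j)
    (hj : j < 2 ^ m) : c p (2 ^ m - j) = c p j := by
  have h2 : ((2 ^ m : ℕ) : ℂ) ≠ 0 := Nat.cast_ne_zero.2 (Nat.two_pow_pos m).ne'
  have e1 := inversion h hp hj
  have e2 := inversion h hp (show 2 ^ m - j < 2 ^ m by omega)
  rw [Finset.range_eq_Ico, Finset.sum_eq_sum_Ico_succ_bot (Nat.two_pow_pos m)] at e1 e2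
  have e3 : ∑ a ∈ Finset.Ico (0 + 1) (2 ^ m), F p a * μ ^ ((2 ^ m - (2 ^ m - j)) * a) =
      ∑ a ∈ Finset.Ico (0 + 1) (2 ^ m), F p a * μ ^ ((2 ^ m - j) * a) := by
    refine Finset.sum_nbij' (fun a => 2 ^ m - a) (fun a => 2 ^ m - a)
      (fun a ha => ?_) (fun a ha => ?_) (fun a ha => ?_) (fun a ha => ?_) fun a ha => ?_
    all_goals simp only [Finset.mem_Ico, Finset.coe_Ico, Set.mem_Ico] at ha ⊢
    any_goals omega
    rw [h.even p hp a (by omega) ha.2, Nat.sub_sub_self hj.le]
    congr 1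
    have r1 : μ ^ ((2 ^ m - j) * (2 ^ m - a)) * μ ^ (j * (2 ^ m - a)) = 1 := by
      rw [← pow_add, ← add_mul, Nat.sub_add_cancel hj.le, pow_mul, h.prim.pow_eq_one, one_pow]
    have r2 : μ ^ (j * a) * μ ^ (j * (2 ^ m - a)) = 1 := by
      rw [← pow_add, ← mul_add, Nat.add_sub_cancel' ha.2.le, mul_comm, pow_mul, h.prim.pow_eq_one,
        one_pow]
    exact (eq_inv_of_mul_eq_one_left r2).trans (eq_inv_of_mul_eq_one_left r1).symm
  rw [e3] at e2
  simp only [mul_zero, pow_zero] at e1 e2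
  exact_mod_cast mul_left_cancel₀ h2 (e2.symm.trans e1)

theorem conj_vec (c : ι → ℕ → ℤ) (i : ℕ) (p : ι) : conj (vec c i p : ℂ) = (vec c i p : ℂ) :=
  map_intCast _ _

/-- A column as a combination of the values. -/
theorem vec_eq (h : Cols s m μ c F) {p : ι} (hp : p ∈ s) {i : ℕ} (hi : i < 2 ^ m) :
    ((2 ^ m : ℕ) : ℂ) * (vec c i p : ℂ) =
      ∑ a ∈ Finset.Ico 1 (2 ^ m), F p a * (μ ^ ((2 ^ m - i) * a) - 1) := by
  have e1 := inversion h hp hi
  have e2 := inversion h hp (Nat.two_pow_pos m)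
  rw [vec, Int.cast_sub, mul_sub, ← e1, ← e2, ← Finset.sum_sub_distrib, Finset.range_eq_Ico,
    Finset.sum_eq_sum_Ico_succ_bot (Nat.two_pow_pos m)]
  simp only [mul_zero, pow_zero, sub_self, zero_add, Nat.sub_zero]
  refine Finset.sum_congr rfl fun a _ => ?_
  rw [pow_mul μ (2 ^ m) a, h.prim.pow_eq_one, one_pow, mul_sub]

/-- The Gram matrix. -/
theorem gram (h : Cols s m μ c F) {i j : ℕ} (hi0 : 0 < i) (hi : i ≤ 2 ^ (m - 1)) (hj0 : 0 < j)
    (hj : j ≤ 2 ^ (m - 1)) :
    ∑ p ∈ s, vec c i p * vec c j p =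
      (if i = j then 1 else 0) + (if i = j ∧ i = 2 ^ (m - 1) then 1 else 0) + 2 := by
  have hL : 2 ^ m = 2 * 2 ^ (m - 1) := by
    rw [← pow_succ', Nat.sub_add_cancel (le_of_lt h.two_le)]
  have hpos := Nat.two_pow_pos (m - 1)
  set L : ℕ := 2 ^ m with hLdef
  have hL0 : (L : ℂ) ≠ 0 := Nat.cast_ne_zero.2 (Nat.two_pow_pos m).ne'
  set φ : ℕ → ℕ → ℂ := fun i a => μ ^ ((L - i) * a) - 1 with hφ
  have key : ((L : ℂ) * L) * ∑ p ∈ s, (vec c i p : ℂ) * (vec c j p : ℂ) =
      (L : ℂ) * ∑ a ∈ Finset.Ico 1 L, φ i a * (conj (φ j a) + conj (φ j (L - a))) := by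
    calc ((L : ℂ) * L) * ∑ p ∈ s, (vec c i p : ℂ) * (vec c j p : ℂ)
        = ∑ p ∈ s, ((L : ℂ) * vec c i p) * conj ((L : ℂ) * vec c j p) := by
          rw [Finset.mul_sum]
          exact Finset.sum_congr rfl fun p _ => by rw [map_mul, map_natCast, conj_vec]; ring
      _ = ∑ a ∈ Finset.Ico 1 L, ∑ b ∈ Finset.Ico 1 L,
            (φ i a * conj (φ j b)) * ∑ p ∈ s, F p a * conj (F p b) := by
          rw [Finset.sum_congr rfl fun p hp => by
            rw [vec_eq h hp (show i < L by omega), vec_eq h hp (show j < L by omega), map_sum,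
              Finset.sum_mul_sum], Finset.sum_comm]
          refine Finset.sum_congr rfl fun a _ => ?_
          rw [Finset.sum_comm]
          refine Finset.sum_congr rfl fun b _ => ?_
          rw [Finset.mul_sum]
          exact Finset.sum_congr rfl fun p _ => by rw [map_mul, hφ]; ring
      _ = _ := by
          rw [Finset.mul_sum]
          refine Finset.sum_congr rfl fun a ha => ?_
          rw [Finset.mem_Ico] at ha
          rw [Finset.sum_congr rfl (g := fun b =>
              φ i a * conj (φ j b) * ((L : ℂ) * if a = b then 1 else 0) +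
                φ i a * conj (φ j b) * ((L : ℂ) * if a + b = L then 1 else 0)) fun b hb => by
            rw [Finset.mem_Ico] at hb
            rw [h.orth a b (by omega) ha.2 (by omega) hb.2, mul_add, mul_add]]
          rw [Finset.sum_add_distrib, Finset.sum_eq_single a, Finset.sum_eq_single (L - a)]
          · rw [if_pos rfl, if_pos (show a + (L - a) = L by omega)]
            ring
          · intro b _ hb'
            rw [if_neg (show ¬ a + b = L by omega), mul_zero, mul_zero]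
          · intro hn
            exact absurd (Finset.mem_Ico.2 ⟨show 1 ≤ L - a by omega, by omega⟩) hn
          · intro b _ hb'
            rw [if_neg hb'.symm, mul_zero, mul_zero]
          · intro hn
            exact absurd (Finset.mem_Ico.2 ⟨show 1 ≤ a by omega, ha.2⟩) hn
  have hval : ∑ a ∈ Finset.Ico 1 L, φ i a * (conj (φ j a) + conj (φ j (L - a))) =
      (L : ℂ) * ((if i = j then 1 else 0) + (if i = j ∧ i = 2 ^ (m - 1) then 1 else 0) + 2) := by
    have hc : ∀ a ∈ Finset.Ico 1 L, φ i a * (conj (φ j a) + conj (φ j (L - a))) =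
        μ ^ ((L - i + j) * a) + μ ^ ((L - i + (L - j)) * a) - 2 * μ ^ ((L - i) * a) -
          μ ^ (j * a) - μ ^ ((L - j) * a) + 2 := by
      intro a ha
      rw [Finset.mem_Ico] at ha
      have h1 : conj (φ j a) = μ ^ (j * a) - 1 := by
        simp only [hφ, map_sub, map_one]
        rw [conj_pow h (Nat.sub_le _ _), Nat.sub_sub_self (by omega)]
      have h2 : conj (φ j (L - a)) = μ ^ ((L - j) * a) - 1 := by
        simp only [hφ, map_sub, map_one]
        rw [conj_pow h (Nat.sub_le _ _), Nat.sub_sub_self (by omega)]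
        congr 1
        have e1 : μ ^ (j * (L - a)) * μ ^ (j * a) = 1 := by
          rw [← pow_add, ← mul_add, Nat.sub_add_cancel ha.2.le, mul_comm, pow_mul,
            h.prim.pow_eq_one, one_pow]
        have e2 : μ ^ ((L - j) * a) * μ ^ (j * a) = 1 := by
          rw [← pow_add, ← add_mul, Nat.sub_add_cancel (show j ≤ L by omega), pow_mul,
            h.prim.pow_eq_one, one_pow]
        exact (eq_inv_of_mul_eq_one_left e1).trans (eq_inv_of_mul_eq_one_left e2).symm
      rw [h1, h2]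
      simp only [hφ, add_mul, pow_add]
      ring
    rw [Finset.sum_congr rfl hc]
    have hIco : ∀ n, ∑ a ∈ Finset.Ico 1 L, μ ^ (n * a) =
        (if L ∣ n then (L : ℂ) else 0) - 1 := fun n => by
      have hg := geom h n
      rw [← hLdef, Finset.range_eq_Ico, Finset.sum_eq_sum_Ico_succ_bot (Nat.two_pow_pos m),
        mul_zero, pow_zero] at hg
      rw [← hg]
      ring
    simp only [Finset.sum_add_distrib, Finset.sum_sub_distrib, ← Finset.mul_sum, hIco,
      Finset.sum_const, Nat.card_Ico, nsmul_eq_mul]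
    have d1 : (L ∣ L - i + j) ↔ i = j := by
      constructor
      · rintro ⟨k, hk⟩
        rcases k with _ | _ | k
        · omega
        · omega
        · exfalso
          have : L * 2 ≤ L * (k + 1 + 1) := Nat.mul_le_mul_left _ (by omega)
          omega
      · rintro rfl
        rw [Nat.sub_add_cancel (by omega)]
    have d2 : (L ∣ L - i + (L - j)) ↔ (i = j ∧ i = 2 ^ (m - 1)) := by
      constructor
      · rintro ⟨k, hk⟩
        rcases k with _ | _ | k
        · omega
        · omega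
        · exfalso
          have : L * 2 ≤ L * (k + 1 + 1) := Nat.mul_le_mul_left _ (by omega)
          omega
      · rintro ⟨rfl, he⟩
        exact ⟨1, by omega⟩
    have d3 : ¬ L ∣ L - i := Nat.not_dvd_of_pos_of_lt (by omega) (by omega)
    have d4 : ¬ L ∣ j := Nat.not_dvd_of_pos_of_lt hj0 (by omega)
    have d5 : ¬ L ∣ L - j := Nat.not_dvd_of_pos_of_lt (by omega) (by omega)
    rw [if_congr d1 rfl rfl, if_congr d2 rfl rfl, if_neg d3, if_neg d4, if_neg d5,
      Nat.cast_sub (show 1 ≤ L by omega), Nat.cast_one]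
    split_ifs <;> ring
  rw [hval, ← mul_assoc (L : ℂ)] at key
  have := mul_left_cancel₀ (mul_ne_zero hL0 hL0) key
  split_ifs at this ⊢ <;> exact_mod_cast this

/-- Functions orthogonal to all values are orthogonal to the columns. -/
theorem sum_mul_vec (h : Cols s m μ c F) (φ : ι → ℂ)
    (hφ : ∀ a, 0 < a → a < 2 ^ m → ∑ p ∈ s, φ p * F p a = 0) {i : ℕ} (hi : i < 2 ^ m) :
    ∑ p ∈ s, φ p * (vec c i p : ℂ) = 0 := by
  refine (mul_eq_zero.1 (?_ : ((2 ^ m : ℕ) : ℂ) * _ = 0)).resolve_left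
    (Nat.cast_ne_zero.2 (Nat.two_pow_pos m).ne')
  rw [Finset.mul_sum, Finset.sum_congr rfl fun p hp => by
    rw [mul_left_comm, vec_eq h hp hi, Finset.mul_sum], Finset.sum_comm]
  refine Finset.sum_eq_zero fun a ha => ?_
  rw [Finset.mem_Ico] at ha
  rw [Finset.sum_congr rfl fun p _ => (mul_assoc _ _ _).symm, ← Finset.sum_mul,
    hφ a (by omega) ha.2, zero_mul]

theorem half_spec (h : Cols s m μ c F) : μ ^ 2 ^ (m - 1) = -1 := by
  have hL : 2 ^ m = 2 ^ (m - 1) * 2 := by
    rw [← pow_succ, Nat.sub_add_cancel (le_of_lt h.two_le)]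
  exact (IsPrimitiveRoot.pow (Nat.two_pow_pos m) h.prim hL).eq_neg_one_of_two_right

/-- The value at the middle is integral. -/
theorem apply_half (h : Cols s m μ c F) {p : ι} (hp : p ∈ s) :
    F p (2 ^ (m - 1)) = (mid m c p : ℂ) := by
  rw [h.expand p hp, mid, Int.cast_sum]
  refine Finset.sum_congr rfl fun j _ => ?_
  rw [pow_mul', half_spec h]
  push_cast
  ring

/-- The middle value through the columns. -/
theorem mid_eq (h : Cols s m μ c F) {p : ι} (hp : p ∈ s) :
    mid m c p = vec c (2 ^ (m - 1)) p +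
      2 * ∑ j : Fin (2 ^ (m - 1) - 1), (-1) ^ ((j : ℕ) + 1) * vec c ((j : ℕ) + 1) p := by
  have hm := h.two_le
  set H := 2 ^ (m - 1) with hH
  have hL : 2 ^ m = H + H := by rw [hH, ← two_mul, ← pow_succ', Nat.sub_add_cancel (le_of_lt hm)]
  have hHe : Even H := by rw [hH]; exact Nat.even_pow.2 ⟨even_two, by omega⟩
  have hH0 : 0 < H := Nat.two_pow_pos _
  set f : ℕ → ℤ := fun j => (-1) ^ j * c p j with hf
  have h1 : ∑ j ∈ Finset.Ico (H + 1) (H + H), f j = ∑ j ∈ Finset.Ico 1 H, f j := by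
    refine Finset.sum_nbij' (fun a => H + H - a) (fun a => H + H - a)
      (fun a ha => ?_) (fun a ha => ?_) (fun a ha => ?_) (fun a ha => ?_) fun a ha => ?_
    all_goals simp only [Finset.mem_Ico, Finset.coe_Ico, Set.mem_Ico] at ha ⊢
    any_goals omega
    simp only [hf]
    rw [← hL, coeff_even h hp (show 0 < a by omega) (by omega)]
    congr 1
    rw [neg_one_pow_eq_pow_mod_two, neg_one_pow_eq_pow_mod_two (n := 2 ^ m - a)]
    congr 1
    obtain ⟨r, hr⟩ := hHe
    omega
  have h2 : mid m c p = f 0 + ∑ j ∈ Finset.Ico 1 H, f j + f H + ∑ j ∈ Finset.Ico (H + 1) (H + H), f j := by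
    rw [mid, hL, Finset.range_eq_Ico, ← Finset.sum_Ico_consecutive _ (Nat.zero_le H) (Nat.le_add_right H H),
      Finset.sum_eq_sum_Ico_succ_bot hH0, Finset.sum_eq_sum_Ico_succ_bot (show H < H + H by omega)]
    ring
  have hsgn : ∑ j ∈ Finset.Ico 1 H, ((-1 : ℤ) ^ j) = -1 := by
    have h3 : ∑ j ∈ Finset.range H, ((-1 : ℤ) ^ j) = 0 := by
      rw [neg_one_geom_sum, if_pos hHe]
    rw [Finset.range_eq_Ico, Finset.sum_eq_sum_Ico_succ_bot hH0] at h3
    simp only [pow_zero, zero_add] at h3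
    linarith
  have h4 : ∑ j : Fin (H - 1), (-1 : ℤ) ^ ((j : ℕ) + 1) * vec c ((j : ℕ) + 1) p =
      ∑ j ∈ Finset.Ico 1 H, f j + c p 0 := by
    rw [Fin.sum_univ_eq_sum_range (fun j => (-1 : ℤ) ^ (j + 1) * vec c (j + 1) p),
      Finset.sum_Ico_eq_sum_range]
    have hcomm : ∀ k, 1 + k = k + 1 := fun k => by omega
    simp only [hcomm, vec, mul_sub, Finset.sum_sub_distrib, hf, ← Finset.sum_mul]
    have : ∑ k ∈ Finset.range (H - 1), ((-1 : ℤ) ^ (k + 1)) = -1 := by
      refine Eq.trans ?_ hsgn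
      rw [Finset.sum_Ico_eq_sum_range]
      simp only [hcomm]
    rw [this]
    ring
  rw [h2, h1, h4, vec]
  simp only [hf, pow_zero, hHe.neg_one_pow, one_mul]
  ring

/-- The data of the lattice. -/
theorem data (h : Cols s m μ c F) (deg : ι → ℕ) (hpos : ∀ p ∈ s, 0 < deg p)
    (hdeg : ∀ a, 0 < a → a < 2 ^ m → ∑ p ∈ s, (deg p : ℂ) * F p a = 0)
    (hne : ∀ p ∈ s, mid m c p ≠ 0) (hodd : ∃ p ∈ s, Odd (mid m c p)) :
    DihedralLattice.Data s (2 ^ (m - 1) - 1) (fun j p => vec c ((j : ℕ) + 1) p)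
      (vec c (2 ^ (m - 1))) (fun p => (deg p : ℤ)) (mid m c) := by
  have hm := h.two_le
  have hL : 2 ^ m = 2 * 2 ^ (m - 1) := by rw [← pow_succ', Nat.sub_add_cancel (le_of_lt hm)]
  have hH0 : 0 < 2 ^ (m - 1) := Nat.two_pow_pos _
  have hd : ∀ i, i < 2 ^ m → ∑ p ∈ s, vec c i p * (deg p : ℤ) = 0 := by
    intro i hi
    have := sum_mul_vec h (fun p => (deg p : ℂ)) hdeg hi
    have e : ((∑ p ∈ s, vec c i p * (deg p : ℤ) : ℤ) : ℂ) = 0 := by
      rw [← this]
      push_cast
      exact Finset.sum_congr rfl fun p _ => mul_comm _ _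
    exact_mod_cast e
  refine ⟨fun p hp => by exact_mod_cast hpos p hp, ?_, fun j => ?_, fun j => ?_, fun j k hjk => ?_,
    ?_, hd _ (by omega), fun j => hd _ (by omega), fun p hp => ?_, hne, hodd⟩
  · rw [gram h hH0 le_rfl hH0 le_rfl, if_pos rfl, if_pos ⟨rfl, rfl⟩]
    norm_num
  · rw [gram h (Nat.succ_pos _) (by omega) hH0 le_rfl, if_neg (by omega), if_neg (by omega)]
    norm_num
  · rw [gram h (Nat.succ_pos _) (by omega) (Nat.succ_pos _) (by omega), if_pos rfl,
      if_neg (by omega)]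
    norm_num
  · have := Fin.val_ne_of_ne hjk
    rw [gram h (Nat.succ_pos _) (by omega) (Nat.succ_pos _) (by omega), if_neg (by omega),
      if_neg (by omega)]
    norm_num
  · have ho := h.orth (2 ^ (m - 1)) (2 ^ (m - 1)) hH0 (by omega) hH0 (by omega)
    rw [if_pos rfl, if_pos (by omega), Finset.sum_congr rfl fun p hp => by
      rw [apply_half h hp, map_intCast]] at ho
    have e : ((∑ p ∈ s, mid m c p * mid m c p : ℤ) : ℂ) =
        ((4 * ((2 ^ (m - 1) - 1 : ℕ) + 1) : ℤ) : ℂ) := by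
      push_cast
      rw [ho]
      rw [Nat.cast_sub (show 1 ≤ 2 ^ (m - 1) by omega), hL]
      push_cast
      ring
    exact_mod_cast e
  · rw [mid_eq h hp]
    simp only [sgn]

/-- The columns are independent. -/
theorem linearIndependent_vec (h : Cols s m μ c F) :
    LinearIndependent ℂ fun (i : Fin (2 ^ (m - 1))) (p : s) => (vec c ((i : ℕ) + 1) p : ℂ) := by
  classical
  rw [Fintype.linearIndependent_iff]
  set H := 2 ^ (m - 1) with hH
  intro g hg
  have hH0 : 0 < H := Nat.two_pow_pos _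
  set S := ∑ i, g i with hS
  have key : ∀ j : Fin H, g j * (1 + if (j : ℕ) + 1 = H then 1 else 0) + 2 * S = 0 := by
    intro j
    have h0 : ∀ p : s, ∑ i, g i * (vec c ((i : ℕ) + 1) p : ℂ) = 0 := fun p => by
      have := congrFun hg p
      simpa using this
    have e : ∑ i, g i * ∑ p ∈ s, ((vec c ((i : ℕ) + 1) p : ℂ) * (vec c ((j : ℕ) + 1) p : ℂ)) = 0 := by
      simp only [Finset.mul_sum]
      rw [Finset.sum_comm]
      refine Finset.sum_eq_zero fun p hp => ?_
      rw [Finset.sum_congr rfl fun i _ => (mul_assoc _ _ _).symm, ← Finset.sum_mul, h0 ⟨p, hp⟩,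
        zero_mul]
    have hG : ∀ i : Fin H, ∑ p ∈ s, ((vec c ((i : ℕ) + 1) p : ℂ) * (vec c ((j : ℕ) + 1) p : ℂ)) =
        (if i = j then (1 + if (j : ℕ) + 1 = H then 1 else 0) else 0) + 2 := by
      intro i
      have hi := i.isLt
      have hj := j.isLt
      have := congrArg (fun t : ℤ => (t : ℂ))
        (gram h (i := (i : ℕ) + 1) (j := (j : ℕ) + 1) (Nat.succ_pos _) (by omega) (Nat.succ_pos _)
          (by omega))
      push_cast at this
      rw [this]
      by_cases hij : i = j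
      · subst hij
        simp
        congr
      · rw [if_neg hij, if_neg fun e => hij (Fin.ext (by omega)), if_neg fun e => hij (Fin.ext (by omega))]
        ring
    rw [Finset.sum_congr rfl fun i _ => by rw [hG i, mul_add, mul_ite, mul_zero],
      Finset.sum_add_distrib, Finset.sum_ite_eq', if_pos (Finset.mem_univ j), ← Finset.sum_mul] at e
    rw [hS]
    linear_combination e
  have hg' : ∀ j : Fin H, g j = -(2 * S) + (if (j : ℕ) + 1 = H then S else 0) := by
    intro j
    have := key j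
    split_ifs at this ⊢
    · linear_combination this / 2
    · linear_combination this
  have hlast : ∑ j : Fin H, (if (j : ℕ) + 1 = H then S else 0) = S := by
    rw [Finset.sum_eq_single (⟨H - 1, by omega⟩ : Fin H)]
    · rw [if_pos]; show H - 1 + 1 = H; omega
    · intro b _ hb
      exact if_neg fun e => hb (Fin.ext (by simp only; omega))
    · exact fun hn => absurd (Finset.mem_univ _) hn
  have hS0 : S = 0 := by
    have e : S = ∑ j, g j := hS
    rw [Finset.sum_congr rfl fun j _ => hg' j, Finset.sum_add_distrib, hlast, Finset.sum_const,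
      Finset.card_univ, Fintype.card_fin, nsmul_eq_mul] at e
    have h2 : (2 * (H : ℂ)) * S = 0 := by linear_combination e
    exact (mul_eq_zero.1 h2).resolve_left (mul_ne_zero two_ne_zero (Nat.cast_ne_zero.2 hH0.ne'))
  intro j
  rw [hg' j, hS0]
  simp

/-- The values for the order eight. -/
theorem apply_eight (h : Cols s 3 μ c F) {p : ι} (hp : p ∈ s) :
    F p 2 = ((vec c 4 p - 2 * vec c 2 p : ℤ) : ℂ) ∧
      F p 1 = -(vec c 4 p : ℂ) + (μ + μ ^ 7) * ((vec c 1 p - vec c 3 p : ℤ) : ℂ) := by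
  have h4 : μ ^ 4 = -1 := half_spec h
  have e5 := coeff_even h hp (j := 3) (by norm_num) (by norm_num)
  have e6 := coeff_even h hp (j := 2) (by norm_num) (by norm_num)
  have e7 := coeff_even h hp (j := 1) (by norm_num) (by norm_num)
  norm_num at e5 e6 e7
  constructor <;> rw [h.expand p hp] <;>
    simp only [show (2 : ℕ) ^ 3 = 8 from rfl, Finset.sum_range_succ, Finset.sum_range_zero, vec, e5, e6, e7] <;>
    push_cast
  · linear_combination ((c p 1 : ℂ) * μ ^ 2 * (μ ^ 8 - μ ^ 4 + 1) +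
      (c p 2 : ℂ) * (μ ^ 8 - μ ^ 4 + 2) + (c p 3 : ℂ) * μ ^ 6 + (c p 4 : ℂ) * (μ ^ 4 - 1)) * h4
  · linear_combination ((c p 4 : ℂ) + c p 2 * μ ^ 2 + (c p 3 : ℂ) * (μ + μ ^ 3)) * h4

/-- The square of the sum of a primitive eighth root and its inverse. -/
theorem sq_eight (h : Cols s 3 μ c F) : (μ + μ ^ 7) ^ 2 = 2 := by
  have h4 : μ ^ 4 = -1 := half_spec h
  linear_combination (μ ^ 10 - μ ^ 6 + μ ^ 2 + 2 * μ ^ 4 - 2) * h4

end CfsgLib.Blocks.DihedralColumns
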