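import Cfsg.Agent.Blocks.Subsection.Major
import Cfsg.Agent.Chars.Basic.Columns

/-!
# Autocorrelations of class functions and spreading from a centralizer

For a class function `A` the autocorrelation `h ↦ ∑ k, A k * conj (A (h * k))` has the coefficient
`|∑ A ξ| ^ 2 / (|K| ξ 1)` at `ξ`; modulo two it only depends on the values of `A` on the
centralizer of an involution.
-/

set_option autoImplicit false
set_option maxHeartbeats 1000000
open scoped ComplexConjugate

namespace CfsgLib.Blocks.DihedralBlk

open Cfsg CfsgLib CfsgLib.Blocks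

universe u

section Corr

variable {K : Type u} [Group K] [Fintype K]

/-- The autocorrelation. -/
noncomputable def autoCorr (A : K → ℂ) (h : K) : ℂ := ∑ k : K, A k * conj (A (h * k))

theorem isClassFunction_autoCorr {A : K → ℂ} (hA : IsClassFunction K A) :
    IsClassFunction K (autoCorr A) := by
  intro a w
  show autoCorr A (w * a * w⁻¹) = autoCorr A a
  refine (Fintype.sum_equiv (MulAut.conj w).toEquiv _ _ fun k => ?_).symm
  show A k * conj (A (a * k)) = A (w * k * w⁻¹) * conj (A (w * a * w⁻¹ * (w * k * w⁻¹)))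
  rw [hA k w, show w * a * w⁻¹ * (w * k * w⁻¹) = w * (a * k) * w⁻¹ by group, hA (a * k) w]

theorem classInner_autoCorr {A : K → ℂ} (hA : IsClassFunction K A) (ξ : IrrCharacter K) :
    classInner (autoCorr A) (ξ : K → ℂ) =
      (∑ k : K, A k * (ξ : K → ℂ) k) * conj (∑ k : K, A k * (ξ : K → ℂ) k) /
        ((Nat.card K : ℂ) * (ξ : K → ℂ) 1) := by
  set B' : K → ℂ := fun w => conj (A w⁻¹) with hB'
  have h1 : (∑ g : K, autoCorr A g * conj ((ξ : K → ℂ) g)) =
      (ξ : K → ℂ) 1 * omega (ξ : K → ℂ) (ofFun A * ofFun B') := by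
    rw [omega_apply, ← Finset.sum_div,
      mul_div_cancel₀ _ (Chars.map_one_ne_zero ξ)]
    refine Fintype.sum_equiv (Equiv.inv K) _ _ fun g => ?_
    show autoCorr A g * conj ((ξ : K → ℂ) g) =
      (ofFun A * ofFun B').coeff g⁻¹ * (ξ : K → ℂ) g⁻¹
    rw [← Chars.map_inv_eq_conj (Chars.isCharacter_coe ξ), coeff_mul_eq_sum, autoCorr]
    congr 1
    refine Finset.sum_congr rfl fun k _ => ?_
    simp only [coeff_ofFun, hB', mul_inv_rev, inv_inv]
  have h2 : omega (ξ : K → ℂ) (ofFun B') =
      conj (∑ k : K, A k * (ξ : K → ℂ) k) / (ξ : K → ℂ) 1 := by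
    rw [omega_ofFun, ← Finset.sum_div, map_sum]
    congr 1
    refine Fintype.sum_equiv (Equiv.inv K) _ _ fun k => ?_
    show B' k * (ξ : K → ℂ) k = conj (A k⁻¹ * (ξ : K → ℂ) k⁻¹)
    rw [map_mul, Chars.map_inv_eq_conj (Chars.isCharacter_coe ξ), Complex.conj_conj]
  have h3 : omega (ξ : K → ℂ) (ofFun A) = (∑ k : K, A k * (ξ : K → ℂ) k) / (ξ : K → ℂ) 1 := by
    rw [omega_ofFun, ← Finset.sum_div]
  rw [classInner, h1, omega_mul ξ.2 (isCentralElt_ofFun hA), h2, h3]
  have := Chars.map_one_ne_zero ξ
  have := Chars.natCard_ne_zero (G := K)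
  field_simp

open scoped Classical in
/-- The autocorrelation through the characters. -/
theorem autoCorr_eq_sum [Fintype (IrrCharacter K)] {A : K → ℂ} (hA : IsClassFunction K A) (h : K) :
    autoCorr A h = ∑ ξ : IrrCharacter K,
      (∑ k : K, A k * (ξ : K → ℂ) k) * conj (∑ k : K, A k * (ξ : K → ℂ) k) /
        ((Nat.card K : ℂ) * (ξ : K → ℂ) 1) * (ξ : K → ℂ) h := by
  rw [Chars.eq_sum_classInner_mul (isClassFunction_autoCorr hA) h]
  refine Finset.sum_congr (Finset.ext fun _ => by simp) fun ξ _ => ?_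
  rw [classInner_autoCorr hA]

end Corr

section Congruence

variable {G : Type u} [Group G] [Fintype G] {M : Ideal AlgInt} [M.IsMaximal]

/-- A function invariant under a free involution has a sum divisible by two. -/
theorem memLocalIdeal_sum_invol (h2 : MemLocalIdeal M (2 : ℂ)) {ι : Type*} (s : Finset ι)
    (τ : ι → ι) (f : ι → ℂ) (hs : ∀ i ∈ s, τ i ∈ s) (hinv : ∀ i ∈ s, τ (τ i) = i)
    (hfree : ∀ i ∈ s, τ i ≠ i) (hf : ∀ i ∈ s, f (τ i) = f i)
    (hloc : ∀ i ∈ s, MemLocalRing M (f i)) : MemLocalIdeal M (∑ i ∈ s, f i) := by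
  classical
  obtain ⟨lo⟩ : Nonempty (LinearOrder ι) := ⟨linearOrderOfSTO WellOrderingRel⟩
  letI := lo
  have hsplit := Finset.sum_filter_add_sum_filter_not s (fun i => i < τ i) f
  have heq : ∑ i ∈ s.filter (fun i => ¬ i < τ i), f i = ∑ i ∈ s.filter (fun i => i < τ i), f i := by
    refine Finset.sum_nbij' τ τ ?_ ?_ ?_ ?_ ?_
    · intro i hi
      simp only [Finset.mem_coe, Finset.mem_filter] at hi ⊢
      refine ⟨hs i hi.1, ?_⟩
      rw [hinv i hi.1]
      exact lt_of_le_of_ne (not_lt.1 hi.2) (hfree i hi.1)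
    · intro i hi
      simp only [Finset.mem_coe, Finset.mem_filter] at hi ⊢
      refine ⟨hs i hi.1, ?_⟩
      rw [hinv i hi.1]
      exact hi.2.not_gt
    · exact fun i hi => hinv i (Finset.mem_filter.1 hi).1
    · exact fun i hi => hinv i (Finset.mem_filter.1 hi).1
    · exact fun i hi => (hf i (Finset.mem_filter.1 hi).1).symm
  rw [← hsplit, heq, ← two_mul]
  exact memLocalIdeal_mul_right h2 ((localRing M).sum_mem fun i hi => hloc i (Finset.mem_filter.1 hi).1)

/-- Modulo two the autocorrelation lives on the centralizer of an involution. -/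
theorem autoCorr_congr (h2 : MemLocalIdeal M (2 : ℂ)) {H : Subgroup G} [Fintype H] {z : G}
    (hH : H = Subgroup.centralizer ({z} : Set G)) (hzz : z * z = 1) {A : G → ℂ}
    (hA : IsClassFunction G A) (hloc : ∀ g, MemLocalRing M (A g))
    (hloc' : ∀ g, MemLocalRing M (conj (A g))) (h : H) :
    MemLocalIdeal M (autoCorr A (h : G) - autoCorr (fun k : H => A (k : G)) h) := by
  classical
  have hinv : z⁻¹ = z := inv_eq_of_mul_eq_one_left hzz
  have hcz : z * (h : G) = (h : G) * z :=
    ((Subgroup.mem_centralizer_singleton_iff.1 (hH ▸ h.2 : (h : G) ∈ _))).symm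
  set f : G → ℂ := fun k => A k * conj (A ((h : G) * k)) with hfdef
  have hsub : autoCorr (fun k : H => A (k : G)) h = ∑ k ∈ Finset.univ.filter (· ∈ H), f k := by
    rw [Finset.sum_subtype (F := inferInstance) (p := (· ∈ H)) _ (fun k => by simp) f]
    rfl
  rw [hsub, autoCorr, ← Finset.sum_filter_add_sum_filter_not Finset.univ (· ∈ H) f,
    add_sub_cancel_left]
  refine memLocalIdeal_sum_invol h2 _ (fun k => z * k * z) f ?_ ?_ ?_ ?_ ?_
  · intro k hk
    simp only [Finset.mem_filter, Finset.mem_univ, true_and] at hk ⊢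
    intro hm
    apply hk
    rw [hH, Subgroup.mem_centralizer_singleton_iff] at hm ⊢
    calc k * z = z * z * (k * z) := by rw [hzz, one_mul]
      _ = z * (z * k * z) := by simp only [mul_assoc]
      _ = z * k * z * z := hm.symm
      _ = z * k := by rw [mul_assoc, hzz, mul_one]
  · intro k _
    calc z * (z * k * z) * z = (z * z) * k * (z * z) := by group
      _ = k := by rw [hzz, one_mul, mul_one]
  · intro k hk hfix
    simp only [Finset.mem_filter, Finset.mem_univ, true_and] at hk
    apply hk
    rw [hH, Subgroup.mem_centralizer_singleton_iff]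
    calc k * z = z * k * z * z := by rw [hfix]
      _ = z * k := by rw [mul_assoc, hzz, mul_one]
  · intro k _
    have e1 : A (z * k * z) = A k := by
      have := hA k z
      rwa [hinv] at this
    have e2 : A ((h : G) * (z * k * z)) = A ((h : G) * k) := by
      have := hA ((h : G) * k) z
      rw [hinv, ← mul_assoc, hcz] at this
      rw [← this]
      congr 1
      group
    simp only [hfdef, e1, e2]
  · intro k _
    exact (localRing M).mul_mem (hloc _) (hloc' _)

end Congruence

section Spread

variable {G : Type u} [Group G] [Fintype G] {H : Subgroup G} [Fintype H]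

open scoped Classical in
/-- The class function of `G` carried by the section of `v` with weights `e`. -/
noncomputable def spread (p : ℕ) (v : H) [Fintype (Subgroup.centralizer (Subgroup.zpowers v : Set H))]
    (e : Subgroup.centralizer (Subgroup.zpowers v : Set H) → ℂ) (g : G) : ℂ :=
  (Nat.card (Subgroup.centralizer (Subgroup.zpowers v : Set H)) : ℂ)⁻¹ *
    ∑ k : G, ∑ t ∈ regSet p (Subgroup.centralizer (Subgroup.zpowers v : Set H)),
      if k * ((v * (t : H) : H) : G) * k⁻¹ = g then e t else 0

variable {p : ℕ} {v : H} [Fintype (Subgroup.centralizer (Subgroup.zpowers v : Set H))]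
  {e : Subgroup.centralizer (Subgroup.zpowers v : Set H) → ℂ}

theorem isClassFunction_spread : IsClassFunction G (spread p v e) := by
  classical
  intro a w
  show spread p v e (w * a * w⁻¹) = spread p v e a
  rw [spread, spread]
  congr 1
  refine Fintype.sum_equiv (Equiv.mulLeft w⁻¹) _ _ fun k => ?_
  refine Finset.sum_congr rfl fun t _ => ?_
  refine if_congr ?_ rfl rfl
  show k * _ * k⁻¹ = w * a * w⁻¹ ↔ w⁻¹ * k * _ * (w⁻¹ * k)⁻¹ = a
  constructor
  · intro h
    calc w⁻¹ * k * ((v * (t : H) : H) : G) * (w⁻¹ * k)⁻¹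
        = w⁻¹ * (k * ((v * (t : H) : H) : G) * k⁻¹) * w := by group
      _ = a := by rw [h]; group
  · intro h
    rw [← h]
    group

theorem conj_spread (g : G) : conj (spread p v e g) = spread p v (fun t => conj (e t)) g := by
  classical
  simp only [spread, map_mul, map_inv₀, map_natCast, map_sum]
  congr 1
  refine Finset.sum_congr rfl fun k _ => Finset.sum_congr rfl fun t _ => ?_
  split_ifs <;> simp

/-- The sum against a function. -/
theorem sum_spread_mul {f : G → ℂ} (hf : IsClassFunction G f) :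
    ∑ g : G, spread p v e g * f g =
      (Nat.card G : ℂ) / (Nat.card (Subgroup.centralizer (Subgroup.zpowers v : Set H)) : ℂ) *
        ∑ t ∈ regSet p (Subgroup.centralizer (Subgroup.zpowers v : Set H)),
          e t * f ((v * (t : H) : H) : G) := by
  classical
  simp only [spread, mul_assoc (Nat.card _ : ℂ)⁻¹, ← Finset.mul_sum, Finset.sum_mul]
  rw [Finset.sum_comm]
  rw [Finset.sum_congr rfl (g := fun _ => ∑ t ∈ regSet p _, e t * f ((v * (t : H) : H) : G))
    fun k _ => ?_]
  · rw [Finset.sum_const, Finset.card_univ, nsmul_eq_mul, ← Nat.card_eq_fintype_card, div_eq_mul_inv]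
    ring
  · rw [Finset.sum_comm]
    refine Finset.sum_congr rfl fun t _ => ?_
    simp only [ite_mul, zero_mul]
    rw [Finset.sum_ite_eq, if_pos (Finset.mem_univ _), hf]

/-- The sum over `H` against a function which only sees the classes in `H`. -/
theorem sum_spread_mul_sub {f : H → ℂ} (hf : IsClassFunction H f)
    (hsee : ∀ (k : G) (t : Subgroup.centralizer (Subgroup.zpowers v : Set H)) (h : H),
      IsPRegular p t → k * ((v * (t : H) : H) : G) * k⁻¹ = (h : G) → f h ≠ 0 → k ∈ H) :
    ∑ h : H, spread p v e (h : G) * f h =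
      (Nat.card H : ℂ) / (Nat.card (Subgroup.centralizer (Subgroup.zpowers v : Set H)) : ℂ) *
        ∑ t ∈ regSet p (Subgroup.centralizer (Subgroup.zpowers v : Set H)),
          e t * f (v * (t : H)) := by
  classical
  simp only [spread, mul_assoc (Nat.card _ : ℂ)⁻¹, ← Finset.mul_sum, Finset.sum_mul]
  rw [Finset.sum_comm]
  rw [Finset.sum_congr rfl (g := fun k => if k ∈ H then
    ∑ t ∈ regSet p _, e t * f (v * (t : H)) else 0) fun k _ => ?_]
  · rw [← Finset.sum_filter, Finset.sum_const, nsmul_eq_mul,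
      show (Finset.univ.filter (· ∈ H)).card = Nat.card H by
        rw [Nat.card_eq_fintype_card, Fintype.card_subtype], div_eq_mul_inv]
    ring
  · rw [Finset.sum_comm]
    split_ifs with hk
    · refine Finset.sum_congr rfl fun t _ => ?_
      rw [Finset.sum_eq_single (⟨k, hk⟩ * (v * (t : H)) * (⟨k, hk⟩ : H)⁻¹)]
      · rw [if_pos (by push_cast; rfl), hf]
      · intro h _ hne
        rw [if_neg, zero_mul]
        intro e'
        apply hne
        exact Subtype.ext (by push_cast; exact e'.symm)
      · simp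
    · refine Finset.sum_eq_zero fun t ht => Finset.sum_eq_zero fun h _ => ?_
      by_contra hne
      obtain ⟨h1, h2⟩ := mul_ne_zero_iff.1 hne
      split_ifs at h1 with h3
      · exact hk (hsee k t h (mem_regSet.1 ht) h3 h2)
      · exact h1 rfl

/-- The values are those of the weights. -/
theorem memLocalRing_spread {M : Ideal AlgInt} [M.IsMaximal]
    (hcl : IsClassFunction (Subgroup.centralizer (Subgroup.zpowers v : Set H)) e)
    (hloc : ∀ t, MemLocalRing M (e t))
    (hdis : ∀ (w : G) (t t' : Subgroup.centralizer (Subgroup.zpowers v : Set H)), IsPRegular p t →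
      IsPRegular p t' → w * ((v * (t : H) : H) : G) * w⁻¹ = ((v * (t' : H) : H) : G) →
        ∃ c : Subgroup.centralizer (Subgroup.zpowers v : Set H), ((c : H) : G) = w) (g : G) :
    MemLocalRing M (spread p v e g) := by
  classical
  by_cases hex : ∃ (k : G) (t : Subgroup.centralizer (Subgroup.zpowers v : Set H)),
      IsPRegular p t ∧ k * ((v * (t : H) : H) : G) * k⁻¹ = g
  swap
  · rw [spread, Finset.sum_eq_zero fun k _ => Finset.sum_eq_zero fun t ht =>
      if_neg fun h => hex ⟨k, t, mem_regSet.1 ht, h⟩, mul_zero]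
    exact (localRing M).zero_mem
  obtain ⟨k₀, t₀, ht₀, h₀⟩ := hex
  have hcomm : ∀ c : Subgroup.centralizer (Subgroup.zpowers v : Set H), (c : H) * v = v * (c : H) := fun c =>
    (Subgroup.mem_centralizer_iff.1 c.2 v (Subgroup.mem_zpowers v)).symm
  suffices hval : spread p v e g = e t₀ by rw [hval]; exact hloc t₀
  rw [spread]
  have hsum : (∑ k : G, ∑ t ∈ regSet p (Subgroup.centralizer (Subgroup.zpowers v : Set H) : Subgroup H),
      if k * ((v * (t : H) : H) : G) * k⁻¹ = g then e t else 0) = ∑ _c : (Subgroup.centralizer (Subgroup.zpowers v : Set H) : Subgroup H), e t₀ := by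
    rw [← Finset.sum_product']
    symm
    refine Finset.sum_bij_ne_zero (fun c _ _ => (k₀ * ((c : H) : G), c⁻¹ * t₀ * c)) ?_ ?_ ?_ ?_
    · intro c _ _
      rw [Finset.mem_product, mem_regSet]
      refine ⟨Finset.mem_univ _, ?_⟩
      show ¬ p ∣ orderOf (c⁻¹ * t₀ * c)
      rw [show c⁻¹ * t₀ * c = c⁻¹ * t₀ * c⁻¹⁻¹ by rw [inv_inv], ← MulAut.conj_apply,
        MulEquiv.orderOf_eq]
      exact ht₀
    · intro c _ _ c' _ _ h
      exact Subtype.ext (Subtype.ext (mul_left_cancel (congrArg Prod.fst h)))
    · rintro ⟨k, t⟩ hkt hne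
      rw [Finset.mem_product, mem_regSet] at hkt
      simp only at hne
      split_ifs at hne with heq
      swap
      · exact absurd rfl hne
      obtain ⟨c, hc⟩ := hdis (k₀⁻¹ * k) t t₀ hkt.2 ht₀ (by
        rw [← h₀] at heq
        calc k₀⁻¹ * k * ((v * (t : H) : H) : G) * (k₀⁻¹ * k)⁻¹
            = k₀⁻¹ * (k * ((v * (t : H) : H) : G) * k⁻¹) * k₀ := by group
          _ = _ := by rw [heq]; group)
      have ek : k₀ * ((c : H) : G) = k := by rw [hc]; group
      have e1 : (c : H) * (v * (t : H)) * (c : H)⁻¹ = v * (t₀ : H) := by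
        refine Subtype.ext ?_
        push_cast
        rw [hc]
        rw [← h₀] at heq
        push_cast at heq
        calc k₀⁻¹ * k * ((v : G) * ((t : H) : G)) * (k₀⁻¹ * k)⁻¹
            = k₀⁻¹ * (k * ((v : G) * ((t : H) : G)) * k⁻¹) * k₀ := by group
          _ = _ := by rw [heq]; group
      have et : c⁻¹ * t₀ * c = t := by
        refine Subtype.ext (mul_left_cancel (a := v) ?_)
        simp only [Subgroup.coe_mul, InvMemClass.coe_inv]
        have e2 : v * (t₀ : H) = (c : H) * v * (t : H) * (c : H)⁻¹ := by rw [← e1]; group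
        have e3 : (t₀ : H) = (c : H) * (t : H) * (c : H)⁻¹ := by
          apply mul_left_cancel (a := v)
          rw [e2, hcomm c]
          group
        rw [e3]
        group
      refine ⟨c, Finset.mem_univ _, ?_, Prod.ext ek et⟩
      intro h
      apply hne
      rw [← et, show c⁻¹ * t₀ * c = c⁻¹ * t₀ * c⁻¹⁻¹ by rw [inv_inv], hcl, h]
    · intro c _ _
      simp only
      rw [if_pos, show c⁻¹ * t₀ * c = c⁻¹ * t₀ * c⁻¹⁻¹ by rw [inv_inv], hcl]
      rw [← h₀]
      have e1 : (c : H) * (v * ((c⁻¹ * t₀ * c : Subgroup.centralizer (Subgroup.zpowers v : Set H)) : H)) * (c : H)⁻¹ = v * (t₀ : H) := by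
        push_cast
        calc (c : H) * (v * ((c : H)⁻¹ * (t₀ : H) * (c : H))) * (c : H)⁻¹
            = ((c : H) * v) * (c : H)⁻¹ * (t₀ : H) := by group
          _ = _ := by rw [hcomm c, mul_inv_cancel_right]
      have e2 := congrArg (fun w : H => (w : G)) e1
      push_cast at e2 ⊢
      rw [← e2]
      group
  rw [hsum, Finset.sum_const, Finset.card_univ, nsmul_eq_mul, ← Nat.card_eq_fintype_card,
    inv_mul_cancel_left₀ (Nat.cast_ne_zero.2 Nat.card_pos.ne')]

end Spread

end CfsgLib.Blocks.DihedralBlk
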