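import Cfsg.Agent.Blocks.Dihedral.Values
import Cfsg.Agent.Blocks.Dihedral.Corr
import Cfsg.Agent.Blocks.KLSum.UnionRank
import Cfsg.Agent.Chars.Induced.CentreIndex

/-!
# The configuration on five points does not occur

For a dihedral defect group of order sixteen the autocorrelation of the class function carried by
the section of the rotation of order eight agrees modulo two on `G` and on the centralizer `H` of
the involution; at the section of the rotation of order four the side of `G` has a factor four for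
the configuration on five points, while that of `H` is a unit.
-/

set_option autoImplicit false
set_option maxHeartbeats 2000000
open scoped MonoidAlgebra
open scoped ComplexConjugate

namespace CfsgLib.Blocks.DihedralBlk

open Cfsg CfsgLib CfsgLib.Blocks CfsgLib.Blocks.NilSection CfsgLib.FusionTwo CfsgLib.Blocks.Contrib
  CfsgLib.Blocks.HeightZero

universe u

variable {G : Type u} [Group G] [Fintype G] {M : Ideal AlgInt} [hMmax : M.IsMaximal]
  [hp : Fact (Nat.Prime 2)] [CharP (kres M) 2] {B : Set (IrrCharacter G)} {z : G}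
  {H : Subgroup G} [Fintype H] {b : Set (IrrCharacter H)} {P : Subgroup H} {g : (kres M)[H]}
  {ψ : IrrCharacter H} {x y : H}

omit [Fintype G] [Fintype H] hMmax hp [CharP (kres M) 2] in
/-- The parts in the subgroup are the parts in the group. -/
theorem isPPart_coe {h u : H} (hu : IsPPart 2 h u) : IsPPart 2 (h : G) (u : G) := by
  obtain ⟨r, h1, h2, h3, h4⟩ := hu
  exact ⟨(r : G), by rw [← h1]; rfl, congrArg Subtype.val h2.eq,
    by rwa [Subgroup.orderOf_coe], by rwa [Subgroup.orderOf_coe]⟩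

/-- The elements of order above two are rotations. -/
theorem exists_rot (c : Ctx M B 3 z H b P g ψ x y) {u : H} (hu : u ∈ P) (ho : 2 < orderOf u) :
    ∃ a : ℕ, 0 < a ∧ a < 2 ^ 3 ∧ u = x ^ a := by
  obtain ⟨i, rfl | rfl⟩ := c.gen.mem_cases hu
  swap
  · rw [c.gen.orderOf_refl] at ho
    omega
  obtain ⟨a, ha⟩ := Int.eq_ofNat_of_zero_le (Int.emod_nonneg i (show (8 : ℤ) ≠ 0 by norm_num))
  have hlt : a < 8 := by
    have := Int.emod_lt_of_pos i (show (0 : ℤ) < 8 by norm_num)
    omega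
  have he : x ^ i = x ^ a := by
    rw [← zpow_natCast, c.gen.zpow_eq_iff, ← ha]
    exact ⟨i / 8, by rw [show ((2 : ℤ) ^ 3) = 8 by norm_num]; omega⟩
  refine ⟨a, Nat.pos_of_ne_zero fun h0 => ?_, hlt, he⟩
  rw [he, h0, pow_zero, orderOf_one] at ho
  omega

/-- The values of the members above the rotation of order four. -/
theorem apply_four [Fintype P] (c : Ctx M B 3 z H b P g ψ x y) {Φ : IrrCharacter P ≃ b}
    (hΦ : ∀ ζ, ((Φ ζ : IrrCharacter H) : H → ℂ) = starFun 2 (topEl M b) P g (ψ : H → ℂ) (charExt P ζ))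
    {h : H} (hh : ppart 2 h = x ^ 2) (ζ : IrrCharacter P) :
    ((Φ ζ : IrrCharacter H) : H → ℂ) h = charExt P ζ (x ^ 2) *
      ∑ f ∈ blocksOver (Subgroup.zpowers (x ^ 2)) (topEl M b), lval (ψ : H → ℂ) h f := by
  have hE := isBlockIdem_topEl c.hind.1 (M := M)
  have hst := (isStableGen_charExt c.hind.1 c.hmax c.hnil ζ).stable
  rw [hΦ, starFun_eq_sum, hh, Finset.mul_sum]
  refine Finset.sum_congr rfl fun f hf => ?_
  congr 1
  have ho4 : orderOf (x ^ 2) = 4 := by rw [orderOf_pow, c.gen.ox]; rfl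
  obtain ⟨w, hw⟩ := exists_conj_of_mem_blocksOver hE c.hmax
    (show ∃ e : ℕ, orderOf (x ^ 2) = 2 ^ e from ⟨2, ho4⟩) hf
  rw [etaAt_eq hst hw]
  have hmem : w * x ^ 2 * w⁻¹ ∈ P := hw.le ⟨x ^ 2, Subgroup.mem_zpowers _, by simp⟩
  have hord : orderOf (w * x ^ 2 * w⁻¹) = 4 := by
    rw [← MulAut.conj_apply, MulEquiv.orderOf_eq, ho4]
  obtain ⟨a, ha0, ha, he⟩ := exists_rot c hmem (by omega)
  rw [he] at hord ⊢
  rw [orderOf_pow, c.gen.ox] at hord
  have : a = 2 ∨ a = 6 := by
    interval_cases a <;> simp_all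
  rcases this with rfl | rfl
  · rfl
  · have hc := pFn_even (m := 3) c
    have e : y * x ^ 2 * y⁻¹ = x ^ 6 := by
      rw [← conj_pow, c.gen.rel, inv_pow, inv_eq_iff_mul_eq_one, ← pow_add,
        show 2 + 6 = orderOf x from c.gen.ox.symm, pow_orderOf_eq_one]
    have h1 := Chars.isClassFunction_coe ζ ⟨x ^ 2, P.pow_mem c.gen.x_mem 2⟩ ⟨y, c.gen.y_mem⟩
    rw [← charExt_coe, ← charExt_coe] at h1
    rw [← e]
    simpa using h1

/-- The class sum of the rotation of order eight, on the characters of `P`. -/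
theorem sum_charExt_eight [Fintype P] [Fintype (IrrCharacter P)]
    (c : Ctx M B 3 z H b P g ψ x y) :
    ∑ ζ : IrrCharacter P, charExt P ζ x * conj (charExt P ζ x) * charExt P ζ (x ^ 2) /
      charExt P ζ 1 = 4 := by
  classical
  set X : P := ⟨x, c.gen.x_mem⟩ with hX
  have hoX : orderOf X = 8 := by rw [hX, Subgroup.orderOf_mk, c.gen.ox]; rfl
  have hne : X ≠ X⁻¹ := fun e => by
    have : X ^ 2 = 1 := by
      calc X ^ 2 = X * X := pow_two X
        _ = X * X⁻¹ := congrArg (X * ·) e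
        _ = 1 := mul_inv_cancel X
    have h2 := orderOf_dvd_of_pow_eq_one this
    rw [hoX] at h2
    norm_num at h2
  have hcl : ∀ w : P, w * X * w⁻¹ = X ∨ w * X * w⁻¹ = X⁻¹ := by
    intro w
    obtain ⟨i, hi | hi⟩ := c.gen.mem_cases w.2
    · left
      refine Subtype.ext ?_
      push_cast
      rw [hX, hi]
      group
    · right
      refine Subtype.ext ?_
      push_cast
      rw [hX, hi, mul_inv_rev,
        show x ^ i * y * x * (y⁻¹ * (x ^ i)⁻¹) = x ^ i * (y * x * y⁻¹) * (x ^ i)⁻¹ by group,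
        c.gen.rel]
      group
  have hiff : ∀ (w k : P), (w * k * w⁻¹ = X ∨ w * k * w⁻¹ = X⁻¹) ↔ (k = X ∨ k = X⁻¹) := by
    have hfw : ∀ (w k : P), (k = X ∨ k = X⁻¹) → (w * k * w⁻¹ = X ∨ w * k * w⁻¹ = X⁻¹) := by
      rintro w k (rfl | rfl)
      · exact hcl w
      · rcases hcl w with h | h
        · right; rw [show w * X⁻¹ * w⁻¹ = (w * X * w⁻¹)⁻¹ by group, h]
        · left; rw [show w * X⁻¹ * w⁻¹ = (w * X * w⁻¹)⁻¹ by group, h, inv_inv]
    intro w k
    refine ⟨fun h => ?_, hfw w k⟩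
    have := hfw w⁻¹ _ h
    rwa [show w⁻¹ * (w * k * w⁻¹) * w⁻¹⁻¹ = k by group] at this
  set A : P → ℂ := fun k => if k = X ∨ k = X⁻¹ then 1 else 0 with hA
  have hAcl : IsClassFunction P A := fun a w => by
    simp only [hA]
    exact if_congr (hiff w a) rfl rfl
  have hval : ∀ F : P → ℂ, ∑ k : P, A k * F k = F X + F X⁻¹ := by
    intro F
    rw [← Finset.sum_pair hne]
    simp only [hA, ite_mul, one_mul, zero_mul]
    rw [← Finset.sum_filter]
    exact Finset.sum_congr (Finset.ext fun k => by simp) fun _ _ => rfl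
  have hleft : autoCorr A (X ^ 2) = 1 := by
    rw [autoCorr, hval]
    have h3 : ¬ (X ^ 2 * X = X ∨ X ^ 2 * X = X⁻¹) := by
      rintro (h | h)
      · have h2 := orderOf_dvd_of_pow_eq_one (mul_eq_right.1 h)
        rw [hoX] at h2
        norm_num at h2
      · have h2 := orderOf_dvd_of_pow_eq_one (show X ^ 4 = 1 by
          rw [show (4 : ℕ) = 2 + 1 + 1 from rfl, pow_succ, pow_succ, h, inv_mul_cancel])
        rw [hoX] at h2
        norm_num at h2
    have h4 : X ^ 2 * X⁻¹ = X := by group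
    simp only [hA, if_neg h3, h4, map_zero, true_or, if_true, map_one, zero_add]
  have hX2 : ∀ ζ : IrrCharacter P, (ζ : P → ℂ) X⁻¹ = (ζ : P → ℂ) X := by
    intro ζ
    rw [← Chars.isClassFunction_coe ζ X ⟨y, c.gen.y_mem⟩]
    refine congrArg (ζ : P → ℂ) (Subtype.ext ?_)
    push_cast
    rw [hX, c.gen.rel]
  rw [autoCorr_eq_sum hAcl, Finset.sum_congr rfl (g := fun ζ : IrrCharacter P =>
    (4 : ℂ)⁻¹ * (charExt P ζ x * conj (charExt P ζ x) * charExt P ζ (x ^ 2) / charExt P ζ 1))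
    fun ζ _ => by
      rw [hval, hX2, ← charExt_coe P ζ X, ← charExt_coe P ζ (X ^ 2), ← charExt_coe P ζ 1, c.gen.card]
      simp only [hX, SubmonoidClass.mk_pow, OneMemClass.coe_one, map_add]
      push_cast
      ring, ← Finset.mul_sum] at hleft
  linear_combination 4 * hleft

/-- The coefficient of the idempotent at the inverse. -/
theorem conj_blockCoeff' {K : Type u} [Group K] [Finite K] (β : Set (IrrCharacter K)) (t : K) :
    conj (blockCoeff β t) = blockCoeff β t⁻¹ := by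
  classical
  rw [blockCoeff, blockCoeff, map_mul, map_inv₀, map_natCast, finsum_block_eq_sum,
    finsum_block_eq_sum, map_sum]
  congr 1
  refine Finset.sum_congr rfl fun χ _ => ?_
  rw [map_mul, ← Chars.map_inv_eq_conj (Chars.isCharacter_coe χ) t, ← Chars.coe_charDegree,
    map_natCast]

/-- In a block of rank one the regular part of a part is a multiple of that of a member. -/
theorem exists_scalar_of_blockRank_one {K : Type u} [Group K] [Fintype K]
    {β : Set (IrrCharacter K)} (hr : blockRank 2 β = 1) {θ : IrrCharacter K} (hθ : θ ∈ β)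
    (F : K → ℂ) : ∃ a : ℂ, ∀ t : K, IsPRegular 2 t → blockPart β F t = a * (θ : K → ℂ) t := by
  classical
  have hv : pRegularPart 2 (θ : K → ℂ) ∈ KLSum.regSpan 2 β :=
    Submodule.subset_span ⟨θ, hθ, rfl⟩
  have hw : pRegularPart 2 (blockPart β F) ∈ KLSum.regSpan 2 β := by
    have e : pRegularPart 2 (blockPart β F) = ∑ χ ∈ β.toFinite.toFinset,
        classInner F (χ : K → ℂ) • pRegularPart 2 (χ : K → ℂ) := by
      funext t
      rw [pRegularPart, blockPart_apply_eq, Finset.sum_apply, Finset.sum_apply]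
      by_cases ht : IsPRegular 2 t <;> simp [pRegularPart, ht]
    rw [e]
    exact Submodule.sum_mem _ fun χ hχ => Submodule.smul_mem _ _
      (Submodule.subset_span ⟨χ, (Set.Finite.mem_toFinset _).1 hχ, rfl⟩)
  have h1 : IsPRegular 2 (1 : K) := by
    show ¬ 2 ∣ orderOf (1 : K)
    rw [orderOf_one]
    norm_num
  have hne : (⟨_, hv⟩ : KLSum.regSpan 2 β) ≠ 0 := fun e => by
    have := congrFun (congrArg Subtype.val e) 1
    simp [pRegularPart, h1, Chars.map_one_ne_zero θ] at this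
  obtain ⟨a, ha⟩ := (finrank_eq_one_iff_of_nonzero' _ hne).1
    (by rw [← KLSum.blockRank_eq_finrank, hr]) ⟨_, hw⟩
  refine ⟨a, fun t ht => ?_⟩
  have := congrFun (congrArg Subtype.val ha) t
  simp [pRegularPart, ht] at this
  exact this.symm

omit [Fintype H] in
/-- The sum on the five points. -/
theorem five_sum {σ τ : ℤ} (hσ : σ = 1 ∨ σ = -1) (hτ : τ = 1 ∨ τ = -1) {r q : ℂ} (hr : r ^ 2 = 2)
    (hq : q ≠ 0) :
    (σ : ℂ) * σ * (τ * σ) / (3 * q) + (-σ + r * (τ * σ)) * (-σ + r * (τ * σ)) * (τ * σ) / q +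
      (-σ) * (-σ) * (-(τ * σ)) / q + (-σ - r * (τ * σ)) * (-σ - r * (τ * σ)) * (τ * σ) / q =
      16 * (τ * σ) / (3 * q) := by
  rcases hσ with rfl | rfl <;> rcases hτ with rfl | rfl <;> push_cast <;> field_simp <;>
    first
      | linear_combination 6 * hr
      | linear_combination (-6 : ℂ) * hr

/-- The numbers of the two sides, after scaling. -/
theorem scaled {nG nH nC θ1 ψ1 q LL cc e8 w1 wq w2 v ts : ℂ} (hG : nG ≠ 0) (hH : nH ≠ 0)
    (hC : nC ≠ 0) (hψ1 : ψ1 ≠ 0) (hq : q ≠ 0) (hL : LL * (8 * cc) = 8 * e8 * θ1 ^ 2)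
    (h1 : 16 / nH * ψ1 = w1) (hwq : 16 / nG * q = wq) (h2 : 8 * e8 / nC * θ1 = w2) :
    (nG / nC ^ 2 * LL * v * (16 * ts / (3 * q))) * (cc * e8 * w1 * wq * 3) =
        4 * ts * w1 * (w2 * w2 * v) ∧
      (nH / nC ^ 2 * LL * v * (4 / ψ1)) * (cc * e8 * w1 * wq * 3) = 3 * wq * (w2 * w2 * v) := by
  subst h1 hwq h2
  constructor
  · field_simp
    linear_combination (32 : ℂ) * e8 * v * ts * hL
  · field_simp
    linear_combination (8 : ℂ) * e8 * v * hL

/-- **The exceptional configuration does not occur.** -/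
theorem not_exceptional (c : Ctx M B 3 z H b P g ψ x y) {μ : ℂ} {k : IrrCharacter G → ℕ → ℤ}
    (hcols : DihedralColumns.Cols B.toFinite.toFinset 3 μ k
      (fun χ a => pFn b P g ψ χ (x ^ a)))
    (hh : ∀ χ ∈ B, Odd (DihedralColumns.mid 3 k χ) → blockHeight 2 B (χ : G → ℂ) = 0)
    (hdg : ∃ s0 : H, IsDefectClass M b s0 ∧ P ≤ Subgroup.centralizer ({s0} : Set H))
    (hex : DihedralLattice.Exceptional B.toFinite.toFinset (2 ^ (3 - 1) - 1)
      (fun j p => DihedralColumns.vec k ((j : ℕ) + 1) p) (DihedralColumns.vec k (2 ^ (3 - 1)))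
      (fun p => (charDegree (p : G → ℂ) : ℤ)) (DihedralColumns.mid 3 k)) : False := by
  classical
  haveI := Fintype.ofFinite P
  haveI := Fintype.ofFinite (IrrCharacter P)
  haveI := Fintype.ofFinite (IrrCharacter G)
  haveI := Fintype.ofFinite (IrrCharacter H)
  obtain ⟨Φ, hΦ⟩ := exists_members c.hM c.hind.1 c.hmax c.hnil c.hψ c.h0
  have hxP := c.gen.x_mem
  obtain ⟨b', hb', hbe⟩ := exists_bl c.hM c.hind.1 c.hmax hxP
  haveI := Fintype.ofFinite (cz x)
  have hxe : ∃ e : ℕ, orderOf x = 2 ^ e := ⟨3, c.gen.ox⟩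
  -- the block below the rotation of order eight
  have hrank := blockRank_eq_one c.hM c.hind.1 c.hmax c.hnil c.hψ c.h0 hΦ hxP hb' hbe
  obtain ⟨θ, hθ, hθ0⟩ := HeightZero.exists_height_zero (p := 2) hb'.1
  obtain ⟨a₀, ha₀⟩ := exists_scalar_of_blockRank_one hrank hθ
    (fun t : cz x => (ψ : H → ℂ) (x * (t : H)))
  have h1reg : IsPRegular 2 (1 : cz x) := by
    show ¬ 2 ∣ orderOf (1 : cz x)
    rw [orderOf_one]
    norm_num
  set L₀ := lFn b' ψ (1 : cz x) with hL₀
  have hLθ : L₀ = a₀ * (θ : cz x → ℂ) 1 := ha₀ 1 h1reg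
  obtain ⟨cc, hcc⟩ := exists_int_scale_regPair c.hM hb'.1 hθ hθ
  have hcard : (Nat.card (P ⊓ cz x : Subgroup H) : ℂ) = 8 := by
    have h := sum_charExt (P := P) hxP hxP
    rw [if_pos (IsConj.refl _)] at h
    have h' := sum_charExt_rot c (a := 1) (a' := 1) one_pos (by norm_num) one_pos (by norm_num)
    simp only [pow_one] at h'
    rw [← h, h']
    norm_num
  have hnorm := norm_part c.hM c.hind.1 c.hmax c.hnil c.hψ c.h0 hxP hb'.1 hbe
  rw [hcard, Finset.sum_congr rfl fun s hs => by rw [ha₀ s (mem_regSet.1 hs)]] at hnorm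
  have hpair : regPair 2 (θ : cz x → ℂ) (θ : cz x → ℂ) =
      ∑ s ∈ regSet 2 (cz x), (θ : cz x → ℂ) s * conj ((θ : cz x → ℂ) s) := regPair_self_eq_sum θ
  rw [Finset.sum_congr rfl (g := fun s => a₀ * conj a₀ * ((θ : cz x → ℂ) s * conj ((θ : cz x → ℂ) s)))
    fun s _ => by rw [map_mul]; ring, ← Finset.mul_sum, ← hpair] at hnorm
  set d := blockDefect 2 b' with hd
  have hC0 : (Nat.card (cz x) : ℂ) ≠ 0 := Nat.cast_ne_zero.2 Nat.card_pos.ne'
  have hd3 : 3 ≤ d := by
    have hxc : (⟨x, mem_cz_self x⟩ : cz x) ∈ Subgroup.center (cz x) :=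
      Subgroup.mem_center_iff.2 fun w => Subtype.ext
        (Subgroup.mem_centralizer_iff.1 w.2 x (Subgroup.mem_zpowers x)).symm
    have h8 : 2 ^ 3 ∣ Nat.card (Subgroup.center (cz x)) := by
      have := orderOf_dvd_natCard (⟨_, hxc⟩ : Subgroup.center (cz x))
      rwa [Subgroup.orderOf_mk, Subgroup.orderOf_mk, c.gen.ox] at this
    have h5 : charDegree (θ : cz x → ℂ) * 2 ^ 3 ∣ Nat.card (cz x) := by
      rw [← Subgroup.index_mul_card (Subgroup.center (cz x))]
      exact Nat.mul_dvd_mul (Chars.Induced.charDegree_dvd_index_center θ) h8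
    have h6 := (Nat.factorization_le_iff_dvd (mul_ne_zero (Chars.charDegree_pos θ).ne' (by norm_num))
      Nat.card_pos.ne').2 h5 2
    rw [Nat.factorization_mul (Chars.charDegree_pos θ).ne' (by norm_num), Finsupp.add_apply,
      factorization_pow_prime Nat.prime_two, (HeightZero.blockHeight_eq_zero_iff' hθ).1 hθ0] at h6
    rw [hd, HeightZero.blockDefect_eq]
    omega
  obtain ⟨w2, hw2, hw2u, hw2e⟩ := exists_unit_scale (p := 2) c.hM hθ
  obtain ⟨w1, hw1, hw1u, hw1e⟩ := exists_unit_scale (p := 2) c.hM c.hψ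
  rw [hθ0, pow_zero, one_mul] at hw2e
  rw [c.h0, pow_zero, one_mul, c.hmaj, c.hdef] at hw1e
  set e8 : ℂ := (2 : ℂ) ^ (d - 3) with he8
  have h2d : (2 : ℂ) ^ d = 8 * e8 := by
    rw [he8, show (8 : ℂ) = 2 ^ 3 by norm_num, ← pow_add, Nat.add_sub_cancel' hd3]
  have hL : L₀ * conj L₀ * (8 * (cc : ℂ)) = 8 * e8 * (θ : cz x → ℂ) 1 ^ 2 := by
    have hreal : conj ((θ : cz x → ℂ) 1) = (θ : cz x → ℂ) 1 := by
      rw [← Chars.coe_charDegree, map_natCast]
    rw [← h2d, hLθ, map_mul, hreal, hcc]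
    push_cast
    field_simp
    linear_combination (θ : cz x → ℂ) 1 ^ 2 * hnorm
  -- the class function
  set e : cz x → ℂ := fun t => blockCoeff b' t with he
  set A : G → ℂ := spread 2 x e with hA
  have hAcl : IsClassFunction G A := isClassFunction_spread
  have hecl : IsClassFunction (cz x) e := fun a w => blockCoeff_conj_invariant b' a w
  have hece : IsClassFunction (cz x) fun t => conj (e t) := fun a w => by
    show conj (e (w * a * w⁻¹)) = conj (e a)
    rw [hecl a w]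
  have hdis : ∀ (w : G) (t t' : cz x), IsPRegular 2 t → IsPRegular 2 t' →
      w * ((x * (t : H) : H) : G) * w⁻¹ = ((x * (t' : H) : H) : G) →
        ∃ w' : cz x, ((w' : H) : G) = w := by
    intro w t t' ht ht' hw
    have hp1 := isPPart_coe (G := G)
      (isPPart_of_regular hxe ht ▸ isPPart_ppart (p := 2) (x * (t : H)))
    have hp2 := isPPart_coe (G := G)
      (isPPart_of_regular hxe ht' ▸ isPPart_ppart (p := 2) (x * (t' : H)))
    have e1 := isPPart_conj hp1 w
    rw [hw] at e1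
    have e2 := isPPart_unique c.hM.1 e1 hp2
    have hwH : w ∈ H := mem_of_conj c (a := 1) (a' := 1) one_pos (by norm_num) one_pos (by norm_num)
      (by rw [pow_one]; exact e2)
    refine ⟨⟨⟨w, hwH⟩, ?_⟩, rfl⟩
    rw [cz, Blocks.centralizer_zpowers_eq, Subgroup.mem_centralizer_singleton_iff]
    refine Subtype.ext ?_
    show w * (x : G) = (x : G) * w
    exact mul_inv_eq_iff_eq_mul.1 e2
  have hloc : ∀ g, MemLocalRing M (A g) := fun g =>
    memLocalRing_spread hecl (fun t => memLocalRing_blockCoeff hb'.1 t) hdis g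
  have hloc' : ∀ g, MemLocalRing M (conj (A g)) := fun g => by
    rw [hA, conj_spread]
    refine memLocalRing_spread hece (fun t => ?_) hdis g
    rw [he, conj_blockCoeff']
    exact memLocalRing_blockCoeff hb'.1 _
  have htwo : MemLocalIdeal M (2 : ℂ) := by
    simpa using (memLocalIdeal_intCast_iff c.hM 2).2 dvd_rfl
  have hzz : z * z = 1 := by rw [← pow_two, ← c.hz, pow_orderOf_eq_one]
  -- the evaluation point
  obtain ⟨s0, hs0, hPs0⟩ := hdg
  have hs0r : IsPRegular 2 s0 := not_dvd_orderOf_of_isDefectClass c.hM c.hind.1 hs0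
  have hx2s : s0 ∈ cz (x ^ 2) := by
    rw [cz, Blocks.centralizer_zpowers_eq, Subgroup.mem_centralizer_singleton_iff]
    exact (Subgroup.mem_centralizer_singleton_iff.1 (hPs0 (P.pow_mem hxP 2))).symm
  have ho4 : orderOf (x ^ 2) = 2 ^ 2 := by rw [orderOf_pow, c.gen.ox]; rfl
  set h₀ : H := x ^ 2 * s0 with hh₀
  have hpp : ppart 2 h₀ = x ^ 2 := isPPart_of_regular ⟨2, ho4⟩
    (s := ⟨s0, hx2s⟩) (by rwa [IsPRegular, Subgroup.orderOf_mk])
  set S := ∑ f ∈ blocksOver (Subgroup.zpowers (x ^ 2)) (topEl M b), lval (ψ : H → ℂ) h₀ f with hS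
  have hΦ4 : ∀ ζ : IrrCharacter P, ((Φ ζ : IrrCharacter H) : H → ℂ) h₀ = charExt P ζ (x ^ 2) * S :=
    fun ζ => apply_four c hΦ hpp ζ
  have hdeg : ∀ ζ : IrrCharacter P,
      ((Φ ζ : IrrCharacter H) : H → ℂ) 1 = charExt P ζ 1 * (ψ : H → ℂ) 1 := fun ζ =>
    apply_regular c.hM c.hind.1 c.hmax c.hnil c.hψ hΦ ζ (by
      show ¬ 2 ∣ orderOf (1 : H)
      rw [orderOf_one]
      norm_num)
  obtain ⟨ζ₀, hζ₀⟩ := Φ.surjective ⟨ψ, c.hψ⟩
  have hψh : (ψ : H → ℂ) h₀ = charExt P ζ₀ (x ^ 2) * S := by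
    have := hΦ4 ζ₀
    rwa [hζ₀] at this
  have hψu : ¬ MemLocalIdeal M ((ψ : H → ℂ) h₀) := fun h =>
    not_memLocalIdeal_apply_of_height_zero c.hM c.hind.1 hs0 c.hψ c.h0
      ((HeightZero.congr_apply_mul c.hM (Chars.isCharacter_coe ψ) (x := x ^ 2) (y := s0)
        ((Subgroup.mem_centralizer_singleton_iff.1 (hPs0 (P.pow_mem hxP 2)))) ho4 hs0r).mem_iff.1 h)
  have hψl : MemLocalRing M ((ψ : H → ℂ) h₀) :=
    HeightZero.memLocalRing_apply (Chars.isCharacter_coe ψ) h₀
  have hAH : IsClassFunction H fun k : H => A (k : G) := fun a w => by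
    show A ((w * a * w⁻¹ : H) : G) = A (a : G)
    push_cast
    exact hAcl _ _
  have hRG : IsClassFunction H fun k : H => autoCorr A (k : G) := fun a w => by
    show autoCorr A ((w * a * w⁻¹ : H) : G) = autoCorr A (a : G)
    push_cast
    exact isClassFunction_autoCorr hAcl _ _
  -- the two sides
  have hdiff : MemLocalIdeal M (blockPart b (fun k : H => autoCorr A (k : G)) h₀ -
      blockPart b (autoCorr fun k : H => A (k : G)) h₀) := by
    rw [blockPart_eq_sum_blockCoeff b hRG, blockPart_eq_sum_blockCoeff b (isClassFunction_autoCorr hAH),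
      ← Finset.sum_sub_distrib]
    refine memLocalIdeal_sum _ fun k _ => ?_
    rw [← mul_sub]
    exact memLocalIdeal_mul_left (memLocalRing_blockCoeff c.hind.1 k)
      (autoCorr_congr htwo c.hH hzz hAcl hloc hloc' (k * h₀))
  set nC : ℂ := (Nat.card (cz x) : ℂ) with hnC
  have hωG : ∀ χ : IrrCharacter G, ∑ w : G, A w * (χ : G → ℂ) w =
      (Nat.card G : ℂ) / nC * (pFn b P g ψ χ x * L₀) := by
    intro χ
    rw [hA, sum_spread_mul (Chars.isClassFunction_coe χ), hL₀, ← part_restrict c χ hxP hb' hbe h1reg,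
      blockPart_eq_sum_regSet c.hM hb'.1 (isClassFunction_translate'
        (Chars.isClassFunction_of_isCharacter
          (Chars.isCharacter_restrict (Chars.isCharacter_coe χ) H)) x) h1reg]
    simp only [inv_one, mul_one, he]
    rfl
  have hωH : ∀ ζ : IrrCharacter P, ∑ w : H, A (w : G) * ((Φ ζ : IrrCharacter H) : H → ℂ) w =
      (Nat.card H : ℂ) / nC * (charExt P ζ x * L₀) := by
    intro ζ
    rw [hA, sum_spread_mul_sub (Chars.isClassFunction_coe _) ?_]
    · rw [show charExt P ζ x * L₀ = blockPart b' (fun t : cz x =>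
          ((Φ ζ : IrrCharacter H) : H → ℂ) (x * (t : H))) 1 from
        (part_member c.hM c.hind.1 c.hmax c.hnil hΦ hxP hb'.1 hbe ζ h1reg).symm,
        blockPart_eq_sum_regSet c.hM hb'.1
          (isClassFunction_translate' (Chars.isClassFunction_coe _) x) h1reg]
      simp only [inv_one, mul_one, he]
      rfl
    intro w t h ht hwh hne
    by_contra hwH
    have hp1 := isPPart_conj (isPPart_coe (G := G)
      (isPPart_of_regular hxe ht ▸ isPPart_ppart (p := 2) (x * (t : H)))) w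
    rw [hwh] at hp1
    have e2 := isPPart_unique c.hM.1 (isPPart_coe (G := G) (isPPart_ppart (p := 2) h)) hp1
    apply hne
    refine apply_eq_zero c.hind.1 c.hmax hΦ (fun v hv => ?_) ζ
    have hord : orderOf (v * ppart 2 h * v⁻¹) = 8 := by
      rw [← MulAut.conj_apply, MulEquiv.orderOf_eq, ← Subgroup.orderOf_coe, e2, ← MulAut.conj_apply,
        MulEquiv.orderOf_eq, Subgroup.orderOf_coe, c.gen.ox]
      rfl
    obtain ⟨a, ha0, ha, hea⟩ := exists_rot c hv (by omega)
    have hmem := mem_of_conj c (a := 1) (a' := a) one_pos (by norm_num) ha0 ha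
      (w := (v : G) * w) (by
        rw [pow_one, ← hea]
        push_cast
        rw [e2]
        group)
    apply hwH
    have := H.mul_mem (H.inv_mem v.2) hmem
    rwa [inv_mul_cancel_left] at this
  have hB1 : ∀ χ : IrrCharacter G, χ ∉ B → pFn b P g ψ χ x = 0 := fun χ hχ => by
    have := pFn_eq_zero c hχ (a := 1) one_pos (by norm_num)
    rwa [pow_one] at this
  have hpartG : blockPart b (fun k : H => autoCorr A (k : G)) h₀ =
      (Nat.card G : ℂ) / nC ^ 2 * (L₀ * conj L₀) * S *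
        ∑ χ ∈ B.toFinite.toFinset, pFn b P g ψ χ x * conj (pFn b P g ψ χ x) *
          pFn b P g ψ χ (x ^ 2) / (χ : G → ℂ) 1 := by
    have hres : ∀ χ : IrrCharacter G, blockPart b (fun k : H => (χ : G → ℂ) k) h₀ =
        pFn b P g ψ χ (x ^ 2) * S := by
      intro χ
      rw [blockPart_apply_eq, Finset.sum_apply, pFn, finsum_eq_sum_of_fintype, Finset.sum_mul]
      symm
      refine Finset.sum_bij (fun ζ _ => ((Φ ζ : IrrCharacter H)))
        (fun ζ _ => (Set.Finite.mem_toFinset _).2 (Φ ζ).2)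
        (fun ζ _ ζ' _ h => Φ.injective (Subtype.ext h)) (fun ξ hξ => ?_) fun ζ _ => ?_
      · obtain ⟨ζ, hζ⟩ := Φ.surjective ⟨ξ, (Set.Finite.mem_toFinset _).1 hξ⟩
        exact ⟨ζ, Finset.mem_univ _, by rw [hζ]⟩
      · rw [Pi.smul_apply, smul_eq_mul, hΦ4, hΦ]
        ring
    have hG0 : (Nat.card G : ℂ) ≠ 0 := Chars.natCard_ne_zero
    rw [blockPart_eq_sum_blockCoeff b hRG, Finset.sum_congr rfl fun k _ => by
      rw [autoCorr_eq_sum hAcl, Finset.mul_sum], Finset.sum_comm, Finset.mul_sum]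
    refine (Finset.sum_subset (Finset.subset_univ B.toFinite.toFinset) fun χ _ hχ => ?_).symm.trans ?_
    · rw [hωG, hB1 χ fun h => hχ ((Set.Finite.mem_toFinset _).2 h)]
      simp
    refine Finset.sum_congr rfl fun χ _ => ?_
    have hr := hres χ
    rw [blockPart_eq_sum_blockCoeff b (Chars.isClassFunction_of_isCharacter
      (Chars.isCharacter_restrict (Chars.isCharacter_coe χ) H))] at hr
    rw [Finset.sum_congr rfl fun k _ => mul_left_comm _ _ _, ← Finset.mul_sum, hr, hωG, map_mul,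
      map_mul, map_div₀, map_natCast, hnC, map_natCast, ← hnC]
    have := Chars.map_one_ne_zero χ
    field_simp
  have hpartH : blockPart b (autoCorr fun k : H => A (k : G)) h₀ =
      (Nat.card H : ℂ) / nC ^ 2 * (L₀ * conj L₀) * S * (4 / (ψ : H → ℂ) 1) := by
    rw [blockPart_apply_eq, Finset.sum_apply, ← sum_charExt_eight c, Finset.sum_div, Finset.mul_sum]
    symm
    refine Finset.sum_bij (fun ζ _ => ((Φ ζ : IrrCharacter H)))
      (fun ζ _ => (Set.Finite.mem_toFinset _).2 (Φ ζ).2)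
      (fun ζ _ ζ' _ h => Φ.injective (Subtype.ext h)) (fun ξ hξ => ?_) fun ζ _ => ?_
    · obtain ⟨ζ, hζ⟩ := Φ.surjective ⟨ξ, (Set.Finite.mem_toFinset _).1 hξ⟩
      exact ⟨ζ, Finset.mem_univ _, by rw [hζ]⟩
    · rw [Pi.smul_apply, smul_eq_mul, classInner_autoCorr hAH, hωH, hΦ4, hdeg, map_mul, map_mul,
        map_div₀, map_natCast, hnC, map_natCast, ← hnC]
      have := Chars.map_one_ne_zero ψ
      have : charExt P ζ 1 ≠ 0 := by
        rw [← OneMemClass.coe_one P, charExt_coe]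
        exact Chars.map_one_ne_zero ζ
      have : (Nat.card H : ℂ) ≠ 0 := Chars.natCard_ne_zero
      field_simp
  -- the five points
  obtain ⟨hN, pa, pb, pc, pd, pw, σ, τ, q, hσ, hτ, hq, hnd, hs, hdegs, hXs, hes, hys, hzs⟩ := hex
  simp only [List.cons.injEq, and_true] at hdegs hXs hes hys hzs
  obtain ⟨dga, dgb, dgc, dgd, dgw⟩ := hdegs
  obtain ⟨Xa, Xb, Xc, Xd, Xw⟩ := hXs
  obtain ⟨ea, eb, ec, ed, ew⟩ := hes
  obtain ⟨ya, yb, yc, yd, yw⟩ := hys
  obtain ⟨za, zb, zc, zd, zw⟩ := hzs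
  have hr2 := DihedralColumns.sq_eight hcols
  set r := μ + μ ^ 7 with hr
  have hrc : conj r = r := by
    have h1 := DihedralColumns.conj_pow hcols (j := 1) (by norm_num) 1
    norm_num at h1
    have h7 := congrArg conj h1
    rw [Complex.conj_conj] at h7
    rw [hr, map_add, h1, ← h7, add_comm]
  have hv : ∀ {p : IrrCharacter G} {Xv yv zv : ℤ}, p ∈ B.toFinite.toFinset →
      DihedralColumns.vec k (2 ^ (3 - 1)) p = Xv →
      DihedralColumns.vec k (2 ^ (3 - 1)) p -
        2 * DihedralColumns.vec k (((Fin.cast hN.symm 1 : Fin _) : ℕ) + 1) p = yv →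
      DihedralColumns.vec k (((Fin.cast hN.symm 0 : Fin _) : ℕ) + 1) p -
        DihedralColumns.vec k (((Fin.cast hN.symm 2 : Fin _) : ℕ) + 1) p = zv →
      pFn b P g ψ p x * conj (pFn b P g ψ p x) * pFn b P g ψ p (x ^ 2) =
        (-(Xv : ℂ) + r * zv) * (-(Xv : ℂ) + r * zv) * yv := by
    intro p Xv yv zv hp hX hy hz
    obtain ⟨h2, h1⟩ := DihedralColumns.apply_eight hcols hp
    simp only [pow_one] at h1
    rw [show pFn b P g ψ p (x ^ 2) = _ from h2, h1, ← hr]
    simp only [Fin.coe_cast] at hy hz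
    norm_num at hX hy hz
    rw [hy, hz, hX]
    simp only [map_add, map_neg, map_mul, map_intCast]
    rw [hrc]
  have hmem : ∀ p ∈ ([pa, pb, pc, pd, pw] : List _), p ∈ B.toFinite.toFinset := fun p hp => by
    rw [hs]; simpa using hp
  have hdeg' : ∀ p : IrrCharacter G, ∀ n : ℤ, (charDegree (p : G → ℂ) : ℤ) = n →
      (p : G → ℂ) 1 = (n : ℂ) := fun p n h => by
    rw [← Chars.coe_charDegree, ← h]
    simp
  have hqC : (q : ℂ) ≠ 0 := Int.cast_ne_zero.2 hq.ne'
  have hsum : ∑ χ ∈ B.toFinite.toFinset, pFn b P g ψ χ x * conj (pFn b P g ψ χ x) *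
      pFn b P g ψ χ (x ^ 2) / (χ : G → ℂ) 1 = 16 * ((τ : ℂ) * σ) / (3 * q) := by
    simp only [List.nodup_cons, List.mem_cons, List.not_mem_nil, or_false, not_or] at hnd
    obtain ⟨⟨n1, n2, n3, n4⟩, ⟨n5, n6, n7⟩, ⟨n8, n9⟩, n10, -⟩ := hnd
    rw [hs, Finset.sum_insert (by simp [n1, n2, n3, n4]), Finset.sum_insert (by simp [n5, n6, n7]),
      Finset.sum_insert (by simp [n8, n9]), Finset.sum_pair n10]
    rw [hv (hmem pa (by simp)) Xa ya za, hv (hmem pb (by simp)) Xb yb zb,
      hv (hmem pc (by simp)) Xc yc zc, hv (hmem pd (by simp)) Xd yd zd,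
      hv (hmem pw (by simp)) Xw yw zw, hdeg' pa _ dga, hdeg' pb _ dgb, hdeg' pc _ dgc,
      hdeg' pd _ dgd, hdeg' pw _ dgw, ← five_sum hσ hτ hr2 hqC]
    push_cast
    ring
  rw [hpartG, hsum, hpartH] at hdiff
  have hdiff' := memLocalIdeal_mul_left
    (HeightZero.memLocalRing_apply (Chars.isCharacter_coe ζ₀) (⟨x ^ 2, P.pow_mem hxP 2⟩ : P)) hdiff
  rw [← charExt_coe] at hdiff'
  -- a member of height zero with the degree `q`
  have hpbB : pb ∈ B := (Set.Finite.mem_toFinset _).1 (hmem pb (by simp))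
  have hpb0 : blockHeight 2 B (pb : G → ℂ) = 0 := hh pb hpbB (by
    rw [eb]
    rcases hσ with rfl | rfl <;> rcases hτ with rfl | rfl <;> decide)
  obtain ⟨wq, hwq, hwqu, hwqe⟩ := exists_unit_scale (p := 2) c.hM hpbB
  rw [hpb0, pow_zero, one_mul, c.hdef, hdeg' pb _ dgb] at hwqe
  rw [show ((2 : ℕ) : ℂ) ^ (3 + 1) = 16 by norm_num] at hwqe hw1e
  rw [show ((2 : ℕ) : ℂ) = 2 from rfl, ← hd, h2d] at hw2e
  obtain ⟨hG', hH'⟩ := scaled (v := (ψ : H → ℂ) h₀) (ts := (τ : ℂ) * σ)
    (Chars.natCard_ne_zero (G := G)) (Chars.natCard_ne_zero (G := H)) hC0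
    (Chars.map_one_ne_zero ψ) hqC hL hw1e hwqe hw2e
  have hW : MemLocalRing M ((cc : ℂ) * e8 * w1 * wq * 3) :=
    (localRing M).mul_mem ((localRing M).mul_mem ((localRing M).mul_mem ((localRing M).mul_mem
      (intCast_mem (localRing M) cc) ((localRing M).pow_mem (natCast_mem (localRing M) 2) _)) hw1)
      hwq) (natCast_mem (localRing M) 3)
  have hU := memLocalIdeal_mul_left hW hdiff'
  have hU' : MemLocalIdeal M (4 * ((τ : ℂ) * σ) * w1 * (w2 * w2 * (ψ : H → ℂ) h₀) -
      3 * wq * (w2 * w2 * (ψ : H → ℂ) h₀)) := by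
    refine Eq.subst (motive := fun t => MemLocalIdeal M t) ?_ hU
    rw [← hG', ← hH', hψh]
    ring
  have hUl : MemLocalRing M (w2 * w2 * (ψ : H → ℂ) h₀) :=
    (localRing M).mul_mem ((localRing M).mul_mem hw2 hw2) hψl
  have h4 : MemLocalIdeal M (4 * ((τ : ℂ) * σ) * w1 * (w2 * w2 * (ψ : H → ℂ) h₀)) := by
    have e4 : MemLocalIdeal M (4 : ℂ) := by
      simpa using (memLocalIdeal_intCast_iff c.hM 4).2 (by norm_num)
    refine memLocalIdeal_mul_right (memLocalIdeal_mul_right (memLocalIdeal_mul_right e4 ?_) hw1) hUl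
    exact (localRing M).mul_mem (intCast_mem (localRing M) τ) (intCast_mem (localRing M) σ)
  have h3 : MemLocalIdeal M (3 * wq * (w2 * w2 * (ψ : H → ℂ) h₀)) := by
    have := memLocalIdeal_sub h4 hU'
    rwa [sub_sub_cancel] at this
  have h3u : ¬ MemLocalIdeal M (3 : ℂ) := fun h => by
    have h' : MemLocalIdeal M ((3 : ℤ) : ℂ) := by simpa using h
    rw [memLocalIdeal_intCast_iff c.hM] at h'
    norm_num at h'
  have h3l : MemLocalRing M (3 : ℂ) := natCast_mem (localRing M) 3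
  exact not_memLocalIdeal_mul ((localRing M).mul_mem h3l hwq) hUl
    (not_memLocalIdeal_mul h3l hwq h3u hwqu)
    (not_memLocalIdeal_mul ((localRing M).mul_mem hw2 hw2) hψl
      (not_memLocalIdeal_mul hw2 hw2 hw2u hw2u) hψu) h3

end CfsgLib.Blocks.DihedralBlk
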