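import Cfsg.Agent.Blocks.Orth.Subsection
import Cfsg.Agent.Blocks.Defect.Translate
import Cfsg.Agent.Chars.Basic.Columns
import Cfsg.Agent.Eq.Def_Blocks

/-!
# Transitivity of block induction

If a block of a subgroup `K` of `H` induces a block of `H` and this one a block of `G`, then the
induced central characters of the first give those of the last.
-/

set_option autoImplicit false
open scoped Classical

namespace CfsgLib.Blocks

open Cfsg

universe u

variable {G : Type u} [Group G] [Finite G] {M : Ideal AlgInt}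

/-- Block induction is transitive. -/
theorem isInducedBlock_of_two_steps (hMmax : M.IsMaximal) {H : Subgroup G} {K : Subgroup H}
    {K' : Subgroup G} (φ : K' ≃* K) (hφ : ∀ k : K', ((φ k : H) : G) = (k : G))
    {b₀ : Set (IrrCharacter K')} (hb₀ : IsPBlock M b₀)
    {b : Set (IrrCharacter H)} {B : Set (IrrCharacter G)}
    (h1 : IsInducedBlock M K (mapBlock φ b₀) b) (h2 : IsInducedBlock M H b B) :
    IsInducedBlock M K' b₀ B := by
  classical
  haveI := hMmax
  haveI := Fintype.ofFinite G
  haveI := Fintype.ofFinite H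
  haveI := Fintype.ofFinite K
  haveI := Fintype.ofFinite K'
  refine ⟨hb₀, h2.2.1, fun ξ hξ χ hχ g => ?_⟩
  obtain ⟨η, hη⟩ := nonempty_of_isPBlock h2.1
  set ξ' : IrrCharacter K := CfsgLib.Chars.irrEquiv φ ξ with hξ'
  have hξ'mem : ξ' ∈ mapBlock φ b₀ := Set.mem_image_of_mem _ hξ
  set S : Finset H := Finset.univ.filter fun h : H => IsConj g (h : G) with hS
  set C : Finset (ConjClasses H) := S.image ConjClasses.mk with hC
  have hrep : ∀ c ∈ C, ∃ h₀ ∈ S, ConjClasses.mk h₀ = c := fun c hc => Finset.mem_image.1 hc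
  choose r hr hrc using hrep
  -- the sum over `K'` by the classes of `H`
  have hK : inducedCentralChar K' (ξ : K' → ℂ) g =
      ∑ c ∈ C.attach, inducedCentralChar K (ξ' : K → ℂ) (r c.1 c.2) := by
    have e1 : inducedCentralChar K' (ξ : K' → ℂ) g =
        ∑ k ∈ Finset.univ.filter (fun k : K => IsConj g ((k : H) : G)),
          (ξ' : K → ℂ) k / (ξ' : K → ℂ) 1 := by
      rw [inducedCentralChar, ← finsum_mem_coe_finset]
      refine finsum_mem_eq_of_bijOn φ ⟨?_, φ.injective.injOn, ?_⟩ fun k _ => ?_
      · intro k hk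
        simp only [Finset.coe_filter, Finset.mem_univ, true_and, Set.mem_setOf_eq]
        rw [hφ]
        exact hk
      · intro k hk
        simp only [Finset.coe_filter, Finset.mem_univ, true_and, Set.mem_setOf_eq] at hk
        obtain ⟨k₀, rfl⟩ := φ.surjective k
        exact ⟨k₀, by rw [hφ] at hk; exact hk, rfl⟩
      · rw [hξ', CfsgLib.Chars.irrEquiv_apply, CfsgLib.Chars.irrEquiv_apply,
          MulEquiv.symm_apply_apply, map_one]
    rw [e1, ← Finset.sum_fiberwise_of_maps_to (g := fun k : K => ConjClasses.mk (k : H)) (t := C)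
      fun k hk => Finset.mem_image_of_mem _ (Finset.mem_filter.2 ⟨Finset.mem_univ _,
        (Finset.mem_filter.1 hk).2⟩), ← Finset.sum_attach C]
    refine Finset.sum_congr rfl fun c _ => ?_
    rw [inducedCentralChar, ← finsum_mem_coe_finset]
    refine finsum_mem_congr (Set.ext fun k => ?_) fun _ _ => rfl
    simp only [Finset.coe_filter, Finset.mem_filter, Finset.mem_univ, true_and, Set.mem_setOf_eq]
    have hrS := (Finset.mem_filter.1 (hr c.1 c.2)).2
    constructor
    · rintro ⟨-, hk⟩
      exact ConjClasses.mk_eq_mk_iff_isConj.1 ((hrc c.1 c.2).trans hk.symm)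
    · intro hk
      exact ⟨hrS.trans ((H.subtype).map_isConj hk),
        (ConjClasses.mk_eq_mk_iff_isConj.2 hk).symm.trans (hrc c.1 c.2)⟩
  have hH : inducedCentralChar H (η : H → ℂ) g =
      ∑ c ∈ C.attach, centralChar (η : H → ℂ) (r c.1 c.2) := by
    have e1 : inducedCentralChar H (η : H → ℂ) g = ∑ h ∈ S, (η : H → ℂ) h / (η : H → ℂ) 1 := by
      rw [inducedCentralChar, ← finsum_mem_coe_finset]
      exact finsum_mem_congr (by simp [hS]) fun _ _ => rfl
    rw [e1, ← Finset.sum_fiberwise_of_maps_to (g := fun h : H => ConjClasses.mk h) (t := C)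
      fun h hh => Finset.mem_image_of_mem _ hh, ← Finset.sum_attach C]
    refine Finset.sum_congr rfl fun c _ => ?_
    set h₀ := r c.1 c.2
    have hset : S.filter (fun h => ConjClasses.mk h = c.1) =
        Finset.univ.filter fun h : H => IsConj h₀ h := by
      ext h
      simp only [Finset.mem_filter, Finset.mem_univ, true_and, hS]
      constructor
      · rintro ⟨-, hh⟩
        exact ConjClasses.mk_eq_mk_iff_isConj.1 ((hrc c.1 c.2).trans hh.symm)
      · intro hh
        exact ⟨(Finset.mem_filter.1 (hr c.1 c.2)).2.trans ((H.subtype).map_isConj hh),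
          (ConjClasses.mk_eq_mk_iff_isConj.2 hh).symm.trans (hrc c.1 c.2)⟩
    rw [hset, Finset.sum_congr rfl (g := fun _ => (η : H → ℂ) h₀ / (η : H → ℂ) 1) fun h hh => by
      rw [CfsgLib.Chars.eq_of_isConj (CfsgLib.Chars.isClassFunction_coe η) (Finset.mem_filter.1 hh).2],
      Finset.sum_const, nsmul_eq_mul, centralChar, mul_div_assoc]
    congr 2
    rw [← CfsgLib.Chars.card_carrier_eq_index, Nat.card_eq_fintype_card, ← Set.toFinset_card]
    congr 1
    ext h
    rw [Finset.mem_filter, Set.mem_toFinset, ConjClasses.mem_carrier_iff_mk_eq,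
      ConjClasses.mk_eq_mk_iff_isConj]
    exact ⟨fun e => e.2.symm, fun e => ⟨Finset.mem_univ _, e.symm⟩⟩
  have hsum : MemLocalIdeal M (inducedCentralChar K' (ξ : K' → ℂ) g -
      inducedCentralChar H (η : H → ℂ) g) := by
    rw [hK, hH, ← Finset.sum_sub_distrib]
    exact memLocalIdeal_sum _ fun c _ => h1.2.2 ξ' hξ'mem η hη _
  have := memLocalIdeal_add hsum (h2.2.2 η hη χ hχ g)
  rwa [sub_add_sub_cancel] at this

end CfsgLib.Blocks
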