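import Mathlib

/-!
# The integral columns of a block with a dihedral defect group

Vectors `u 1, …, u N` of norm three with mutual products two and products two with a vector `X` of
norm four, all orthogonal to the positive vector of degrees: there are `N + 4` points, except for
one configuration with `N = 3` on five points.
-/

set_option autoImplicit false
set_option maxHeartbeats 2000000

namespace CfsgLib.Blocks.DihedralLattice

variable {ι : Type*} [DecidableEq ι]

/-- The alternating sign with index starting at one. -/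
def sgn (j : ℕ) : ℤ := (-1) ^ (j + 1)

/-- The data. -/
structure Data (s : Finset ι) (N : ℕ) (u : Fin N → ι → ℤ) (X deg e : ι → ℤ) : Prop where
  pos : ∀ p ∈ s, 0 < deg p
  nX : ∑ p ∈ s, X p * X p = 4
  uX : ∀ j, ∑ p ∈ s, u j p * X p = 2
  nu : ∀ j, ∑ p ∈ s, u j p * u j p = 3
  uu : ∀ j k, j ≠ k → ∑ p ∈ s, u j p * u k p = 2
  ne : ∑ p ∈ s, e p * e p = 4 * (N + 1)
  dX : ∑ p ∈ s, X p * deg p = 0
  du : ∀ j, ∑ p ∈ s, u j p * deg p = 0
  e_eq : ∀ p ∈ s, e p = X p + 2 * ∑ j : Fin N, sgn (j : ℕ) * u j p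
  e_ne : ∀ p ∈ s, e p ≠ 0
  odd : ∃ p ∈ s, Odd (e p)

variable {s : Finset ι} {N : ℕ} {u : Fin N → ι → ℤ} {X deg e : ι → ℤ}

omit [DecidableEq ι] in
theorem odd_iff (h : Data s N u X deg e) {p : ι} (hp : p ∈ s) : Odd (e p) ↔ Odd (X p) := by
  rw [h.e_eq p hp, Int.odd_add]
  exact iff_iff_eq.2 (by simp)

/-- `X` is a sign on four points and vanishes on the others. -/
theorem X_cases (h : Data s N u X deg e) {p : ι} (hp : p ∈ s) :
    X p = 1 ∨ X p = -1 ∨ X p = 0 := by
  obtain ⟨q, hq, hqo⟩ := h.odd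
  rw [odd_iff h hq] at hqo
  have hle : X p * X p ≤ 4 :=
    h.nX ▸ Finset.single_le_sum (f := fun r => X r * X r) (fun r _ => mul_self_nonneg _) hp
  have h1 : -2 ≤ X p := by nlinarith
  have h2 : X p ≤ 2 := by nlinarith
  by_contra hcon
  push Not at hcon
  have hp2 : X p * X p = 4 := by
    rcases (show X p = 2 ∨ X p = -2 by omega) with e | e <;> rw [e] <;> norm_num
  have hne : q ≠ p := by
    rintro rfl
    rcases (show X q = 2 ∨ X q = -2 by omega) with e | e <;> rw [e] at hqo <;> exact absurd hqo (by decide)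
  have h3 : ∑ r ∈ ({q, p} : Finset ι), X r * X r ≤ 4 := by
    rw [← h.nX]
    exact Finset.sum_le_sum_of_subset_of_nonneg (Finset.insert_subset hq (Finset.singleton_subset_iff.2 hp))
      fun r _ _ => mul_self_nonneg _
  rw [Finset.sum_pair hne, hp2] at h3
  obtain ⟨r, hr⟩ := hqo
  rcases le_or_gt 0 r with hr0 | hr0 <;> nlinarith

/-- The four points. -/
theorem card_four (h : Data s N u X deg e) : (s.filter fun p => X p ≠ 0).card = 4 := by
  have h1 := h.nX
  have hf : ∑ p ∈ s.filter (fun p => X p ≠ 0), X p * X p = ∑ p ∈ s, X p * X p :=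
    Finset.sum_filter_of_ne fun p _ hp => (mul_ne_zero_iff.1 hp).1
  rw [← hf, Finset.sum_congr rfl (g := fun _ => (1 : ℤ)) fun p hp => ?_, Finset.sum_const, nsmul_one] at h1
  · exact_mod_cast h1
  · obtain ⟨hp, h0⟩ := Finset.mem_filter.1 hp
    rcases X_cases h hp with e | e | e
    · rw [e]; norm_num
    · rw [e]; norm_num
    · exact absurd e h0

/-- Exactly four values are odd. -/
theorem card_odd (h : Data s N u X deg e) : (s.filter fun p => Odd (e p)).card = 4 := by
  rw [← card_four h]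
  congr 1
  refine Finset.filter_congr fun p hp => ?_
  rw [odd_iff h hp]
  rcases X_cases h hp with e | e | e <;> rw [e] <;> decide

/-- At most `N + 4` points, and then the even values are `± 2`. -/
theorem card_le (h : Data s N u X deg e) :
    s.card ≤ N + 4 ∧ (s.card = N + 4 → ∀ p ∈ s, |e p| ≤ 2) := by
  set g : ι → ℤ := fun p => if Odd (e p) then 1 else 4 with hg
  have hle : ∀ p ∈ s, g p ≤ e p * e p := by
    intro p hp
    by_cases ho : Odd (e p)
    · simp only [hg, if_pos ho]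
      have := h.e_ne p hp
      rcases lt_or_gt_of_ne this with h' | h' <;> nlinarith
    · simp only [hg, if_neg ho]
      obtain ⟨c, hc⟩ := Int.not_odd_iff_even.1 ho
      have := h.e_ne p hp
      rcases lt_or_gt_of_ne this with h' | h'
      · have : e p ≤ -2 := by omega
        nlinarith
      · have : 2 ≤ e p := by omega
        nlinarith
  have hsum : ∑ p ∈ s, g p = 4 * (s.card : ℤ) - 12 := by
    have hs : (s.filter fun p => Odd (e p)).card + (s.filter fun p => ¬ Odd (e p)).card = s.card :=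
      Finset.card_filter_add_card_filter_not _
    rw [card_odd h] at hs
    simp only [hg]
    rw [Finset.sum_ite, Finset.sum_const, Finset.sum_const, card_odd h, nsmul_eq_mul, nsmul_eq_mul]
    push_cast
    omega
  have htot : ∑ p ∈ s, g p ≤ 4 * ((N : ℤ) + 1) := (Finset.sum_le_sum hle).trans h.ne.le
  refine ⟨by omega, fun hk p hp => ?_⟩
  have heq : ∑ p ∈ s, g p = ∑ p ∈ s, e p * e p := by rw [h.ne, hsum, hk]; push_cast; ring
  have := (Finset.sum_eq_sum_iff_of_le hle).1 heq p hp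
  simp only [hg] at this
  split_ifs at this
  · rw [abs_le]; constructor <;> nlinarith
  · rw [abs_le]; constructor <;> nlinarith

/-- The support of one vector. -/
theorem exists_supp (h : Data s N u X deg e) (j : Fin N) :
    ∃ (A : Finset ι) (w : ι) (δ : ℤ), A ⊆ s.filter (fun p => X p ≠ 0) ∧ A.card = 2 ∧ w ∈ s ∧
      X w = 0 ∧ (δ = 1 ∨ δ = -1) ∧
      ∀ p ∈ s, u j p = if p ∈ A then X p else if p = w then δ else 0 := by
  have hn := h.nu j
  have hpm : ∀ p ∈ s, u j p = 1 ∨ u j p = -1 ∨ u j p = 0 := by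
    intro p hp
    have hle : u j p * u j p ≤ 3 :=
      hn ▸ Finset.single_le_sum (f := fun r => u j r * u j r) (fun r _ => mul_self_nonneg _) hp
    have h1 : -1 ≤ u j p := by nlinarith
    have h2 : u j p ≤ 1 := by nlinarith
    omega
  set S := s.filter fun p => u j p ≠ 0 with hS
  have hS3 : S.card = 3 := by
    have hf : ∑ p ∈ s.filter (fun p => u j p ≠ 0), u j p * u j p = ∑ p ∈ s, u j p * u j p :=
      Finset.sum_filter_of_ne fun p _ hp => (mul_ne_zero_iff.1 hp).1
    rw [← hf, Finset.sum_congr rfl (g := fun _ => (1 : ℤ)) fun p hp => ?_, Finset.sum_const, nsmul_one] at hn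
    · exact_mod_cast hn
    · obtain ⟨hp, h0⟩ := Finset.mem_filter.1 hp
      rcases hpm p hp with e | e | e
      · rw [e]; norm_num
      · rw [e]; norm_num
      · exact absurd e h0
  -- the products with `X`
  set f : ι → ℤ := fun p => u j p * X p with hf
  have hfS : ∑ p ∈ S, f p = 2 := by
    rw [hS, Finset.sum_filter_of_ne fun p _ hp => (mul_ne_zero_iff.1 hp).1]
    exact h.uX j
  set A := S.filter fun p => f p = 1 with hA
  have hfcases : ∀ p ∈ S, f p = 1 ∨ f p = 0 ∨ f p = -1 := by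
    intro p hp
    obtain ⟨hp, -⟩ := Finset.mem_filter.1 hp
    simp only [hf]
    rcases hpm p hp with a | a | a <;> rcases X_cases h hp with b | b | b <;> rw [a, b] <;> norm_num
  obtain ⟨p₁, p₂, p₃, h12, h13, h23, hS'⟩ := Finset.card_eq_three.1 hS3
  rw [hS', Finset.sum_insert (by simp [h12, h13]), Finset.sum_pair h23] at hfS
  have c1 := hfcases p₁ (by simp [hS'])
  have c2 := hfcases p₂ (by simp [hS'])
  have c3 := hfcases p₃ (by simp [hS'])
  obtain ⟨a, b, w, hab, haw, hbw, hSeq, fa, fb, fw⟩ : ∃ a b w, a ≠ b ∧ a ≠ w ∧ b ≠ w ∧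
      S = {a, b, w} ∧ f a = 1 ∧ f b = 1 ∧ f w = 0 := by
    by_cases z1 : f p₁ = 0
    · exact ⟨p₂, p₃, p₁, h23, h12.symm, h13.symm, by rw [hS']; ext q; simp; tauto, by omega,
        by omega, z1⟩
    by_cases z2 : f p₂ = 0
    · exact ⟨p₁, p₃, p₂, h13, h12, h23.symm, by rw [hS']; ext q; simp; tauto, by omega,
        by omega, z2⟩
    exact ⟨p₁, p₂, p₃, h12, h13, h23, hS', by omega, by omega, by omega⟩
  have hm : ∀ q ∈ ({a, b, w} : Finset ι), q ∈ s ∧ u j q ≠ 0 := fun q hq => by
    rw [← hSeq] at hq; exact Finset.mem_filter.1 hq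
  obtain ⟨has, ha0⟩ := hm a (by simp)
  obtain ⟨hbs, hb0⟩ := hm b (by simp)
  obtain ⟨hws, hw0⟩ := hm w (by simp)
  have hXw : X w = 0 := (mul_eq_zero.1 (show u j w * X w = 0 from fw)).resolve_left hw0
  have heq : ∀ q ∈ s, f q = 1 → X q ≠ 0 ∧ u j q = X q := by
    intro q hq e1
    simp only [hf] at e1
    rcases Int.mul_eq_one_iff_eq_one_or_neg_one.1 e1 with ⟨c, d⟩ | ⟨c, d⟩ <;>
      exact ⟨by rw [d]; norm_num, by rw [c, d]⟩
  refine ⟨{a, b}, w, u j w, ?_, Finset.card_pair hab, hws, hXw, ?_, fun q hq => ?_⟩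
  · intro q hq
    simp only [Finset.mem_insert, Finset.mem_singleton] at hq
    rcases hq with rfl | rfl
    exacts [Finset.mem_filter.2 ⟨has, (heq _ has fa).1⟩, Finset.mem_filter.2 ⟨hbs, (heq _ hbs fb).1⟩]
  · rcases hpm w hws with e | e | e
    exacts [Or.inl e, Or.inr e, absurd e hw0]
  · split_ifs with h1 h2
    · simp only [Finset.mem_insert, Finset.mem_singleton] at h1
      rcases h1 with rfl | rfl
      exacts [(heq _ has fa).2, (heq _ hbs fb).2]
    · rw [h2]
    · by_contra h0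
      have : q ∈ S := Finset.mem_filter.2 ⟨hq, h0⟩
      simp only [hSeq, Finset.mem_insert, Finset.mem_singleton] at this h1
      tauto

/-- The one exceptional configuration. -/
def Exceptional (s : Finset ι) (N : ℕ) (u : Fin N → ι → ℤ) (X deg e : ι → ℤ) : Prop :=
  ∃ (hN : N = 3) (a b c d w : ι) (σ τ q : ℤ), (σ = 1 ∨ σ = -1) ∧ (τ = 1 ∨ τ = -1) ∧ 0 < q ∧
    [a, b, c, d, w].Nodup ∧ s = {a, b, c, d, w} ∧
    [deg a, deg b, deg c, deg d, deg w] = [3 * q, q, q, q, 2 * q] ∧
    [X a, X b, X c, X d, X w] = [-σ, σ, σ, σ, 0] ∧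
    [e a, e b, e c, e d, e w] = [τ * σ, -(τ * σ), 3 * (τ * σ), -(τ * σ), -2 * (τ * σ)] ∧
    (fun v => [v a, v b, v c, v d, v w])
        (fun p => X p - 2 * u (Fin.cast hN.symm 1) p) =
      [τ * σ, τ * σ, -(τ * σ), τ * σ, -2 * (τ * σ)] ∧
    (fun v => [v a, v b, v c, v d, v w])
        (fun p => u (Fin.cast hN.symm 0) p - u (Fin.cast hN.symm 2) p) =
      [0, τ * σ, 0, -(τ * σ), 0]

/-- Three vectors through one point. -/
theorem star_case {u : Fin 3 → ι → ℤ} (h : Data s 3 u X deg e) {A : Fin 3 → Finset ι} {w : ι}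
    {δ : ℤ} (hA : ∀ j, A j ⊆ s.filter fun p => X p ≠ 0) (hA2 : ∀ j, (A j).card = 2) (hw : w ∈ s)
    (hXw : X w = 0) (hδ : δ = 1 ∨ δ = -1)
    (hu : ∀ j, ∀ p ∈ s, u j p = if p ∈ A j then X p else if p = w then δ else 0)
    (hinj : ∀ j k, j ≠ k → A j ≠ A k) {a : ι} (ha : ∀ j, a ∈ A j) :
    ∃ (b c d : ι) (σ q : ℤ), (σ = 1 ∨ σ = -1) ∧ 0 < q ∧ [a, b, c, d, w].Nodup ∧
      s = {a, b, c, d, w} ∧ [deg a, deg b, deg c, deg d, deg w] = [3 * q, q, q, q, 2 * q] ∧
      [X a, X b, X c, X d, X w] = [-σ, σ, σ, σ, 0] ∧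
      [e a, e b, e c, e d, e w] = [σ, -σ, 3 * σ, -σ, -2 * σ] ∧
      (fun v => [v a, v b, v c, v d, v w]) (fun p => X p - 2 * u 1 p) = [σ, σ, -σ, σ, -2 * σ] ∧
      (fun v => [v a, v b, v c, v d, v w]) (fun p => u 0 p - u 2 p) = [0, σ, 0, -σ, 0] := by
  have hb : ∀ j, ∃ b, b ≠ a ∧ A j = {a, b} := by
    intro j
    obtain ⟨p, q, hpq, e⟩ := Finset.card_eq_two.1 (hA2 j)
    have := ha j
    rw [e, Finset.mem_insert, Finset.mem_singleton] at this
    rcases this with rfl | rfl
    · exact ⟨q, hpq.symm, e⟩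
    · exact ⟨p, hpq, by rw [e, Finset.pair_comm]⟩
  choose B hBa hAB using hb
  have hBinj : ∀ j k, j ≠ k → B j ≠ B k := fun j k hjk e => hinj j k hjk (by rw [hAB, hAB, e])
  have haS := hA 0 (ha 0)
  have hBS : ∀ j, B j ∈ s.filter fun p => X p ≠ 0 := fun j => hA j (by rw [hAB]; simp)
  have hBw : ∀ j, B j ≠ w := fun j e => (Finset.mem_filter.1 (hBS j)).2 (e ▸ hXw)
  have haw : a ≠ w := fun e => (Finset.mem_filter.1 haS).2 (e ▸ hXw)
  have h4 : s.filter (fun p => X p ≠ 0) = {a, B 0, B 1, B 2} := by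
    refine (Finset.eq_of_subset_of_card_le ?_ ?_).symm
    · intro p hp
      simp only [Finset.mem_insert, Finset.mem_singleton] at hp
      rcases hp with rfl | rfl | rfl | rfl
      exacts [haS, hBS 0, hBS 1, hBS 2]
    · rw [card_four h]
      simp [(hBa 0).symm, (hBa 1).symm, (hBa 2).symm, hBinj 0 1 (by decide), hBinj 0 2 (by decide),
        hBinj 1 2 (by decide)]
  -- the values
  have uv : ∀ j, u j a = X a ∧ u j (B j) = X (B j) ∧ u j w = δ ∧
      ∀ k, k ≠ j → u j (B k) = 0 := by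
    intro j
    refine ⟨?_, ?_, ?_, fun k hk => ?_⟩
    · rw [hu j a (Finset.mem_filter.1 haS).1, if_pos (ha j)]
    · rw [hu j _ (Finset.mem_filter.1 (hBS j)).1, if_pos (by rw [hAB]; simp)]
    · rw [hu j w hw, if_neg fun e => (Finset.mem_filter.1 (hA j e)).2 hXw, if_pos rfl]
    · rw [hu j _ (Finset.mem_filter.1 (hBS k)).1, if_neg, if_neg (hBw k)]
      rw [hAB]
      simp [hBa k, hBinj k j hk]
  have hall : ∀ p ∈ s, p ∉ ({a, B 0, B 1, B 2, w} : Finset ι) → False := by
    intro p hp hn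
    simp only [Finset.mem_insert, Finset.mem_singleton, not_or] at hn
    obtain ⟨n1, n2, n3, n4, n5⟩ := hn
    have hX0 : X p = 0 := by
      by_contra h0
      have := (Finset.mem_filter (p := fun q => X q ≠ 0)).2 ⟨hp, h0⟩
      simp [h4, n1, n2, n3, n4] at this
    refine h.e_ne p hp ?_
    rw [h.e_eq p hp, hX0, Finset.sum_eq_zero, mul_zero, zero_add]
    intro j _
    rw [hu j p hp, if_neg, if_neg n5, mul_zero]
    rw [hAB]
    fin_cases j <;> simp [n1, n2, n3, n4]
  have hs : s = {a, B 0, B 1, B 2, w} := by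
    refine Finset.Subset.antisymm (fun p hp => by_contra (hall p hp)) ?_
    intro p hp
    simp only [Finset.mem_insert, Finset.mem_singleton] at hp
    rcases hp with rfl | rfl | rfl | rfl | rfl
    exacts [(Finset.mem_filter.1 haS).1, (Finset.mem_filter.1 (hBS 0)).1,
      (Finset.mem_filter.1 (hBS 1)).1, (Finset.mem_filter.1 (hBS 2)).1, hw]
  have hnd : [a, B 0, B 1, B 2, w].Nodup := by
    simp [(hBa 0).symm, (hBa 1).symm, (hBa 2).symm, hBinj 0 1 (by decide), hBinj 0 2 (by decide),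
      hBinj 1 2 (by decide), hBw 0, hBw 1, hBw 2, haw]
  have hsum : ∀ F : ι → ℤ, ∑ p ∈ s, F p = F a + F (B 0) + F (B 1) + F (B 2) + F w := by
    intro F
    simp only [List.nodup_cons, List.mem_cons, List.not_mem_nil, or_false, not_or] at hnd
    obtain ⟨⟨n1, n2, n3, n4⟩, ⟨n5, n6, n7⟩, ⟨n8, n9⟩, n10, -⟩ := hnd
    rw [hs, Finset.sum_insert (by simp [n1, n2, n3, n4]), Finset.sum_insert (by simp [n5, n6, n7]),
      Finset.sum_insert (by simp [n8, n9]), Finset.sum_pair n10]
    ring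
  obtain ⟨a0, b00, w0, z0⟩ := uv 0
  obtain ⟨a1, b11, w1, z1⟩ := uv 1
  obtain ⟨a2, b22, w2, z2⟩ := uv 2
  have b01 := z0 1 (by decide)
  have b02 := z0 2 (by decide)
  have b10 := z1 0 (by decide)
  have b12 := z1 2 (by decide)
  have b20 := z2 0 (by decide)
  have b21 := z2 1 (by decide)
  have d0 := h.du 0
  have d1 := h.du 1
  have d2 := h.du 2
  have dX := h.dX
  rw [hsum] at d0 d1 d2 dX
  rw [a0, b00, b01, b02, w0] at d0
  rw [a1, b10, b11, b12, w1] at d1
  rw [a2, b20, b21, b22, w2] at d2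
  rw [hXw] at dX
  have pa := h.pos a (hs ▸ by simp)
  have p0 := h.pos (B 0) (hs ▸ by simp)
  have p1 := h.pos (B 1) (hs ▸ by simp)
  have p2 := h.pos (B 2) (hs ▸ by simp)
  have pw := h.pos w hw
  have cases : ∀ p, p ∈ s.filter (fun p => X p ≠ 0) → X p = 1 ∨ X p = -1 := fun p hp => by
    obtain ⟨hp, h0⟩ := Finset.mem_filter.1 hp
    rcases X_cases h hp with e | e | e
    exacts [Or.inl e, Or.inr e, absurd e h0]
  have ca := cases a haS
  have c0 := cases _ (hBS 0)
  have c1 := cases _ (hBS 1)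
  have c2 := cases _ (hBS 2)
  obtain ⟨σ, hσ, eA, e0, e1, e2, eδ, da, db1, db2, dw⟩ : ∃ σ : ℤ, (σ = 1 ∨ σ = -1) ∧ X a = -σ ∧
      X (B 0) = σ ∧ X (B 1) = σ ∧ X (B 2) = σ ∧ δ = σ ∧ deg a = 3 * deg (B 0) ∧
      deg (B 1) = deg (B 0) ∧ deg (B 2) = deg (B 0) ∧ deg w = 2 * deg (B 0) := by
    refine ⟨X (B 0), c0, ?_⟩
    rcases ca with e | e <;> rcases c0 with f0 | f0 <;> rcases c1 with f1 | f1 <;>
      rcases c2 with f2 | f2 <;> rcases hδ with g | g <;>
      (simp only [e, f0, f1, f2, g, neg_neg, true_and, and_true] at d0 d1 d2 dX ⊢) <;> omega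
  have ee : ∀ p ∈ s, e p = X p + 2 * (-u 0 p + u 1 p - u 2 p) := fun p hp => by
    rw [h.e_eq p hp, Fin.sum_univ_three]
    simp [sgn]
    ring
  refine ⟨B 0, B 1, B 2, σ, deg (B 0), hσ, p0, hnd, hs, ?_, ?_, ?_, ?_, ?_⟩
  · simp [da, db1, db2, dw]
  · simp [eA, e0, e1, e2, hXw]
  · rw [ee a (hs ▸ by simp), ee (B 0) (hs ▸ by simp), ee (B 1) (hs ▸ by simp),
      ee (B 2) (hs ▸ by simp), ee w hw, a0, a1, a2, b00, b01, b02, b10, b11, b12, b20, b21, b22,
      w0, w1, w2, eA, e0, e1, e2, hXw, eδ]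
    simp
    omega
  · simp [a1, b10, b11, b12, w1, eA, e0, e1, e2, hXw, eδ]
    omega
  · simp [a0, a2, b00, b01, b02, b20, b21, b22, w0, w2, eA, e0, e2, eδ]

/-- The count. -/
theorem card_ge (h : Data s N u X deg e) : N + 4 ≤ s.card ∨ N = 2 ∨ Exceptional s N u X deg e := by
  choose A w δ hA hA2 hw hXw hδ hu using exists_supp h
  set S4 := s.filter fun p => X p ≠ 0 with hS4
  have h4 : S4.card = 4 := card_four h
  by_cases hwinj : Function.Injective w
  · left
    have hsub : S4 ∪ Finset.univ.image w ⊆ s :=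
      Finset.union_subset (Finset.filter_subset _ _) fun p hp => by
        obtain ⟨j, -, rfl⟩ := Finset.mem_image.1 hp
        exact hw j
    have hdis : Disjoint S4 (Finset.univ.image w) := by
      rw [Finset.disjoint_left]
      intro p hp hp'
      obtain ⟨j, -, rfl⟩ := Finset.mem_image.1 hp'
      exact (Finset.mem_filter.1 hp).2 (hXw j)
    have := Finset.card_le_card hsub
    rw [Finset.card_union_of_disjoint hdis, Finset.card_image_of_injective _ hwinj, h4,
      Finset.card_univ, Fintype.card_fin] at this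
    omega
  -- products of two vectors
  have hdot : ∀ j k, j ≠ k → (A j ∩ A k).card ≤ 2 ∧
      ((A j ∩ A k).card : ℤ) + (if w j = w k then δ j * δ k else 0) = 2 := by
    intro j k hjk
    refine ⟨(Finset.card_le_card Finset.inter_subset_left).trans (hA2 j).le, ?_⟩
    rw [← h.uu j k hjk]
    have hsplit : ∀ p ∈ s, u j p * u k p = (if p ∈ A j ∩ A k then 1 else 0) +
        (if p = w j then (if w j = w k then δ j * δ k else 0) else 0) := by
      intro p hp
      have hwA : ∀ i l, w i ∉ A l := fun i l e => (Finset.mem_filter.1 (hA l e)).2 (hXw i)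
      rw [hu j p hp, hu k p hp]
      by_cases hpj : p ∈ A j
      · have hne : p ≠ w j := fun e => hwA j j (e ▸ hpj)
        have hne' : p ≠ w k := fun e => hwA k j (e ▸ hpj)
        rw [if_pos hpj, if_neg (c := p = w j) hne, add_zero]
        by_cases hpk : p ∈ A k
        · rw [if_pos hpk, if_pos (Finset.mem_inter.2 ⟨hpj, hpk⟩)]
          have h1 := (Finset.mem_filter.1 (hA j hpj))
          rcases X_cases h h1.1 with e | e | e
          · rw [e]; norm_num
          · rw [e]; norm_num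
          · exact absurd e h1.2
        · rw [if_neg hpk, if_neg hne', mul_zero, if_neg fun e => hpk (Finset.mem_inter.1 e).2]
      · rw [if_neg hpj, if_neg (c := p ∈ A j ∩ A k) fun e => hpj (Finset.mem_inter.1 e).1, zero_add]
        by_cases hpw : p = w j
        · rw [if_pos hpw, if_pos hpw, if_neg fun e => hwA j k (hpw ▸ e)]
          by_cases hww : w j = w k
          · rw [if_pos hww, if_pos (hpw.trans hww)]
          · rw [if_neg hww, if_neg fun e => hww (hpw.symm.trans e), mul_zero]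
        · rw [if_neg hpw, if_neg hpw, zero_mul]
    rw [Finset.sum_congr rfl hsplit, Finset.sum_add_distrib, Finset.sum_ite_mem,
      Finset.inter_eq_right.2 fun p hp => (Finset.mem_filter.1 (hA j (Finset.mem_inter.1 hp).1)).1,
      Finset.sum_const, nsmul_one, Finset.sum_ite_eq', if_pos (hw j)]
  have hrel : ∀ j k, j ≠ k → (A j = A k ∧ w j ≠ w k) ∨
      ((A j ∩ A k).card = 1 ∧ A j ≠ A k ∧ w j = w k ∧ δ j = δ k) := by
    intro j k hjk
    obtain ⟨hle, he⟩ := hdot j k hjk
    by_cases hww : w j = w k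
    · rw [if_pos hww] at he
      right
      rcases hδ j with a | a <;> rcases hδ k with b | b <;> rw [a, b] at he
      all_goals first
        | omega
        | (have hc : (A j ∩ A k).card = 1 := by omega
           refine ⟨hc, fun e => ?_, hww, by rw [a, b]⟩
           rw [e, Finset.inter_self, hA2 k] at hc
           omega)
    · rw [if_neg hww, add_zero] at he
      left
      have hc : (A j ∩ A k).card = 2 := by exact_mod_cast he
      refine ⟨?_, hww⟩
      have h1 := Finset.eq_of_subset_of_card_le (Finset.inter_subset_left : A j ∩ A k ⊆ A j)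
        (by rw [hc, hA2])
      have h2 := Finset.eq_of_subset_of_card_le (Finset.inter_subset_right : A j ∩ A k ⊆ A k)
        (by rw [hc, hA2])
      exact h1.symm.trans h2
  -- all share one point
  obtain ⟨j₁, j₂, hw12, h12⟩ : ∃ j₁ j₂, w j₁ = w j₂ ∧ j₁ ≠ j₂ := by
    simpa [Function.Injective, not_forall] using hwinj
  have hA12 : A j₁ ≠ A j₂ := by
    rcases hrel _ _ h12 with ⟨-, e⟩ | ⟨-, e, -, -⟩
    exacts [absurd hw12 e, e]
  have hall : ∀ j, w j = w j₁ := by
    intro j
    by_cases e1 : j = j₁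
    · rw [e1]
    by_cases e2 : j = j₂
    · rw [e2, hw12]
    rcases hrel j j₁ e1 with ⟨ea, en⟩ | ⟨-, -, e, -⟩
    · rcases hrel j j₂ e2 with ⟨eb, -⟩ | ⟨-, -, e', -⟩
      · exact absurd (ea.symm.trans eb) hA12
      · exact absurd (e'.trans hw12.symm) en
    · exact e
  have hpair : ∀ j k, j ≠ k → (A j ∩ A k).card = 1 ∧ A j ≠ A k ∧ δ j = δ k := by
    intro j k hjk
    rcases hrel j k hjk with ⟨-, e⟩ | ⟨a, b, -, d⟩
    · exact absurd ((hall j).trans (hall k).symm) e
    · exact ⟨a, b, d⟩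
  have hδall : ∀ j, δ j = δ j₁ := fun j => by
    by_cases e1 : j = j₁
    · rw [e1]
    · exact (hpair j j₁ e1).2.2
  -- at most three
  obtain ⟨a₀, ha₀⟩ := Finset.card_pos.1 (show 0 < S4.card by omega)
  have hN3 : N ≤ 3 := by
    let φ : Fin N → Finset ι := fun j => if a₀ ∈ A j then A j else S4 \ A j
    have hφ : Function.Injective φ := by
      intro j k e
      by_contra hjk
      obtain ⟨hc, hne, -⟩ := hpair j k hjk
      simp only [φ] at e
      split_ifs at e with x y y
      · exact hne e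
      · have : A j ∩ A k = ∅ := by rw [e, Finset.sdiff_inter_self]
        simp [this] at hc
      · have : A j ∩ A k = ∅ := by rw [← e, Finset.inter_sdiff_self]
        simp [this] at hc
      · exact hne (by rw [← Finset.sdiff_sdiff_eq_self (hA j), e, Finset.sdiff_sdiff_eq_self (hA k)])
    have hmem : ∀ j, φ j ∈ (S4.erase a₀).image fun p => ({a₀, p} : Finset ι) := by
      intro j
      obtain ⟨hs, hc, hm⟩ : φ j ⊆ S4 ∧ (φ j).card = 2 ∧ a₀ ∈ φ j := by
        simp only [φ]
        split_ifs with x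
        · exact ⟨hA j, hA2 j, x⟩
        · exact ⟨Finset.sdiff_subset, by rw [Finset.card_sdiff_of_subset (hA j), h4, hA2 j],
            Finset.mem_sdiff.2 ⟨ha₀, x⟩⟩
      obtain ⟨p, q, hpq, e⟩ := Finset.card_eq_two.1 hc
      rw [e, Finset.mem_insert, Finset.mem_singleton] at hm
      rcases hm with rfl | rfl
      · exact Finset.mem_image.2 ⟨q, Finset.mem_erase.2 ⟨hpq.symm, hs (by simp [e])⟩, e.symm⟩
      · exact Finset.mem_image.2 ⟨p, Finset.mem_erase.2 ⟨hpq, hs (by simp [e])⟩,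
          by rw [e, Finset.pair_comm]⟩
    have := Finset.card_le_card (Finset.image_subset_iff.2 fun j (_ : j ∈ Finset.univ) => hmem j)
    rw [Finset.card_image_of_injective _ hφ, Finset.card_univ, Fintype.card_fin] at this
    refine this.trans (Finset.card_image_le.trans ?_)
    rw [Finset.card_erase_of_mem ha₀, h4]
  have h2 : 2 ≤ N := by
    have := Fin.val_ne_of_ne h12
    have := j₁.isLt
    have := j₂.isLt
    omega
  by_cases hN2 : N = 2
  · exact Or.inr (Or.inl hN2)
  obtain rfl : N = 3 := by omega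
  refine Or.inr (Or.inr ⟨rfl, ?_⟩)
  simp only [Fin.cast_eq_self]
  set w₀ := w j₁
  set δ₀ := δ j₁
  have hu' : ∀ j, ∀ p ∈ s, u j p = if p ∈ A j then X p else if p = w₀ then δ₀ else 0 :=
    fun j p hp => by rw [hu j p hp, hall j, hδall j]
  have hinj : ∀ j k : Fin 3, j ≠ k → A j ≠ A k := fun j k hjk => (hpair j k hjk).2.1
  by_cases hstar : ∃ a, ∀ j, a ∈ A j
  · obtain ⟨a, ha⟩ := hstar
    obtain ⟨b, c, d, σ, q, hσ, hq, hnd, hs, hd, hX, he, hy, hz⟩ :=
      star_case h hA hA2 (hw j₁) (hXw j₁) (hδ j₁) hu' hinj ha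
    exact ⟨a, b, c, d, w₀, σ, 1, q, hσ, Or.inl rfl, hq, hnd, hs, hd, hX, by simpa using he,
      by simpa using hy, by simpa using hz⟩
  -- complements
  push Not at hstar
  obtain ⟨a, haS, ha⟩ : ∃ a ∈ S4, ∀ j, a ∉ A j := by
    by_contra hcon
    push Not at hcon
    have hcov : S4 ⊆ A 0 ∪ A 1 ∪ A 2 := by
      intro p hp
      obtain ⟨j, hj⟩ := hcon p hp
      rcases (by decide : ∀ j : Fin 3, j = 0 ∨ j = 1 ∨ j = 2) j with rfl | rfl | rfl <;> simp [hj]
    have hc01 := (hpair 0 1 (by decide)).1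
    have hc02 := (hpair 0 2 (by decide)).1
    have hc12 := (hpair 1 2 (by decide)).1
    have e01 := Finset.card_union_add_card_inter (A 0) (A 1)
    have e2 := Finset.card_union_add_card_inter (A 0 ∪ A 1) (A 2)
    have e3 : ((A 0 ∪ A 1) ∩ A 2).card = 2 := by
      rw [Finset.union_inter_distrib_right, Finset.card_union_of_disjoint, hc02, hc12]
      rw [Finset.disjoint_left]
      intro p hp hp'
      obtain ⟨j, hj⟩ := hstar p
      rw [Finset.mem_inter] at hp hp'
      fin_cases j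
      exacts [hj hp.1, hj hp'.1, hj hp.2]
    have := Finset.card_le_card hcov
    rw [h4] at this
    have := hA2 0
    have := hA2 1
    have := hA2 2
    omega
  set u' : Fin 3 → ι → ℤ := fun j p => X p - u j p with hu''
  have h' : Data s 3 u' X deg fun p => -e p := by
    refine ⟨h.pos, h.nX, fun j => ?_, fun j => ?_, fun j k hjk => ?_, ?_, h.dX, fun j => ?_, ?_,
      fun p hp => neg_ne_zero.2 (h.e_ne p hp), ?_⟩
    · simp only [hu'', sub_mul, Finset.sum_sub_distrib]
      rw [h.nX, h.uX]; norm_num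
    · simp only [hu'', sub_mul, mul_sub, Finset.sum_sub_distrib, mul_comm (X _) (u _ _)]
      rw [h.nX, h.uX, h.nu]; norm_num
    · simp only [hu'', sub_mul, mul_sub, Finset.sum_sub_distrib, mul_comm (X _) (u _ _)]
      rw [h.nX, h.uX, h.uX, h.uu j k hjk]; norm_num
    · simpa using h.ne
    · simp only [hu'', sub_mul, Finset.sum_sub_distrib]
      rw [h.dX, h.du, sub_zero]
    · intro p hp
      simp only [hu'']
      rw [h.e_eq p hp, Fin.sum_univ_three, Fin.sum_univ_three]
      simp [sgn]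
      ring
    · obtain ⟨p, hp, ho⟩ := h.odd
      exact ⟨p, hp, ho.neg⟩
  obtain ⟨b, c, d, σ, q, hσ, hq, hnd, hs, hd, hX, he, hy, hz⟩ := star_case h'
    (A := fun j => S4 \ A j) (fun j => Finset.sdiff_subset)
    (fun j => by rw [Finset.card_sdiff_of_subset (hA j), h4, hA2 j]) (hw j₁) (hXw j₁) (δ := -δ₀)
    (by rcases hδ j₁ with e | e <;> simp [δ₀, e])
    (fun j p hp => by
      simp only [hu'']
      rw [hu' j p hp]
      by_cases hp4 : p ∈ S4
      · have hne : p ≠ w₀ := fun e => (Finset.mem_filter.1 hp4).2 (e ▸ hXw j₁)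
        have hne'' : p ≠ w j₁ := hne
        by_cases hpA : p ∈ A j <;> simp [hpA, hne, hne'', hp4]
      · have hX0 : X p = 0 := by
          by_contra h0
          exact hp4 (Finset.mem_filter.2 ⟨hp, h0⟩)
        have hpA : p ∉ A j := fun e => hp4 (hA j e)
        rw [if_neg hpA, hX0, if_neg fun e => hp4 (Finset.mem_sdiff.1 e).1]
        split_ifs <;> simp)
    (fun j k hjk e => hinj j k hjk (by
      rw [← Finset.sdiff_sdiff_eq_self (hA j), e, Finset.sdiff_sdiff_eq_self (hA k)]))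
    (fun j => Finset.mem_sdiff.2 ⟨haS, ha j⟩)
  simp only [hu'', List.cons.injEq, and_true] at he hy hz
  refine ⟨a, b, c, d, w₀, σ, -1, q, hσ, Or.inr rfl, hq, hnd, hs, hd, hX, ?_, ?_, ?_⟩ <;>
    simp only [List.cons.injEq, and_true] <;>
    obtain ⟨e1, e2, e3, e4, e5⟩ := he <;> obtain ⟨f1, f2, f3, f4, f5⟩ := hy <;>
    obtain ⟨g1, g2, g3, g4, g5⟩ := hz <;> refine ⟨?_, ?_, ?_, ?_, ?_⟩ <;> linarith

end CfsgLib.Blocks.DihedralLattice
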