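import Cfsg.Agent.Blocks.Dihedral.CentralPair
import Cfsg.Agent.Blocks.Dihedral.Exceptional
import Cfsg.Agent.Blocks.KleinFour.Pairs
import Cfsg.Agent.Blocks.CyclicInertia
import Cfsg.Agent.Blocks.Defect.SubgroupTransport
import Cfsg.Agent.Blocks.Defect.LocalBlocks

/-!
# Blocks with dihedral defect groups
-/

set_option autoImplicit false
set_option maxHeartbeats 1000000
open scoped MonoidAlgebra
open scoped ComplexConjugate

namespace CfsgLib.Blocks.DihedralBlk

open Cfsg CfsgLib CfsgLib.Blocks CfsgLib.Blocks.NilSection CfsgLib.FusionTwo CfsgLib.Blocks.Contrib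
  CfsgLib.Blocks.HeightZero

universe u

variable {G : Type u} [Group G] [Fintype G] {M : Ideal AlgInt} [hMmax : M.IsMaximal]
  [hp : Fact (Nat.Prime 2)] [CharP (kres M) 2] {B : Set (IrrCharacter G)}

/-- The central involution gives a context. -/
theorem exists_ctx (hM : IsPModular 2 M) (hB : IsPBlock M B) {D : Subgroup G}
    (hD : IsDefectGroup 2 M B D) {n : ℕ} (hn : 3 ≤ n)
    (e : D ≃* DihedralGroup (2 ^ (n - 1))) :
    ∃ (z : G) (H : Subgroup G) (_ : Fintype H) (b : Set (IrrCharacter H)) (P : Subgroup H)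
      (g : (kres M)[H]) (ψ : IrrCharacter H) (x y : H), Ctx M B (n - 1) z H b P g ψ x y ∧
        ∃ s0 : H, IsDefectClass M b s0 ∧ P ≤ Subgroup.centralizer ({s0} : Set H) := by
  classical
  have hDI := (isDefectGroup_topEl_iff (M := M) hB D).1 hD
  have h2m : 2 ≤ 2 ^ (n - 1) := by
    calc 2 = 2 ^ 1 := (pow_one 2).symm
      _ ≤ 2 ^ (n - 1) := Nat.pow_le_pow_right two_pos (by omega)
  obtain ⟨n', xG, yG, hn', hgen⟩ := exists_isDihGen hDI.2.1 h2m e
  obtain rfl : n - 1 = n' := Nat.pow_right_injective le_rfl hn'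
  set zG : G := xG ^ 2 ^ (n - 1 - 1) with hzG
  have hzD : zG ∈ D := D.pow_mem hgen.x_mem _
  have hz2 : orderOf zG = 2 := by
    rw [hzG, orderOf_pow' _ (pow_ne_zero _ two_ne_zero), hgen.ox,
      Nat.gcd_eq_right (pow_dvd_pow 2 (Nat.sub_le _ _)), Nat.pow_div (Nat.sub_le _ _) two_pos,
      show n - 1 - (n - 1 - 1) = 1 by omega, pow_one]
  have hzc : ∀ d ∈ D, zG * d = d * zG := by
    intro d hd
    have h := hgen.z_comm hd
    rw [show xG ^ ((2 : ℤ) ^ (n - 1 - 1)) = zG by rw [hzG, ← zpow_natCast]; push_cast; rfl] at h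
    exact h
  set H := Subgroup.centralizer ({zG} : Set G) with hH
  haveI := Fintype.ofFinite H
  have hCH : Subgroup.centralizer (Subgroup.zpowers zG : Set G) = H :=
    Blocks.centralizer_zpowers_eq zG
  have hDH : D ≤ H := fun d hd => Subgroup.mem_centralizer_singleton_iff.2 (hzc d hd).symm
  obtain ⟨g₀, hmax₀⟩ := KleinFour.exists_maxPair hB hD
  have hle : Subgroup.zpowers zG ≤ D := Subgroup.zpowers_le.2 hzD
  obtain ⟨hfb, hfo⟩ := mem_blocksOver.mp (fBelow_mem_blocksOver hB hmax₀ hle)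
  rw [top_inf_eq, hCH] at hfb
  obtain ⟨b, hb, hbe⟩ := exists_subEl_eq hfb
  have hind : IsInducedBlock M H b B := by
    rw [isInducedBlock_iff_brOver hM (hDI.2.1.to_le hle)
      (Subgroup.zpowers_le.2 (Subgroup.mem_centralizer_singleton_iff.2 rfl)) hCH.le
      (hCH.symm.le.trans (Subgroup.centralizer_le_normalizer _)) hb hB, hbe]
    exact hfo
  have hdefI := CentralPair.isDefectGroupIdem_center hB hmax₀ hzD hzc
  rw [hCH, ← hbe] at hdefI
  have hPdef : IsDefectGroup 2 M b (D.subgroupOf H) :=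
    (isDefectGroup_subgroupOf_iff hDH hb).2 hdefI
  have hnilI := CentralPair.isNilpotentIdem_center hB hmax₀ hgen hzD hz2
  rw [hCH, ← hbe] at hnilI
  have hnil : IsNilpotentIdem 2 ⊤ (topEl M b) :=
    (isNilpotentIdem_top_iff hb).1 ((isNilpotentBlock_subEl_iff hb).2 hnilI)
  have hcardP : Nat.card (D.subgroupOf H) = Nat.card D :=
    Nat.card_congr (Subgroup.subgroupOfEquivOfLe hDH).toEquiv
  have h1 := natCard_defectGroup hM hb hPdef
  have h2 := natCard_defectGroup hM hB hD
  rw [hcardP, h2] at h1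
  have hmaj : blockDefect 2 b = blockDefect 2 B := (Nat.pow_right_injective le_rfl h1).symm
  rw [hgen.card] at h2
  have hdef : blockDefect 2 B = n - 1 + 1 := (Nat.pow_right_injective le_rfl h2).symm
  obtain ⟨g, hmax⟩ := KleinFour.exists_maxPair hb hPdef
  obtain ⟨ψ, hψ, h0⟩ := exists_height_zero (p := 2) hb
  obtain ⟨s0, hs0, Q, hQ⟩ := id hPdef
  refine ⟨zG, H, inferInstance, b, D.subgroupOf H, g, ψ, ⟨xG, hDH hgen.x_mem⟩,
    ⟨yG, hDH hgen.y_mem⟩, ⟨hM, hB, hz2, rfl, hind, hmaj, hdef, hmax, hnil, hψ, h0,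
      ⟨hgen.one_le, by rw [hcardP, hgen.card], hgen.x_mem, hgen.y_mem,
        by rw [Subgroup.orderOf_mk, hgen.ox], by rw [Subgroup.orderOf_mk, hgen.oy],
        Subtype.ext hgen.rel, fun hmem => hgen.y_not_mem ?_⟩, by omega, rfl⟩,
    s0, hs0, hQ ▸ Subgroup.map_subtype_le _⟩
  obtain ⟨i, hi⟩ := hmem
  exact ⟨i, by simpa using congrArg Subtype.val hi⟩

/-- **The invariants of a block with a dihedral defect group.** -/
theorem dihedral_invariants (hM : IsPModular 2 M) (hB : IsPBlock M B) {D : Subgroup G}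
    (hD : IsDefectGroup 2 M B D) {n : ℕ} (hn : 3 ≤ n)
    (e : D ≃* DihedralGroup (2 ^ (n - 1))) :
    Nat.card B = 2 ^ (n - 2) + 3 ∧ 1 ≤ blockRank 2 B ∧ blockRank 2 B ≤ 3 ∧
      Nat.card {χ : IrrCharacter G // χ ∈ B ∧ blockHeight 2 B (χ : G → ℂ) = 0} = 4 ∧
      ∀ χ ∈ B, blockHeight 2 B (χ : G → ℂ) ≤ 1 := by
  classical
  obtain ⟨z, H, instH, b, P, g, ψ, x, y, c, hdg⟩ := exists_ctx hM hB hD hn e
  obtain ⟨m, rfl⟩ : ∃ m, n = m + 1 := ⟨n - 1, by omega⟩
  simp only [Nat.add_sub_cancel] at c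
  rw [show m + 1 - 2 = m - 1 by omega]
  have hm2 : 2 ≤ m := c.two_le
  have hμ := Complex.isPrimitiveRoot_exp (2 ^ m) (pow_ne_zero _ two_ne_zero)
  choose k hk using fun χ : IrrCharacter G => exists_expand c hμ χ
  set s := B.toFinite.toFinset with hs
  have hcols : DihedralColumns.Cols s m _ k (fun χ a => pFn b P g ψ χ (x ^ a)) :=
    ⟨hm2, hμ, fun χ _ a => hk χ a, fun χ _ a _ ha => pFn_even c χ ha.le,
      fun a a' ha0 ha ha0' ha' => pFn_orth c ha0 ha ha0' ha'⟩
  have hmid : ∀ χ, pFn b P g ψ χ (x ^ 2 ^ (m - 1)) = (DihedralColumns.mid m k χ : ℂ) := by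
    intro χ
    rw [hk, DihedralColumns.mid, Int.cast_sum]
    refine Finset.sum_congr rfl fun j _ => ?_
    rw [pow_mul', DihedralColumns.half_spec hcols]
    push_cast
    ring
  set e₁ : IrrCharacter G → ℤ := fun χ => ∑ j ∈ Finset.range (2 ^ m), k χ j with he₁
  have hone : ∀ χ, pFn b P g ψ χ 1 = (e₁ χ : ℂ) := by
    intro χ
    rw [← pow_zero x, hk, he₁]
    simp
  obtain ⟨hall, χ₀, hχ₀, hodd⟩ := heights c hmid hone fun χ => by
    simp only [DihedralColumns.mid, he₁, ← Finset.sum_sub_distrib]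
    refine Finset.dvd_sum fun j _ => ?_
    rcases neg_one_pow_eq_or ℤ j with h | h <;> rw [h]
    · simp
    · exact ⟨-k χ j, by ring⟩
  have hdeg : ∀ a, 0 < a → a < 2 ^ m →
      ∑ p ∈ s, (charDegree (p : G → ℂ) : ℂ) * pFn b P g ψ p (x ^ a) = 0 := by
    intro a ha0 ha
    have := sum_regular_mul_pFn c (r := (1 : G)) (by
      show ¬ 2 ∣ orderOf (1 : G)
      rw [orderOf_one]
      norm_num) ha0 ha
    rw [← this]
    exact Finset.sum_congr rfl fun p _ => by rw [Chars.coe_charDegree]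
  have hdata := DihedralColumns.data hcols (fun p => charDegree (p : G → ℂ))
    (fun p _ => Chars.charDegree_pos p) hdeg
    (fun p hp => (hall p ((Set.Finite.mem_toFinset _).1 hp)).1)
    ⟨χ₀, (Set.Finite.mem_toFinset _).2 hχ₀, hodd⟩
  have hpos : 0 < 2 ^ (m - 1) := Nat.two_pow_pos _
  have hcard : s.card = 2 ^ (m - 1) + 3 := by
    obtain ⟨hle, -⟩ := DihedralLattice.card_le hdata
    rcases DihedralLattice.card_ge hdata with h | h | h
    · omega
    · exfalso
      obtain ⟨r, hr⟩ : Even (2 ^ (m - 1)) := Nat.even_pow.2 ⟨even_two, by omega⟩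
      omega
    · exfalso
      obtain rfl : m = 3 := by
        obtain ⟨hN, -⟩ := id h
        have h4 : 2 ^ (m - 1) = 2 ^ 2 := by omega
        have := Nat.pow_right_injective le_rfl h4
        omega
      exact not_exceptional c hcols (fun χ hχ ho => (hall χ hχ).2.1.1 ho) hdg h
  have hnat : Nat.card B = s.card := by rw [Nat.card_coe_set_eq, Set.ncard_eq_toFinset_card]
  refine ⟨by rw [hnat, hcard], CyclicInertia.blockRank_pos hM hB, ?_, ?_, fun χ hχ => ?_⟩
  · set T : (s → ℂ) →ₗ[ℂ] (G → ℂ) :=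
      Fintype.linearCombination ℂ fun p : s => pRegularPart 2 ((p : IrrCharacter G) : G → ℂ) with hT
    have hrange : LinearMap.range T = KLSum.regSpan 2 B := by
      rw [hT, Fintype.range_linearCombination, KLSum.regSpan]
      congr 1
      ext v
      constructor
      · rintro ⟨p, rfl⟩
        exact ⟨p, (Set.Finite.mem_toFinset _).1 p.2, rfl⟩
      · rintro ⟨p, hp, rfl⟩
        exact ⟨⟨p, (Set.Finite.mem_toFinset _).2 hp⟩, rfl⟩
    have hker : 2 ^ (m - 1) ≤ Module.finrank ℂ (LinearMap.ker T) := by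
      have hli := DihedralColumns.linearIndependent_vec hcols
      refine (Fintype.card_fin _).ge.trans ((finrank_span_eq_card hli).ge.trans
        (Submodule.finrank_mono (Submodule.span_le.2 ?_)))
      rintro _ ⟨i, rfl⟩
      rw [SetLike.mem_coe, LinearMap.mem_ker, hT, Fintype.linearCombination_apply]
      funext w
      rw [Finset.sum_apply]
      by_cases hw : IsPRegular 2 w
      · have hi : (i : ℕ) + 1 < 2 ^ m := by
          have := i.isLt
          have : 2 ^ m = 2 * 2 ^ (m - 1) := by rw [← pow_succ', Nat.sub_add_cancel (by omega)]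
          omega
        have hz := DihedralColumns.sum_mul_vec hcols (fun p : IrrCharacter G => (p : G → ℂ) w)
          (fun a ha0 ha => sum_regular_mul_pFn c hw ha0 ha) hi
        refine Eq.trans ?_ hz
        rw [← Finset.sum_coe_sort s]
        refine Finset.sum_congr rfl fun p _ => ?_
        simp [pRegularPart, hw, mul_comm]
      · simp [pRegularPart, hw]
    have hrn := LinearMap.finrank_range_add_finrank_ker T
    rw [hrange, ← KLSum.blockRank_eq_finrank, Module.finrank_fintype_fun_eq_card,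
      Fintype.card_coe, hcard] at hrn
    omega
  · rw [← DihedralLattice.card_odd hdata]
    rw [Nat.card_eq_fintype_card, Fintype.card_of_subtype]
    intro χ
    rw [Finset.mem_filter, hs, Set.Finite.mem_toFinset]
    exact ⟨fun h => ⟨h.1, (hall χ h.1).2.1.1 h.2⟩, fun h => ⟨h.1, (hall χ h.1).2.1.2 h.2⟩⟩
  · obtain ⟨-, hbd⟩ := DihedralLattice.card_le hdata
    exact (hall χ hχ).2.2 (hbd (by omega) χ ((Set.Finite.mem_toFinset _).2 hχ))

end CfsgLib.Blocks.DihedralBlk
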