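import Cfsg.Agent.Blocks.Star.Nilpotent
import Cfsg.Agent.Blocks.Subsection.HeightCenter
import Cfsg.Agent.Blocks.Defect.Induced
import Cfsg.Agent.Chars.Basic.Columns

/-!
# The members of a nilpotent block on the sections of its defect group

In a nilpotent block with maximal pair `(P, g)` and a member `χ` of height zero the members are
`Φ ζ`, the star products of `χ` with the irreducible characters `ζ` of `P`; on the section of
`v ∈ P` the part of `Φ ζ` in the block below `(P, g)` is `ζ v` times that of `χ`, the block has one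
function there, and its norm is `|C(v)| / |C_P(v)|`.
-/

set_option autoImplicit false
set_option maxHeartbeats 1000000
open scoped MonoidAlgebra
open scoped ComplexConjugate

namespace CfsgLib.Blocks.NilSection

open Cfsg CfsgLib CfsgLib.Chars CfsgLib.Blocks CfsgLib.Blocks.Contrib

universe u

variable {M : Ideal AlgInt} [hM : M.IsMaximal] {G : Type u} [Group G] [Fintype G] {p : ℕ}
  [hp : Fact p.Prime] [CharP (kres M) p] (hMp : IsPModular p M) {β : Set (IrrCharacter G)}
  (hβ : IsPBlock M β) {g : (kres M)[G]} {P : Subgroup G}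
  (hmax : IsMaxPairIdem p ⊤ (topEl M β) P g) (hnil : IsNilpotentIdem p ⊤ (topEl M β))
  {χ : IrrCharacter G} (hχ : χ ∈ β) (h0 : blockHeight p β (χ : G → ℂ) = 0)

include hMp hβ hmax hnil hχ h0 in
/-- All weights are one. -/
theorem locNorm_eq_one [Fintype P] {v : G} (hv : v ∈ P) :
    locNorm p (χ : G → ℂ) P g v = 1 :=
  (normalised_of_smaller hMp hβ hmax hnil hχ h0 (smallerNormalised hMp _)).2 v hv

include hMp hβ hmax hnil hχ h0 in
/-- The members are the star products with the irreducible characters of `P`. -/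
theorem exists_members [Fintype P] :
    ∃ Φ : IrrCharacter P ≃ β, ∀ ζ : IrrCharacter P,
      ((Φ ζ : IrrCharacter G) : G → ℂ) =
        starFun p (topEl M β) P g (χ : G → ℂ) (charExt P ζ) := by
  classical
  obtain ⟨h1, h2⟩ := normalised_of_smaller hMp hβ hmax hnil hχ h0 (smallerNormalised hMp _)
  obtain ⟨Φ₀, -⟩ := exists_equiv_of_normalised hMp hβ hmax hnil hχ h0 h1 h2
  have hsg := fun ζ : IrrCharacter P => isStableGen_charExt hβ hmax hnil ζ
  have hinner : ∀ ζ ξ : IrrCharacter P,
      classInner (starFun p (topEl M β) P g (χ : G → ℂ) (charExt P ζ))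
        (starFun p (topEl M β) P g (χ : G → ℂ) (charExt P ξ)) = if ζ = ξ then 1 else 0 := by
    intro ζ ξ
    rw [classInner_starFun_nilpotent hMp hβ hmax hnil χ (hsg ζ).stable (hsg ξ).stable,
      ← classInner_irr ζ ξ]
    unfold classInner
    refine congrArg (fun S : ℂ => (Nat.card P : ℂ)⁻¹ * S) (Finset.sum_congr rfl fun v _ => ?_)
    rw [h2 v v.2, mul_one, charExt_coe, charExt_coe]
  have hex : ∀ ζ : IrrCharacter P, ∃ ψ : IrrCharacter G, ψ ∈ β ∧
      (ψ : G → ℂ) = starFun p (topEl M β) P g (χ : G → ℂ) (charExt P ζ) := fun ζ =>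
    exists_irr_starFun hMp hβ hmax hχ (hsg ζ) (d := charDegree (ζ : P → ℂ))
      (by rw [coe_charDegree, ← charExt_coe P ζ 1, OneMemClass.coe_one])
      (charDegree_pos ζ).ne' (by rw [hinner, if_pos rfl])
  choose Ψ hΨB hΨ using hex
  have hinj : Function.Injective fun ζ => (⟨Ψ ζ, hΨB ζ⟩ : β) := fun ζ ξ h => by
    by_contra hne
    have h' : Ψ ζ = Ψ ξ := congrArg Subtype.val h
    have h1 := classInner_irr (Ψ ζ) (Ψ ξ)
    rw [if_pos h', hΨ, hΨ, hinner, if_neg hne] at h1
    exact zero_ne_one h1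
  haveI : Finite β := β.toFinite.to_subtype
  exact ⟨Equiv.ofBijective _
    ((Nat.bijective_iff_injective_and_card _).2 ⟨hinj, Nat.card_congr Φ₀⟩), fun ζ => hΨ ζ⟩

variable {Φ : IrrCharacter P ≃ β}
  (hΦ : ∀ ζ : IrrCharacter P, ((Φ ζ : IrrCharacter G) : G → ℂ) =
    starFun p (topEl M β) P g (χ : G → ℂ) (charExt P ζ))

/-- The centralizer of `v`. -/
abbrev cz (v : G) : Subgroup G := Subgroup.centralizer (Subgroup.zpowers v : Set G)

omit hM hp [CharP (kres M) p] in
theorem mem_cz_self (v : G) : v ∈ cz v := by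
  rw [cz, Blocks.centralizer_zpowers_eq, Subgroup.mem_centralizer_singleton_iff]

include hMp hβ hmax in
/-- The block below the pair at `v`. -/
theorem exists_bl {v : G} (hv : v ∈ P) :
    ∃ b : Set (IrrCharacter (cz v)), IsInducedBlock M (cz v) b β ∧
      subEl M (cz v) b = fBelow p P g (Subgroup.zpowers v) := by
  have hle : Subgroup.zpowers v ≤ P := Subgroup.zpowers_le.mpr hv
  have hmem := fBelow_mem_blocksOver hβ hmax hle
  obtain ⟨hfb, hfo⟩ := mem_blocksOver.mp hmem
  rw [top_inf_eq] at hfb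
  obtain ⟨b, hb, hbe⟩ := exists_subEl_eq hfb
  refine ⟨b, ?_, hbe⟩
  rw [isInducedBlock_iff_brOver hMp (hmax.1.1.1.to_le hle)
    (Subgroup.zpowers_le.mpr (mem_cz_self v)) le_rfl (Subgroup.centralizer_le_normalizer _) hb hβ,
    hbe]
  exact hfo

include hMp hβ hmax in
/-- The value of a star product on the part below the pair. -/
theorem lval_starFun_fBelow {η : G → ℂ} (hη : IsStableFn p P g η) {v : G} (hv : v ∈ P) {s : cz v}
    (hs : IsPRegular p s) :
    lval (starFun p (topEl M β) P g (χ : G → ℂ) η) (v * (s : G))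
        (fBelow p P g (Subgroup.zpowers v)) =
      η v * lval (χ : G → ℂ) (v * (s : G)) (fBelow p P g (Subgroup.zpowers v)) := by
  have hle : Subgroup.zpowers v ≤ P := Subgroup.zpowers_le.mpr hv
  have hu := exists_orderOf_eq_pow hmax.1.1.1 hv
  have hE := isBlockIdem_topEl hβ (M := M)
  have hpp : ppart p (v * (s : G)) = v := isPPart_of_regular hu hs
  set f := fBelow p P g (Subgroup.zpowers v) with hf
  obtain ⟨hfb, -⟩ := mem_blocksOver.mp (fBelow_mem_blocksOver hβ hmax hle)
  rw [← hf, top_inf_eq] at hfb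
  have hfix : IsFixedBy f (Subgroup.zpowers (v * (s : G))) :=
    hfb.1.2.mono (Subgroup.zpowers_le.mpr ((cz v).mul_mem (mem_cz_self v) s.2))
  have hsupp : brTrunc (Subgroup.zpowers v) f = f := brTrunc_eq_self hfb.1.1
  rw [lval_starFun hMp (isCharacter_coe χ) hE hη hfb.2.1 hfix,
    starVal_single hMp (isClassFunction_coe χ) (f₀ := f)
      (by rw [hpp]; exact fBelow_mem_blocksOver hβ hmax hle)
      (by rw [hpp, hsupp, hfb.idem]),
    hpp, hsupp, etaAt_eq hη (x := 1) (by
      rw [map_conj_one, conjA_one_left]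
      exact fBelow_spec hmax.1.1 hle)]
  rw [one_mul, inv_one, mul_one]

include hMp hβ hmax hnil hΦ in
/-- The part of a member on the section of `v`. -/
theorem part_member [Fintype P] {v : G} (hv : v ∈ P) {b : Set (IrrCharacter (cz v))} (hb : IsPBlock M b)
    (hbe : subEl M (cz v) b = fBelow p P g (Subgroup.zpowers v)) (ζ : IrrCharacter P) {s : cz v}
    (hs : IsPRegular p s) :
    blockPart b (fun c : cz v => ((Φ ζ : IrrCharacter G) : G → ℂ) (v * (c : G))) s =
      charExt P ζ v * blockPart b (fun c : cz v => (χ : G → ℂ) (v * (c : G))) s := by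
  haveI := Fintype.ofFinite (cz v)
  have hu := exists_orderOf_eq_pow hmax.1.1.1 hv
  rw [← lval_subEl hMp (isClassFunction_coe (Φ ζ : IrrCharacter G)) hu hb hs,
    ← lval_subEl hMp (isClassFunction_coe χ) hu hb hs, hbe, hΦ,
    lval_starFun_fBelow hMp hβ hmax (isStableGen_charExt hβ hmax hnil ζ).stable hv hs]

include hMp in
/-- Characters outside the block vanish on the part. -/
theorem part_eq_zero {v : G} (hv : ∃ e : ℕ, orderOf v = p ^ e) {b : Set (IrrCharacter (cz v))}
    (hb : IsInducedBlock M (cz v) b β) {ξ : IrrCharacter G} (hξ : ξ ∉ β) {s : cz v}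
    (hs : IsPRegular p s) :
    blockPart b (fun c : cz v => (ξ : G → ℂ) (v * (c : G))) s = 0 := by
  haveI := Fintype.ofFinite (cz v)
  have hne : ¬ IsInducedBlock M (cz v) b (blockOf M (ξ : G → ℂ)) := fun h => hξ (by
    rw [isInducedBlock_unique hMp hb h]
    exact self_mem_blockOf ξ)
  exact blockPart_section_eq_zero hMp (Blocks.centralizer_zpowers_eq v) hv hb.1 ⟨ξ, rfl⟩ hne
    (self_mem_blockOf ξ) hs

include hMp hβ hmax hnil hχ h0 in
/-- The norm of the part of `χ`. -/
theorem norm_part [Fintype P] {v : G} [Fintype (cz v)] (hv : v ∈ P)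
    {b : Set (IrrCharacter (cz v))} (hb : IsPBlock M b)
    (hbe : subEl M (cz v) b = fBelow p P g (Subgroup.zpowers v)) :
    (Nat.card (P ⊓ cz v : Subgroup G) : ℂ) * ∑ s ∈ regSet p (cz v),
        blockPart b (fun c : cz v => (χ : G → ℂ) (v * (c : G))) s *
          conj (blockPart b (fun c : cz v => (χ : G → ℂ) (v * (c : G))) s) =
      Nat.card (cz v) := by
  have hu := exists_orderOf_eq_pow hmax.1.1.1 hv
  have h := locNorm_eq_one hMp hβ hmax hnil hχ h0 hv
  rw [locNorm, sectNorm_eq_sum_regSet _ hu, ← hbe, Finset.sum_congr rfl fun s hs => by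
    rw [lval_subEl hMp (isClassFunction_coe χ) hu hb (mem_regSet.1 hs)]] at h
  have hC : (Nat.card (cz v) : ℂ) ≠ 0 := Nat.cast_ne_zero.2 Nat.card_pos.ne'
  field_simp at h
  linear_combination h

omit hM hp [CharP (kres M) p] in
/-- The centralizer in a subgroup. -/
theorem natCard_centralizer_singleton {v : G} (hv : v ∈ P) :
    Nat.card (Subgroup.centralizer ({⟨v, hv⟩} : Set P)) = Nat.card (P ⊓ cz v : Subgroup G) := by
  have h : Subgroup.centralizer ({⟨v, hv⟩} : Set P) = (P ⊓ cz v).subgroupOf P := by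
    ext w
    rw [Subgroup.mem_subgroupOf, cz, Blocks.centralizer_zpowers_eq, Subgroup.mem_inf,
      Subgroup.mem_centralizer_singleton_iff, Subgroup.mem_centralizer_singleton_iff,
      Subtype.ext_iff]
    exact ⟨fun h => ⟨w.2, h⟩, fun h => h.2⟩
  rw [h, Nat.card_congr (Subgroup.subgroupOfEquivOfLe inf_le_left).toEquiv]

omit hM hp [CharP (kres M) p] in
open scoped Classical in
/-- Column orthogonality in `P`. -/
theorem sum_charExt [Fintype (IrrCharacter P)] {v w : G} (hv : v ∈ P) (hw : w ∈ P) :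
    ∑ ζ : IrrCharacter P, charExt P ζ v * conj (charExt P ζ w) =
      if IsConj (⟨v, hv⟩ : P) ⟨w, hw⟩ then (Nat.card (P ⊓ cz v : Subgroup G) : ℂ) else 0 := by
  have h := Chars.sum_irr_mul_conj (⟨v, hv⟩ : P) ⟨w, hw⟩
  rw [natCard_centralizer_singleton hv] at h
  convert h using 2
  · exact Finset.ext fun _ => by simp
  · rename_i ζ _
    rw [← charExt_coe P ζ ⟨v, hv⟩, ← charExt_coe P ζ ⟨w, hw⟩]

include hMp hβ hmax hnil hΦ in
open scoped Classical in
/-- The column of all characters on two sections. -/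
theorem sum_part_mul_conj [Fintype P] [Fintype (IrrCharacter P)] [Fintype (IrrCharacter G)] {v w : G}
    (hv : v ∈ P) (hw : w ∈ P) {b : Set (IrrCharacter (cz v))} (hb : IsInducedBlock M (cz v) b β)
    (hbe : subEl M (cz v) b = fBelow p P g (Subgroup.zpowers v))
    {c : Set (IrrCharacter (cz w))} (hc : IsInducedBlock M (cz w) c β)
    (hce : subEl M (cz w) c = fBelow p P g (Subgroup.zpowers w))
    {s : cz v} (hs : IsPRegular p s) {t : cz w} (ht : IsPRegular p t) :
    ∑ ξ : IrrCharacter G, blockPart b (fun k : cz v => (ξ : G → ℂ) (v * (k : G))) s *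
        conj (blockPart c (fun k : cz w => (ξ : G → ℂ) (w * (k : G))) t) =
      (if IsConj (⟨v, hv⟩ : P) ⟨w, hw⟩ then (Nat.card (P ⊓ cz v : Subgroup G) : ℂ) else 0) *
        (blockPart b (fun k : cz v => (χ : G → ℂ) (v * (k : G))) s *
          conj (blockPart c (fun k : cz w => (χ : G → ℂ) (w * (k : G))) t)) := by
  have hu := exists_orderOf_eq_pow hmax.1.1.1 hv
  refine Eq.trans ?_ (congrArg (· * _) (sum_charExt hv hw) |>.trans (by congr))
  rw [Finset.sum_mul]
  symm
  refine Finset.sum_bij_ne_zero (fun ζ _ _ => ((Φ ζ : IrrCharacter G))) (fun _ _ _ => Finset.mem_univ _)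
    (fun ζ _ _ ζ' _ _ h => Φ.injective (Subtype.ext h)) (fun ξ _ hξ => ?_) fun ζ _ _ => ?_
  · by_cases hmem : ξ ∈ β
    · obtain ⟨ζ, hζ⟩ := Φ.surjective ⟨ξ, hmem⟩
      refine ⟨ζ, Finset.mem_univ _, ?_, by rw [hζ]⟩
      intro h0'
      apply hξ
      have e : ξ = (Φ ζ : IrrCharacter G) := by rw [hζ]
      rw [e, part_member hMp hβ hmax hnil hΦ hv hb.1 hbe ζ hs,
        part_member hMp hβ hmax hnil hΦ hw hc.1 hce ζ ht, map_mul, ← h0']
      ring
    · exact absurd (by rw [part_eq_zero hMp hu hb hmem hs, zero_mul]) hξ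
  · rw [part_member hMp hβ hmax hnil hΦ hv hb.1 hbe ζ hs,
      part_member hMp hβ hmax hnil hΦ hw hc.1 hce ζ ht, map_mul]
    ring

include hMp hβ hmax hnil hχ h0 hΦ in
/-- Below the pair there is one function on each section. -/
theorem blockRank_eq_one [Fintype P] {v : G} (hv : v ∈ P) {b : Set (IrrCharacter (cz v))}
    (hb : IsInducedBlock M (cz v) b β)
    (hbe : subEl M (cz v) b = fBelow p P g (Subgroup.zpowers v)) : blockRank p b = 1 := by
  classical
  haveI := Fintype.ofFinite (cz v)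
  haveI := Fintype.ofFinite (IrrCharacter P)
  haveI := Fintype.ofFinite (IrrCharacter G)
  have hu := exists_orderOf_eq_pow hmax.1.1.1 hv
  have h := sum_irr_subsection hMp (Blocks.centralizer_zpowers_eq v) hu hb.1
  rw [Finset.sum_congr rfl fun ξ _ => (sum_blockPart_mul_conj_blockPart hMp hb.1
      (isClassFunction_translate (Blocks.centralizer_zpowers_eq v) ξ)).symm, Finset.sum_comm,
    Finset.sum_congr rfl fun s hs => (Finset.sum_congr (Finset.ext fun _ => by simp)
      fun _ _ => rfl).trans (sum_part_mul_conj hMp hβ hmax hnil hΦ hv hv hb hbe hb hbe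
      (mem_regSet.1 hs) (mem_regSet.1 hs))] at h
  rw [if_pos (IsConj.refl _), ← Finset.mul_sum,
    norm_part hMp hβ hmax hnil hχ h0 hv hb.1 hbe] at h
  have h1 : (blockRank p b : ℂ) = 1 :=
    mul_left_cancel₀ (Nat.cast_ne_zero.2 Nat.card_pos.ne') (h.symm.trans (mul_one _).symm)
  exact_mod_cast h1

include hMp hβ hmax hnil hΦ hχ in
/-- The values at a central element of `P`. -/
theorem apply_central [Fintype P] {v : G} (hv : v ∈ P) (htop : cz v = ⊤) (ζ : IrrCharacter P) {s : G}
    (hs : IsPRegular p s) :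
    ((Φ ζ : IrrCharacter G) : G → ℂ) (v * s) = charExt P ζ v * (χ : G → ℂ) (v * s) := by
  have hE := isBlockIdem_topEl hβ (M := M)
  have hle : Subgroup.zpowers v ≤ P := Subgroup.zpowers_le.mpr hv
  obtain ⟨hfb, hfo⟩ := mem_blocksOver.mp (fBelow_mem_blocksOver hβ hmax hle)
  rw [show Subgroup.centralizer (Subgroup.zpowers v : Set G) = ⊤ from htop, inf_top_eq] at hfb
  have hfix : brTrunc (Subgroup.zpowers v) (topEl M β) = topEl M β :=
    brTrunc_eq_self (by
      rw [show Subgroup.centralizer (Subgroup.zpowers v : Set G) = ⊤ from htop]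
      exact isSupportedOn_top _)
  have hf : fBelow p P g (Subgroup.zpowers v) = topEl M β := by
    have h1 : topEl M β * fBelow p P g (Subgroup.zpowers v) =
        fBelow p P g (Subgroup.zpowers v) := by
      conv_rhs => rw [← (hfo : brTrunc (Subgroup.zpowers v) (topEl M β) * _ = _), hfix]
    rcases hE.2.2.2 _ hfb.1 hfb.2.1 with h | h
    · exfalso
      rw [commute_centerIn hfb.1 hE.1, h1] at h
      exact hfb.2.2.1 h
    · rwa [commute_centerIn hfb.1 hE.1, h1] at h
  have hsC : s ∈ cz v := htop ▸ Subgroup.mem_top s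
  have h := lval_starFun_fBelow (χ := χ) hMp hβ hmax
    (isStableGen_charExt hβ hmax hnil ζ).stable hv (s := ⟨s, hsC⟩)
    (by rwa [IsPRegular, Subgroup.orderOf_mk])
  simp only [hf] at h
  rw [← hΦ, lval_topEl hMp (isClassFunction_coe _) hβ, lval_topEl hMp (isClassFunction_coe χ) hβ,
    blockPart_eq_self hχ, blockPart_eq_self (Φ ζ).2] at h
  exact h

include hβ hmax hΦ in
/-- Members vanish off the sections met by `P`. -/
theorem apply_eq_zero {h : G} (hh : ∀ x : G, x * ppart p h * x⁻¹ ∉ P) (ζ : IrrCharacter P) :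
    ((Φ ζ : IrrCharacter G) : G → ℂ) h = 0 := by
  rw [hΦ, starFun_eq_sum]
  refine Finset.sum_eq_zero fun f hf => ?_
  obtain ⟨x, hx⟩ :=
    exists_conj_of_mem_blocksOver (isBlockIdem_topEl hβ) hmax (exists_orderOf_ppart h) hf
  exact absurd (hx.le ⟨_, Subgroup.mem_zpowers _, by simp⟩) (hh x)

include hMp hβ hmax hnil hΦ hχ in
/-- The values at regular elements. -/
theorem apply_regular [Fintype P] (ζ : IrrCharacter P) {s : G} (hs : IsPRegular p s) :
    ((Φ ζ : IrrCharacter G) : G → ℂ) s = charExt P ζ 1 * (χ : G → ℂ) s := by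
  rw [hΦ, starFun_regular hMp hβ hmax hχ (isStableGen_charExt hβ hmax hnil ζ).stable hs]

end CfsgLib.Blocks.NilSection
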