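import Cfsg.Agent.Blocks.Dihedral.NilSection
import Cfsg.Agent.Blocks.Dihedral.InducedTrans
import Cfsg.Agent.Blocks.Dihedral.Columns
import Cfsg.Agent.FusionTwo.Dihedral

/-!
# The values of the members of a block on the rotations of a dihedral defect group

With the nilpotent block `b` of the centralizer `H` of the central involution, the part of a
character `χ` at a rotation `v` is `pFn χ v` times that of a member of height zero of `b`, and
`pFn χ` is a character of the defect group.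
-/

set_option autoImplicit false
set_option maxHeartbeats 1000000
open scoped MonoidAlgebra
open scoped ComplexConjugate

namespace CfsgLib.Blocks.DihedralBlk

open Cfsg CfsgLib CfsgLib.Blocks CfsgLib.Blocks.NilSection CfsgLib.FusionTwo

universe u

variable {G : Type u} [Group G] [Fintype G] {M : Ideal AlgInt} [hMmax : M.IsMaximal]
  [hp : Fact (Nat.Prime 2)] [CharP (kres M) 2] {B : Set (IrrCharacter G)} {m : ℕ} {z : G}
  {H : Subgroup G} [Fintype H] {b : Set (IrrCharacter H)} {P : Subgroup H} {g : (kres M)[H]}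
  {ψ : IrrCharacter H} {x y : H}

/-- The hypotheses. -/
structure Ctx (M : Ideal AlgInt) [M.IsMaximal] (B : Set (IrrCharacter G)) (m : ℕ) (z : G)
    (H : Subgroup G) [Fintype H] (b : Set (IrrCharacter H)) (P : Subgroup H) (g : (kres M)[H])
    (ψ : IrrCharacter H) (x y : H) : Prop where
  hM : IsPModular 2 M
  hB : IsPBlock M B
  hz : orderOf z = 2
  hH : H = Subgroup.centralizer ({z} : Set G)
  hind : IsInducedBlock M H b B
  hmaj : blockDefect 2 b = blockDefect 2 B
  hdef : blockDefect 2 B = m + 1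
  hmax : IsMaxPairIdem 2 ⊤ (topEl M b) P g
  hnil : IsNilpotentIdem 2 ⊤ (topEl M b)
  hψ : ψ ∈ b
  h0 : blockHeight 2 b (ψ : H → ℂ) = 0
  gen : IsDihGen P m x y
  two_le : 2 ≤ m
  hxz : (x : G) ^ 2 ^ (m - 1) = z

/-- The scalar of the part of `χ` at an element of `P`. -/
noncomputable def pFn (b : Set (IrrCharacter H)) (P : Subgroup H) (g : (kres M)[H])
    (ψ : IrrCharacter H) (χ : IrrCharacter G) (v : H) : ℂ :=
  ∑ᶠ ζ : IrrCharacter P,
    classInner (fun h : H => (χ : G → ℂ) h)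
      (starFun 2 (topEl M b) P g (ψ : H → ℂ) (charExt P ζ)) * charExt P ζ v

/-- The part of `ψ` at `v`. -/
noncomputable def lFn {v : H} (b' : Set (IrrCharacter (cz v))) (ψ : IrrCharacter H) (s : cz v) :
    ℂ :=
  blockPart b' (fun c : cz v => (ψ : H → ℂ) (v * (c : H))) s

theorem expand_restrict [Fintype (IrrCharacter H)] (χ : IrrCharacter G) (h : H) :
    (χ : G → ℂ) h = ∑ ξ : IrrCharacter H,
      classInner (fun h : H => (χ : G → ℂ) h) (ξ : H → ℂ) * (ξ : H → ℂ) h := by
  have := Chars.eq_sum_classInner_mul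
    (Chars.isClassFunction_of_isCharacter (Chars.isCharacter_restrict (Chars.isCharacter_coe χ) H)) h
  convert this using 2
  exact Finset.ext fun _ => by simp

/-- The part of a restricted character. -/
theorem part_restrict (c : Ctx M B m z H b P g ψ x y) (χ : IrrCharacter G) {v : H} (hv : v ∈ P)
    {b' : Set (IrrCharacter (cz v))} (hb' : IsInducedBlock M (cz v) b' b)
    (hbe : subEl M (cz v) b' = fBelow 2 P g (Subgroup.zpowers v)) {s : cz v}
    (hs : IsPRegular 2 s) :
    blockPart b' (fun k : cz v => (χ : G → ℂ) ((v * (k : H) : H) : G)) s =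
      pFn b P g ψ χ v * lFn b' ψ s := by
  classical
  haveI := Fintype.ofFinite P
  haveI := Fintype.ofFinite (cz v)
  haveI := Fintype.ofFinite (IrrCharacter H)
  haveI := Fintype.ofFinite (IrrCharacter P)
  obtain ⟨Φ, hΦ⟩ := exists_members c.hM c.hind.1 c.hmax c.hnil c.hψ c.h0
  have hu := exists_orderOf_eq_pow c.hmax.1.1.1 hv
  have hcl : ∀ ξ : IrrCharacter H, IsClassFunction (cz v) fun k : cz v => (ξ : H → ℂ) (v * (k : H)) :=
    fun ξ => isClassFunction_translate' (Chars.isClassFunction_coe ξ) v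
  set n : IrrCharacter H → ℂ := fun ξ => classInner (fun h : H => (χ : G → ℂ) h) (ξ : H → ℂ) with hn
  have hF : IsClassFunction H fun h : H => (χ : G → ℂ) h :=
    Chars.isClassFunction_of_isCharacter (Chars.isCharacter_restrict (Chars.isCharacter_coe χ) H)
  have hclF : IsClassFunction (cz v) fun k : cz v => (χ : G → ℂ) ((v * (k : H) : H) : G) :=
    isClassFunction_translate' hF v
  have e1 : blockPart b' (fun k : cz v => (χ : G → ℂ) ((v * (k : H) : H) : G)) s =
      ∑ ξ : IrrCharacter H, n ξ * blockPart b' (fun k : cz v => (ξ : H → ℂ) (v * (k : H))) s := by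
    rw [blockPart_eq_sum_regSet c.hM hb'.1 hclF hs, Finset.sum_congr rfl fun t _ => by
      rw [expand_restrict χ, Finset.mul_sum], Finset.sum_comm]
    refine Finset.sum_congr rfl fun ξ _ => ?_
    rw [blockPart_eq_sum_regSet c.hM hb'.1 (hcl ξ) hs, Finset.mul_sum]
    exact Finset.sum_congr rfl fun t _ => by ring
  rw [e1, pFn, finsum_eq_sum_of_fintype, Finset.sum_mul]
  symm
  refine Finset.sum_bij_ne_zero (fun ζ _ _ => ((Φ ζ : IrrCharacter H))) (fun _ _ _ => Finset.mem_univ _)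
    (fun ζ _ _ ζ' _ _ h => Φ.injective (Subtype.ext h)) (fun ξ _ hξ => ?_) fun ζ _ _ => ?_
  · by_cases hmem : ξ ∈ b
    · obtain ⟨ζ, hζ⟩ := Φ.surjective ⟨ξ, hmem⟩
      refine ⟨ζ, Finset.mem_univ _, ?_, by rw [hζ]⟩
      intro h0'
      apply hξ
      have e : ξ = (Φ ζ : IrrCharacter H) := by rw [hζ]
      rw [e, part_member c.hM c.hind.1 c.hmax c.hnil hΦ hv hb'.1 hbe ζ hs, ← h0']
      simp only [hn, lFn, hΦ]
      ring
    · exact absurd (by rw [part_eq_zero c.hM hu hb' hmem hs, mul_zero]) hξ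
  · rw [part_member c.hM c.hind.1 c.hmax c.hnil hΦ hv hb'.1 hbe ζ hs]
    simp only [hn, lFn, hΦ]
    ring

/-- The block part on `H` itself. -/
theorem blockPart_restrict_apply (c : Ctx M B m z H b P g ψ x y) (χ : IrrCharacter G) {v : H}
    (hv : v ∈ P) (htop : cz v = ⊤) {s : H} (hs : IsPRegular 2 s) :
    blockPart b (fun h : H => (χ : G → ℂ) h) (v * s) = pFn b P g ψ χ v * (ψ : H → ℂ) (v * s) := by
  classical
  haveI := Fintype.ofFinite P
  haveI := Fintype.ofFinite (IrrCharacter P)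
  obtain ⟨Φ, hΦ⟩ := exists_members c.hM c.hind.1 c.hmax c.hnil c.hψ c.h0
  rw [blockPart_apply_eq, Finset.sum_apply, pFn, finsum_eq_sum_of_fintype, Finset.sum_mul]
  symm
  refine Finset.sum_bij (fun ζ _ => ((Φ ζ : IrrCharacter H))) (fun ζ _ => (Set.Finite.mem_toFinset _).2 (Φ ζ).2)
    (fun ζ _ ζ' _ h => Φ.injective (Subtype.ext h)) (fun ξ hξ => ?_) fun ζ _ => ?_
  · obtain ⟨ζ, hζ⟩ := Φ.surjective ⟨ξ, (Set.Finite.mem_toFinset _).1 hξ⟩
    exact ⟨ζ, Finset.mem_univ _, by rw [hζ]⟩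
  · rw [Pi.smul_apply, smul_eq_mul,
      apply_central c.hM c.hind.1 c.hmax c.hnil c.hψ hΦ hv htop ζ hs, hΦ]
    ring

theorem cz_one_eq : cz (1 : H) = ⊤ := by
  rw [cz, Blocks.centralizer_zpowers_eq, eq_top_iff]
  intro t _
  simp [Subgroup.mem_centralizer_singleton_iff]

/-- The value at the identity. -/
theorem pFn_regular (c : Ctx M B m z H b P g ψ x y) (χ : IrrCharacter G) {s : H}
    (hs : IsPRegular 2 s) :
    blockPart b (fun h : H => (χ : G → ℂ) h) s = pFn b P g ψ χ 1 * (ψ : H → ℂ) s := by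
  have h := blockPart_restrict_apply c χ P.one_mem cz_one_eq hs
  rwa [one_mul] at h

/-- The coefficients are natural numbers. -/
theorem exists_coef (c : Ctx M B m z H b P g ψ x y) (χ : IrrCharacter G) :
    ∃ n : IrrCharacter P → ℕ, ∀ v : H, pFn b P g ψ χ v = ∑ᶠ ζ, (n ζ : ℂ) * charExt P ζ v := by
  classical
  haveI := Fintype.ofFinite P
  obtain ⟨Φ, hΦ⟩ := exists_members c.hM c.hind.1 c.hmax c.hnil c.hψ c.h0
  have hres : IsCharacter H (fun h : H => (χ : G → ℂ) h) :=
    Chars.isCharacter_restrict (Chars.isCharacter_coe χ) H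
  obtain ⟨n, -, hn⟩ := Chars.exists_nat_coeff hres
  refine ⟨fun ζ => n (Φ ζ), fun v => finsum_congr fun ζ => ?_⟩
  rw [← hΦ, hn]

/-- The values on the rotations are combinations of powers of roots of unity. -/
theorem exists_expand (c : Ctx M B m z H b P g ψ x y) {μ : ℂ} (hμ : IsPrimitiveRoot μ (2 ^ m))
    (χ : IrrCharacter G) :
    ∃ k : ℕ → ℤ, ∀ a : ℕ,
      pFn b P g ψ χ (x ^ a) = ∑ j ∈ Finset.range (2 ^ m), (k j : ℂ) * μ ^ (j * a) := by
  classical
  haveI := Fintype.ofFinite P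
  haveI := Fintype.ofFinite (IrrCharacter P)
  obtain ⟨n, hn⟩ := exists_coef c χ
  have hL : 0 < 2 ^ m := Nat.two_pow_pos m
  have hxo : orderOf (⟨x, c.gen.x_mem⟩ : P) = 2 ^ m := by rw [Subgroup.orderOf_mk, c.gen.ox]
  have hone : ∀ ζ : IrrCharacter P, ∃ k : ℕ → ℤ, ∀ a : ℕ,
      charExt P ζ (x ^ a) = ∑ j ∈ Finset.range (2 ^ m), (k j : ℂ) * μ ^ (j * a) := by
    intro ζ
    obtain ⟨r, hr, -, hval⟩ := Chars.exists_roots (Chars.isCharacter_coe ζ) (⟨x, c.gen.x_mem⟩ : P)
    suffices key : ∀ r : Multiset ℂ, (∀ w ∈ r, w ^ 2 ^ m = 1) → ∃ k : ℕ → ℤ, ∀ a : ℕ,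
        (r.map (· ^ a)).sum = ∑ j ∈ Finset.range (2 ^ m), (k j : ℂ) * μ ^ (j * a) by
      obtain ⟨k, hk⟩ := key r (by rw [hxo] at hr; exact hr)
      exact ⟨k, fun a => by
        rw [← hk a, ← hval a, ← charExt_coe P ζ]
        rfl⟩
    intro r
    induction r using Multiset.induction_on with
    | empty => exact fun _ => ⟨fun _ => 0, fun a => by simp⟩
    | cons w r ih =>
      intro hw
      obtain ⟨k, hk⟩ := ih fun w' h' => hw w' (Multiset.mem_cons_of_mem h')
      obtain ⟨i, hi, hiw⟩ := hμ.eq_pow_of_pow_eq_one (hw w (Multiset.mem_cons_self w r))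
      refine ⟨fun j => (if j = i then 1 else 0) + k j, fun a => ?_⟩
      rw [Multiset.map_cons, Multiset.sum_cons, hk a]
      simp only [Int.cast_add, add_mul, Finset.sum_add_distrib, Int.cast_ite, Int.cast_one,
        Int.cast_zero, ite_mul, one_mul, zero_mul, Finset.sum_ite_eq',
        Finset.mem_range.2 hi, if_true]
      rw [← hiw, ← pow_mul]
  choose k hk using hone
  refine ⟨fun j => ∑ ζ : IrrCharacter P, (n ζ : ℤ) * k ζ j, fun a => ?_⟩
  rw [hn, finsum_eq_sum_of_fintype, Finset.sum_congr rfl fun ζ _ => by rw [hk ζ a, Finset.mul_sum],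
    Finset.sum_comm]
  refine Finset.sum_congr rfl fun j _ => ?_
  push_cast
  rw [Finset.sum_mul]
  exact Finset.sum_congr rfl fun ζ _ => by ring

/-- `pFn` is a class function on `P`. -/
theorem pFn_conj (χ : IrrCharacter G) {w v : H} (hw : w ∈ P) (hv : v ∈ P) :
    pFn b P g ψ χ (w * v * w⁻¹) = pFn b P g ψ χ v := by
  refine finsum_congr fun ζ => ?_
  congr 1
  have h := Chars.isClassFunction_coe ζ ⟨v, hv⟩ ⟨w, hw⟩
  rw [← charExt_coe, ← charExt_coe] at h
  simpa using h

/-- The values are even. -/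
theorem pFn_even (c : Ctx M B m z H b P g ψ x y) (χ : IrrCharacter G) {a : ℕ} (ha : a ≤ 2 ^ m) :
    pFn b P g ψ χ (x ^ (2 ^ m - a)) = pFn b P g ψ χ (x ^ a) := by
  have e : y * x ^ a * y⁻¹ = x ^ (2 ^ m - a) := by
    rw [← conj_pow, c.gen.rel, inv_pow, inv_eq_iff_mul_eq_one, ← pow_add, Nat.add_sub_cancel' ha,
      ← c.gen.ox, pow_orderOf_eq_one]
  rw [← e, pFn_conj χ c.gen.y_mem (P.pow_mem c.gen.x_mem a)]

/-- Conjugacy and centralizers of the rotations in `P`. -/
theorem sum_charExt_rot (c : Ctx M B m z H b P g ψ x y) {a a' : ℕ} (ha0 : 0 < a) (ha : a < 2 ^ m)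
    (ha0' : 0 < a') (ha' : a' < 2 ^ m) [Fintype (IrrCharacter P)] :
    ∑ ζ : IrrCharacter P, charExt P ζ (x ^ a) * conj (charExt P ζ (x ^ a')) =
      ((2 ^ m : ℕ) : ℂ) * ((if a = a' then 1 else 0) + (if a + a' = 2 ^ m then 1 else 0)) := by
  classical
  have hg := c.gen
  rw [sum_charExt (P.pow_mem hg.x_mem a) (P.pow_mem hg.x_mem a')]
  have hconj : IsConj (⟨x ^ a, P.pow_mem hg.x_mem a⟩ : P) ⟨x ^ a', P.pow_mem hg.x_mem a'⟩ ↔
      a = a' ∨ a + a' = 2 ^ m := by
    rw [isConj_iff]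
    constructor
    · rintro ⟨⟨w, hw⟩, e⟩
      have e' : w * x ^ a * w⁻¹ = x ^ a' := congrArg Subtype.val e
      obtain ⟨i, rfl | rfl⟩ := hg.mem_cases hw
      · left
        rw [← zpow_natCast, ← zpow_natCast x a', ← zpow_neg, ← zpow_add, ← zpow_add, hg.zpow_eq_iff] at e'
        have h1 : ((2 : ℤ) ^ m) ∣ (a : ℤ) - a' := by convert e' using 1; ring
        obtain ⟨k, hk⟩ := h1
        have : k = 0 := by
          have h2 : (0 : ℤ) < 2 ^ m := by positivity
          have h3 : ((2 ^ m : ℕ) : ℤ) = 2 ^ m := by push_cast; rfl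
          nlinarith [show k ≤ 0 ∨ 1 ≤ k by omega, show 0 ≤ k ∨ k ≤ -1 by omega]
        subst this
        omega
      · right
        have e2 : x ^ i * y * x ^ a * (x ^ i * y)⁻¹ = x ^ (-(a : ℤ)) := by
          rw [mul_assoc (x ^ i), ← zpow_natCast, hg.y_mul_zpow, ← mul_assoc, ← zpow_add, mul_inv_rev,
            mul_assoc, mul_inv_cancel_left, ← zpow_neg, ← zpow_add]
          congr 1; ring
        rw [e2, ← zpow_natCast x a', hg.zpow_eq_iff] at e'
        obtain ⟨k, hk⟩ := e'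
        have h3 : ((2 ^ m : ℕ) : ℤ) = 2 ^ m := by push_cast; rfl
        have : k = -1 := by
          have h2 : (0 : ℤ) < 2 ^ m := by positivity
          nlinarith [show k ≤ -1 ∨ 0 ≤ k by omega, show -1 ≤ k ∨ k ≤ -2 by omega]
        subst this
        omega
    · rintro (rfl | h)
      · exact ⟨1, by simp⟩
      · refine ⟨⟨y, hg.y_mem⟩, Subtype.ext ?_⟩
        show y * x ^ a * y⁻¹ = x ^ a'
        rw [← conj_pow, hg.rel, inv_pow, inv_eq_iff_mul_eq_one, ← pow_add, h, ← hg.ox,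
          pow_orderOf_eq_one]
  by_cases hmid : a = a' ∧ a + a' = 2 ^ m
  · obtain ⟨rfl, h2⟩ := hmid
    rw [if_pos (hconj.2 (Or.inl rfl)), if_pos rfl, if_pos h2]
    have hcen : P ⊓ cz (x ^ a) = P := by
      refine inf_eq_left.2 fun w hw => ?_
      rw [cz, Blocks.centralizer_zpowers_eq, Subgroup.mem_centralizer_singleton_iff]
      have e : x ^ a = x ^ ((2 : ℤ) ^ (m - 1)) := by
        rw [← zpow_natCast]
        congr 1
        have : (2 : ℕ) ^ m = 2 * 2 ^ (m - 1) := by rw [← pow_succ', Nat.sub_add_cancel hg.one_le]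
        have h3 : a = 2 ^ (m - 1) := by omega
        rw [h3]; push_cast; rfl
      rw [e]
      exact (hg.z_comm hw).symm
    rw [hcen, hg.card]
    push_cast
    ring
  by_cases h1 : a = a' ∨ a + a' = 2 ^ m
  · rw [if_pos (hconj.2 h1)]
    have hcen : P ⊓ cz (x ^ a) = Subgroup.zpowers x := by
      refine le_antisymm (fun w hw => ?_) (le_inf (Subgroup.zpowers_le.2 hg.x_mem) ?_)
      · obtain ⟨hwP, hwc⟩ := Subgroup.mem_inf.1 hw
        rw [cz, Blocks.centralizer_zpowers_eq, Subgroup.mem_centralizer_singleton_iff] at hwc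
        obtain ⟨i, rfl | rfl⟩ := hg.mem_cases hwP
        · exact ⟨i, rfl⟩
        · exfalso
          rw [mul_assoc, ← zpow_natCast, hg.y_mul_zpow, ← mul_assoc, ← zpow_add, ← mul_assoc,
            ← zpow_add, mul_left_inj, hg.zpow_eq_iff] at hwc
          obtain ⟨k, hk⟩ := hwc
          have h3 : ((2 ^ m : ℕ) : ℤ) = 2 ^ m := by push_cast; rfl
          have hk' : k = -1 := by
            have h2 : (0 : ℤ) < 2 ^ m := by positivity
            nlinarith [show k ≤ -1 ∨ 0 ≤ k by omega, show -1 ≤ k ∨ k ≤ -2 by omega]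
          subst hk'
          rcases h1 with h1 | h1
          · exact hmid ⟨h1, by omega⟩
          · exact hmid ⟨by omega, h1⟩
      · rw [cz, Blocks.centralizer_zpowers_eq, Subgroup.zpowers_le,
          Subgroup.mem_centralizer_singleton_iff]
        exact (Commute.self_pow x a).eq
    rw [hcen, Nat.card_zpowers, hg.ox]
    rcases h1 with h1 | h1
    · rw [if_pos h1, if_neg fun e => hmid ⟨h1, e⟩]; ring
    · rw [if_neg fun e => hmid ⟨e, h1⟩, if_pos h1]; ring
  · rw [if_neg fun e => h1 (hconj.1 e), if_neg fun e => h1 (Or.inl e), if_neg fun e => h1 (Or.inr e)]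
    ring

/-- A rotation other than one has the involution among its powers. -/
theorem centralizer_le (c : Ctx M B m z H b P g ψ x y) {a : ℕ} (ha0 : 0 < a) (ha : a < 2 ^ m) :
    Subgroup.centralizer ({((x ^ a : H) : G)} : Set G) ≤ H := by
  obtain ⟨v, l, hl, rfl⟩ := Nat.exists_eq_two_pow_mul_odd ha0.ne'
  have hv : v ≤ m - 1 := by
    by_contra h
    have h2 : 2 ^ m ≤ 2 ^ v := Nat.pow_le_pow_right two_pos (by omega)
    nlinarith [hl.pos]
  intro w hw
  rw [c.hH, Subgroup.mem_centralizer_singleton_iff]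
  rw [Subgroup.mem_centralizer_singleton_iff] at hw
  have hz' : z = (((x ^ (2 ^ v * l) : H) : G)) ^ (2 ^ (m - 1 - v)) := by
    push_cast
    rw [← pow_mul, mul_comm (2 ^ v) l, mul_assoc, ← pow_add, Nat.add_sub_cancel' hv,
      mul_comm l, pow_mul, c.hxz]
    obtain ⟨r, rfl⟩ := hl
    rw [pow_succ, pow_mul, ← c.hz, pow_orderOf_eq_one, one_pow, one_mul]
  rw [hz']
  exact (Commute.pow_right hw _).eq

/-- A conjugating element between two sections of rotations lies in `H`. -/
theorem mem_of_conj (c : Ctx M B m z H b P g ψ x y) {a a' : ℕ} (ha0 : 0 < a) (ha : a < 2 ^ m)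
    (ha0' : 0 < a') (ha' : a' < 2 ^ m) {w : G}
    (hw : w * ((x ^ a : H) : G) * w⁻¹ = ((x ^ a' : H) : G)) : w ∈ H := by
  have key : ∀ a : ℕ, 0 < a → a < 2 ^ m → ∃ k : ℕ, orderOf ((x ^ a : H) : G) = 2 ^ (k + 1) ∧
      (((x ^ a : H) : G)) ^ 2 ^ k = z := by
    intro a ha0 ha
    obtain ⟨v, l, hl, rfl⟩ := Nat.exists_eq_two_pow_mul_odd ha0.ne'
    have hv : v ≤ m - 1 := by
      by_contra h
      have h2 : 2 ^ m ≤ 2 ^ v := Nat.pow_le_pow_right two_pos (by omega)
      nlinarith [hl.pos]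
    have hz' : (((x ^ (2 ^ v * l) : H) : G)) ^ (2 ^ (m - 1 - v)) = z := by
      push_cast
      rw [← pow_mul, mul_comm (2 ^ v) l, mul_assoc, ← pow_add, Nat.add_sub_cancel' hv,
        mul_comm l, pow_mul, c.hxz]
      obtain ⟨r, rfl⟩ := hl
      rw [pow_succ, pow_mul, ← c.hz, pow_orderOf_eq_one, one_pow, one_mul]
    refine ⟨m - 1 - v, orderOf_eq_prime_pow ?_ ?_, hz'⟩
    · rw [hz']
      intro e
      have := c.hz
      rw [e, orderOf_one] at this
      norm_num at this
    · rw [pow_succ, pow_mul, hz', ← c.hz, pow_orderOf_eq_one]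
  obtain ⟨k, hk, hkz⟩ := key a ha0 ha
  obtain ⟨k', hk', hkz'⟩ := key a' ha0' ha'
  have ho : orderOf ((x ^ a' : H) : G) = orderOf ((x ^ a : H) : G) := by
    rw [← hw, show w * ((x ^ a : H) : G) * w⁻¹ = MulAut.conj w ((x ^ a : H) : G) by simp,
      MulEquiv.orderOf_eq]
  rw [hk, hk'] at ho
  have hkk : k' = k := by
    have := Nat.pow_right_injective le_rfl ho
    omega
  subst hkk
  rw [c.hH, Subgroup.mem_centralizer_singleton_iff]
  have e : w * z * w⁻¹ = z := by
    conv_lhs => rw [← hkz]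
    rw [← conj_pow, hw, hkz']
  calc w * z = w * z * w⁻¹ * w := by group
    _ = z * w := by rw [e]

end CfsgLib.Blocks.DihedralBlk
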