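import Cfsg.Agent.Blocks.Dihedral.Setup
import Cfsg.Agent.Blocks.Subsection.Major

/-!
# Orthogonality and heights from the values on the rotations
-/

set_option autoImplicit false
set_option maxHeartbeats 1000000
open scoped MonoidAlgebra
open scoped ComplexConjugate

namespace CfsgLib.Blocks.DihedralBlk

open Cfsg CfsgLib CfsgLib.Blocks CfsgLib.Blocks.NilSection CfsgLib.FusionTwo CfsgLib.Blocks.Contrib

universe u

variable {G : Type u} [Group G] [Fintype G] {M : Ideal AlgInt} [hMmax : M.IsMaximal]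
  [hp : Fact (Nat.Prime 2)] [CharP (kres M) 2] {B : Set (IrrCharacter G)} {m : ℕ} {z : G}
  {H : Subgroup G} [Fintype H] {b : Set (IrrCharacter H)} {P : Subgroup H} {g : (kres M)[H]}
  {ψ : IrrCharacter H} {x y : H}

/-- The part of the translate by a central element. -/
theorem blockPart_translate_center {K : Type u} [Group K] [Fintype K] (β : Set (IrrCharacter K))
    {F : K → ℂ} (hF : IsClassFunction K F) {w : K} (hw : w ∈ Subgroup.center K) (s : K) :
    blockPart β (fun h => F (w * h)) s = blockPart β F (w * s) := by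
  classical
  have hF' : IsClassFunction K fun h => F (w * h) := by
    intro a k
    show F (w * (k * a * k⁻¹)) = F (w * a)
    rw [← hF (w * a) k]
    congr 1
    rw [← mul_assoc, ← mul_assoc, ← Subgroup.mem_center_iff.1 hw k]
    group
  rw [blockPart_eq_sum_blockCoeff β hF', blockPart_eq_sum_blockCoeff β hF]
  refine Finset.sum_congr rfl fun k _ => ?_
  congr 2
  rw [← mul_assoc, ← mul_assoc, Subgroup.mem_center_iff.1 hw k]

/-- On every section some value of the part of `ψ` is non-zero. -/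
theorem exists_section (c : Ctx M B m z H b P g ψ x y) {v : H} (hv : v ∈ P) :
    ∃ b' : Set (IrrCharacter (cz v)), IsInducedBlock M (cz v) b' b ∧
      subEl M (cz v) b' = fBelow 2 P g (Subgroup.zpowers v) ∧
      ∃ s : cz v, IsPRegular 2 s ∧ lFn b' ψ s ≠ 0 := by
  classical
  haveI := Fintype.ofFinite P
  haveI := Fintype.ofFinite (cz v)
  obtain ⟨b', hb', hbe⟩ := exists_bl c.hM c.hind.1 c.hmax hv
  refine ⟨b', hb', hbe, ?_⟩
  by_contra hcon
  push Not at hcon
  have h := norm_part c.hM c.hind.1 c.hmax c.hnil c.hψ c.h0 hv hb'.1 hbe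
  rw [Finset.sum_eq_zero fun s hs => by
    rw [show blockPart b' (fun k : cz v => (ψ : H → ℂ) (v * (k : H))) s = lFn b' ψ s from rfl,
      hcon s (mem_regSet.1 hs), zero_mul], mul_zero] at h
  exact Nat.cast_ne_zero.2 (Nat.card_pos (α := cz v)).ne' h.symm

/-- Characters outside the block have no values on the rotations. -/
theorem pFn_eq_zero (c : Ctx M B m z H b P g ψ x y) {χ : IrrCharacter G} (hχ : χ ∉ B) {a : ℕ}
    (ha0 : 0 < a) (ha : a < 2 ^ m) : pFn b P g ψ χ (x ^ a) = 0 := by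
  classical
  set v : H := x ^ a with hv'
  have hv : v ∈ P := P.pow_mem c.gen.x_mem a
  obtain ⟨b', hb', hbe, s, hs, hs0⟩ := exists_section c hv
  haveI := Fintype.ofFinite (cz v)
  set K' := Subgroup.centralizer ({(v : G)} : Set G) with hK'
  have hmap : (cz v).map H.subtype = K' := by
    ext w
    rw [Subgroup.mem_map, hK', Subgroup.mem_centralizer_singleton_iff]
    constructor
    · rintro ⟨w, hw, rfl⟩
      rw [cz, Blocks.centralizer_zpowers_eq, Subgroup.mem_centralizer_singleton_iff] at hw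
      exact congrArg Subtype.val hw
    · intro hw
      refine ⟨⟨w, centralizer_le c ha0 ha (Subgroup.mem_centralizer_singleton_iff.2 hw)⟩, ?_, rfl⟩
      rw [cz, Blocks.centralizer_zpowers_eq, Subgroup.mem_centralizer_singleton_iff]
      exact Subtype.ext hw
  set σ : cz v ≃* K' := ((cz v).equivMapOfInjective H.subtype H.subtype_injective).trans
    (MulEquiv.subgroupCongr hmap) with hσ
  have hσc : ∀ k : cz v, ((σ k : K') : G) = ((k : H) : G) := fun k => rfl
  have hb₀ : IsPBlock M (mapBlock σ b') := isPBlock_mapBlock σ hb'.1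
  have hback : mapBlock σ.symm (mapBlock σ b') = b' := by
    rw [mapBlock, mapBlock, Set.image_image]
    refine (Set.image_congr fun ξ _ => ?_).trans (Set.image_id b')
    refine Subtype.ext (funext fun k => ?_)
    rw [Chars.irrEquiv_apply, Chars.irrEquiv_apply]
    simp
  have hind : IsInducedBlock M K' (mapBlock σ b') B :=
    isInducedBlock_of_two_steps hMmax σ.symm (fun k => by rw [← hσc, MulEquiv.apply_symm_apply]) hb₀
      (by rw [hback]; exact hb') c.hind
  have hu : ∃ e : ℕ, orderOf (v : G) = 2 ^ e := by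
    rw [Subgroup.orderOf_coe]
    exact exists_orderOf_eq_pow c.hmax.1.1.1 hv
  haveI := Fintype.ofFinite K'
  have hne : ¬ IsInducedBlock M K' (mapBlock σ b') (blockOf M (χ : G → ℂ)) := fun h => hχ (by
    rw [isInducedBlock_unique c.hM hind h]
    exact self_mem_blockOf χ)
  have h0 := blockPart_section_eq_zero c.hM hK' hu hb₀ ⟨χ, rfl⟩ hne (self_mem_blockOf χ)
    (s := σ s) (by rwa [IsPRegular, MulEquiv.orderOf_eq])
  rw [HeightCenter.blockPart_mapBlock] at h0
  have h1 := part_restrict c χ hv hb' hbe hs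
  rw [show (fun k : cz v => (χ : G → ℂ) ((v * (k : H) : H) : G)) =
    fun k : cz v => (χ : G → ℂ) ((v : G) * ((σ k : K') : G)) from funext fun k => by
      rw [hσc]; rfl, h0] at h1
  exact (mul_eq_zero.1 h1.symm).resolve_right hs0

open scoped Classical in
/-- The columns of the irreducible characters agree between `G` and `H`. -/
theorem sum_irr_eq_sum_irr [Fintype (IrrCharacter G)] [Fintype (IrrCharacter H)] {g₁ g₂ : H}
    (hcent : ∀ w : G, w * (g₁ : G) = (g₁ : G) * w → w ∈ H)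
    (hconj : ∀ w : G, w * (g₁ : G) * w⁻¹ = (g₂ : G) → w ∈ H) :
    ∑ χ : IrrCharacter G, (χ : G → ℂ) g₁ * conj ((χ : G → ℂ) g₂) =
      ∑ ξ : IrrCharacter H, (ξ : H → ℂ) g₁ * conj ((ξ : H → ℂ) g₂) := by
  have h1 := Chars.sum_irr_mul_conj (g₁ : G) (g₂ : G)
  have h2 := Chars.sum_irr_mul_conj g₁ g₂
  refine Eq.trans ((Finset.sum_congr (Finset.ext fun _ => by simp) fun _ _ => rfl).trans h1)
    (Eq.trans ?_ ((Finset.sum_congr (Finset.ext fun _ => by simp) fun _ _ => rfl).trans h2).symm)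
  by_cases hc : IsConj g₁ g₂
  · rw [if_pos (show IsConj (g₁ : G) (g₂ : G) from (H.subtype).map_isConj hc), if_pos hc]
    congr 1
    refine Nat.card_congr ⟨fun w => ⟨⟨(w : G), hcent w (Subgroup.mem_centralizer_singleton_iff.1 w.2)⟩,
      Subgroup.mem_centralizer_singleton_iff.2 (Subtype.ext (Subgroup.mem_centralizer_singleton_iff.1 w.2))⟩,
      fun w => ⟨((w : H) : G), Subgroup.mem_centralizer_singleton_iff.2
        (congrArg Subtype.val (Subgroup.mem_centralizer_singleton_iff.1 w.2))⟩,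
      fun w => rfl, fun w => rfl⟩
  · rw [if_neg hc, if_neg]
    intro h
    obtain ⟨w, hw⟩ := isConj_iff.1 h
    exact hc (isConj_iff.2 ⟨⟨w, hconj w hw⟩, Subtype.ext hw⟩)

/-- **Orthogonality of the values on the rotations.** -/
theorem pFn_orth (c : Ctx M B m z H b P g ψ x y) {a a' : ℕ} (ha0 : 0 < a) (ha : a < 2 ^ m)
    (ha0' : 0 < a') (ha' : a' < 2 ^ m) :
    ∑ χ ∈ B.toFinite.toFinset, pFn b P g ψ χ (x ^ a) * conj (pFn b P g ψ χ (x ^ a')) =
      ((2 ^ m : ℕ) : ℂ) * ((if a = a' then 1 else 0) + (if a + a' = 2 ^ m then 1 else 0)) := by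
  classical
  haveI := Fintype.ofFinite P
  haveI := Fintype.ofFinite (IrrCharacter P)
  haveI := Fintype.ofFinite (IrrCharacter G)
  haveI := Fintype.ofFinite (IrrCharacter H)
  obtain ⟨Φ, hΦ⟩ := exists_members c.hM c.hind.1 c.hmax c.hnil c.hψ c.h0
  set v : H := x ^ a with hv'
  set w : H := x ^ a' with hw'
  have hv : v ∈ P := P.pow_mem c.gen.x_mem a
  have hw : w ∈ P := P.pow_mem c.gen.x_mem a'
  obtain ⟨b', hb', hbe, s, hs, hs0⟩ := exists_section c hv
  obtain ⟨c', hc', hce, t, ht, ht0⟩ := exists_section c hw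
  haveI := Fintype.ofFinite (cz v)
  haveI := Fintype.ofFinite (cz w)
  rw [← sum_charExt_rot c ha0 ha ha0' ha']
  have hsumall : ∑ χ ∈ B.toFinite.toFinset, pFn b P g ψ χ v * conj (pFn b P g ψ χ w) =
      ∑ χ : IrrCharacter G, pFn b P g ψ χ v * conj (pFn b P g ψ χ w) := by
    refine Finset.sum_subset (Finset.subset_univ _) fun χ _ hχ => ?_
    rw [pFn_eq_zero c (fun h => hχ ((Set.Finite.mem_toFinset _).2 h)) ha0 ha, zero_mul]
  rw [hsumall]
  refine mul_right_cancel₀ (mul_ne_zero hs0 ((map_ne_zero (starRingEnd ℂ)).2 ht0)) ?_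
  rw [Finset.sum_mul, Finset.sum_mul]
  have hu := exists_orderOf_eq_pow c.hmax.1.1.1 hv
  have hw2 := exists_orderOf_eq_pow c.hmax.1.1.1 hw
  have hclv : ∀ χ : IrrCharacter G, IsClassFunction (cz v)
      fun k : cz v => (χ : G → ℂ) ((v * (k : H) : H) : G) := fun χ =>
    isClassFunction_translate' (Chars.isClassFunction_of_isCharacter
      (Chars.isCharacter_restrict (Chars.isCharacter_coe χ) H)) v
  have hclw : ∀ χ : IrrCharacter G, IsClassFunction (cz w)
      fun k : cz w => (χ : G → ℂ) ((w * (k : H) : H) : G) := fun χ =>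
    isClassFunction_translate' (Chars.isClassFunction_of_isCharacter
      (Chars.isCharacter_restrict (Chars.isCharacter_coe χ) H)) w
  have hclv' : ∀ ξ : IrrCharacter H, IsClassFunction (cz v)
      fun k : cz v => (ξ : H → ℂ) (v * (k : H)) := fun ξ =>
    isClassFunction_translate' (Chars.isClassFunction_coe ξ) v
  have hclw' : ∀ ξ : IrrCharacter H, IsClassFunction (cz w)
      fun k : cz w => (ξ : H → ℂ) (w * (k : H)) := fun ξ =>
    isClassFunction_translate' (Chars.isClassFunction_coe ξ) w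
  calc ∑ χ : IrrCharacter G, pFn b P g ψ χ v * conj (pFn b P g ψ χ w) * (lFn b' ψ s * conj (lFn c' ψ t))
      = ∑ χ : IrrCharacter G, blockPart b' (fun k : cz v => (χ : G → ℂ) ((v * (k : H) : H) : G)) s *
          conj (blockPart c' (fun k : cz w => (χ : G → ℂ) ((w * (k : H) : H) : G)) t) := by
        refine Finset.sum_congr rfl fun χ _ => ?_
        rw [part_restrict c χ hv hb' hbe hs, part_restrict c χ hw hc' hce ht, map_mul]
        ring
    _ = ∑ s' ∈ regSet 2 (cz v), ∑ t' ∈ regSet 2 (cz w),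
          blockCoeff b' (s' * s⁻¹) * conj (blockCoeff c' (t' * t⁻¹)) *
            ∑ χ : IrrCharacter G, (χ : G → ℂ) ((v * (s' : H) : H) : G) *
              conj ((χ : G → ℂ) ((w * (t' : H) : H) : G)) := by
        rw [Finset.sum_congr rfl fun χ _ => by
          rw [blockPart_eq_sum_regSet c.hM hb'.1 (hclv χ) hs,
            blockPart_eq_sum_regSet c.hM hc'.1 (hclw χ) ht, map_sum, Finset.sum_mul_sum],
          Finset.sum_comm]
        refine Finset.sum_congr rfl fun s' _ => ?_
        rw [Finset.sum_comm]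
        refine Finset.sum_congr rfl fun t' _ => ?_
        rw [Finset.mul_sum]
        exact Finset.sum_congr rfl fun χ _ => by rw [map_mul]; ring
    _ = ∑ s' ∈ regSet 2 (cz v), ∑ t' ∈ regSet 2 (cz w),
          blockCoeff b' (s' * s⁻¹) * conj (blockCoeff c' (t' * t⁻¹)) *
            ∑ ξ : IrrCharacter H, (ξ : H → ℂ) (v * (s' : H)) * conj ((ξ : H → ℂ) (w * (t' : H))) := by
        refine Finset.sum_congr rfl fun s' hs' => Finset.sum_congr rfl fun t' ht' => ?_
        congr 1
        have hps : ppart 2 (v * (s' : H)) = v := isPPart_of_regular hu (mem_regSet.1 hs')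
        have hpt : ppart 2 (w * (t' : H)) = w := isPPart_of_regular hw2 (mem_regSet.1 ht')
        have hpsG : IsPPart 2 ((v * (s' : H) : H) : G) (v : G) := by
          obtain ⟨r, h1, h2, h3, h4⟩ := hps ▸ isPPart_ppart (p := 2) (v * (s' : H))
          exact ⟨(r : G), by rw [← h1]; rfl, congrArg Subtype.val h2.eq,
            by rwa [Subgroup.orderOf_coe], by rwa [Subgroup.orderOf_coe]⟩
        have hptG : IsPPart 2 ((w * (t' : H) : H) : G) (w : G) := by
          obtain ⟨r, h1, h2, h3, h4⟩ := hpt ▸ isPPart_ppart (p := 2) (w * (t' : H))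
          exact ⟨(r : G), by rw [← h1]; rfl, congrArg Subtype.val h2.eq,
            by rwa [Subgroup.orderOf_coe], by rwa [Subgroup.orderOf_coe]⟩
        refine sum_irr_eq_sum_irr (fun u hu' => ?_) fun u hu' => ?_
        · have h1 := isPPart_conj hpsG u
          rw [show u * ((v * (s' : H) : H) : G) * u⁻¹ = ((v * (s' : H) : H) : G) by
            rw [hu', mul_inv_cancel_right]] at h1
          exact mem_of_conj c ha0 ha ha0 ha (isPPart_unique c.hM.1 h1 hpsG)
        · have h1 := isPPart_conj hpsG u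
          rw [hu'] at h1
          exact mem_of_conj c ha0 ha ha0' ha' (isPPart_unique c.hM.1 h1 hptG)
    _ = ∑ ξ : IrrCharacter H, blockPart b' (fun k : cz v => (ξ : H → ℂ) (v * (k : H))) s *
          conj (blockPart c' (fun k : cz w => (ξ : H → ℂ) (w * (k : H))) t) := by
        symm
        rw [Finset.sum_congr rfl fun ξ _ => by
          rw [blockPart_eq_sum_regSet c.hM hb'.1 (hclv' ξ) hs,
            blockPart_eq_sum_regSet c.hM hc'.1 (hclw' ξ) ht, map_sum, Finset.sum_mul_sum],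
          Finset.sum_comm]
        refine Finset.sum_congr rfl fun s' _ => ?_
        rw [Finset.sum_comm]
        refine Finset.sum_congr rfl fun t' _ => ?_
        rw [Finset.mul_sum]
        exact Finset.sum_congr rfl fun χ _ => by rw [map_mul]; ring
    _ = _ := by
        rw [sum_part_mul_conj c.hM c.hind.1 c.hmax c.hnil hΦ hv hw hb' hbe hc' hce hs ht,
          ← Finset.sum_mul, sum_charExt hv hw]
        simp only [lFn]
        congr

/-- Regular values are orthogonal to the values on the rotations. -/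
theorem sum_regular_mul_pFn (c : Ctx M B m z H b P g ψ x y) {r : G} (hr : IsPRegular 2 r) {a : ℕ}
    (ha0 : 0 < a) (ha : a < 2 ^ m) :
    ∑ χ ∈ B.toFinite.toFinset, (χ : G → ℂ) r * pFn b P g ψ χ (x ^ a) = 0 := by
  classical
  set v : H := x ^ a with hv'
  have hv : v ∈ P := P.pow_mem c.gen.x_mem a
  obtain ⟨b', hb', hbe, s, hs, hs0⟩ := exists_section c hv
  haveI := Fintype.ofFinite (cz v)
  refine (mul_eq_zero.1 (?_ : _ * lFn b' ψ s = 0)).resolve_right hs0
  rw [Finset.sum_mul, Finset.sum_congr rfl fun χ _ => by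
    rw [mul_assoc, ← part_restrict c χ hv hb' hbe hs,
      blockPart_eq_sum_regSet c.hM hb'.1 (isClassFunction_translate'
        (Chars.isClassFunction_of_isCharacter (Chars.isCharacter_restrict (Chars.isCharacter_coe χ) H)) v)
        hs, Finset.mul_sum], Finset.sum_comm]
  refine Finset.sum_eq_zero fun t ht => ?_
  have hsing : 2 ∣ orderOf ((v * (t : H) : H) : G) := by
    rw [Subgroup.orderOf_coe]
    obtain ⟨r', h1, h2, ⟨k, h3⟩, h4⟩ :=
      isPPart_of_regular (exists_orderOf_eq_pow c.hmax.1.1.1 hv) (mem_regSet.1 ht) ▸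
        isPPart_ppart (p := 2) (v * (t : H))
    rw [← h1, h2.orderOf_mul_eq_mul_orderOf_of_coprime (by
      rw [h3]; exact Nat.Coprime.pow_left _ (Nat.prime_two.coprime_iff_not_dvd.2 h4))]
    refine Dvd.dvd.mul_right ?_ _
    rw [h3]
    refine dvd_pow_self 2 fun e => ?_
    rw [e, pow_zero, orderOf_eq_one_iff, ← orderOf_eq_one_iff] at h3
    have h6 : x ^ a = 1 := orderOf_eq_one_iff.1 h3
    have := orderOf_dvd_of_pow_eq_one h6
    rw [c.gen.ox] at this
    exact absurd (Nat.le_of_dvd ha0 this) (not_le.2 ha)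
  have h := finsum_block_regular_mul_conj_singular c.hM c.hB (x := r) hr
    (y := (((v * (t : H) : H) : G))⁻¹) (by rwa [orderOf_inv])
  rw [finsum_block_eq_sum] at h
  rw [Finset.sum_congr rfl fun χ _ => by rw [mul_left_comm], ← Finset.mul_sum]
  refine mul_eq_zero_of_right _ (Eq.trans ?_ h)
  refine Finset.sum_congr rfl fun χ _ => ?_
  rw [← Chars.map_inv_eq_conj (Chars.isCharacter_coe χ), inv_inv]

theorem z_mem_center (c : Ctx M B m z H b P g ψ x y) : x ^ 2 ^ (m - 1) ∈ Subgroup.center H := by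
  rw [Subgroup.mem_center_iff]
  intro w
  apply Subtype.ext
  push_cast
  rw [c.hxz]
  exact Subgroup.mem_centralizer_singleton_iff.1 (c.hH ▸ w.2 : (w : G) ∈ _)

/-- The part at the involution. -/
theorem sectPart_z (c : Ctx M B m z H b P g ψ x y) (χ : IrrCharacter G) {s : H}
    (hs : IsPRegular 2 s) :
    sectPart b z χ s = pFn b P g ψ χ (x ^ 2 ^ (m - 1)) *
      ((ψ : H → ℂ) (x ^ 2 ^ (m - 1)) / (ψ : H → ℂ) 1 * (ψ : H → ℂ) s) := by
  classical
  set zH : H := x ^ 2 ^ (m - 1) with hzH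
  have hzc := z_mem_center c
  have hzG : (zH : G) = z := by rw [hzH]; push_cast; exact c.hxz
  have htop : cz zH = ⊤ := by
    rw [cz, Blocks.centralizer_zpowers_eq, eq_top_iff]
    intro t _
    exact Subgroup.mem_centralizer_singleton_iff.2 (Subgroup.mem_center_iff.1 hzc t)
  have hF : IsClassFunction H fun h : H => (χ : G → ℂ) h :=
    Chars.isClassFunction_of_isCharacter (Chars.isCharacter_restrict (Chars.isCharacter_coe χ) H)
  rw [sectPart, show (fun h : H => (χ : G → ℂ) (z * (h : G))) =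
    fun h : H => (fun h : H => (χ : G → ℂ) h) (zH * h) from funext fun h => by
      simp only [Subgroup.coe_mul, hzG],
    blockPart_translate_center b hF hzc s,
    blockPart_restrict_apply c χ (P.pow_mem c.gen.x_mem _) htop hs,
    Chars.map_mul_of_mem_center ψ hzc]

/-- The contributions at the involution and at the identity. -/
theorem contrib_eq (c : Ctx M B m z H b P g ψ x y) (χ φ : IrrCharacter G) :
    contrib 2 b z χ φ =
        pFn b P g ψ χ (x ^ 2 ^ (m - 1)) * conj (pFn b P g ψ φ (x ^ 2 ^ (m - 1))) ∧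
      contrib 2 b (1 : G) χ φ = pFn b P g ψ χ 1 * conj (pFn b P g ψ φ 1) := by
  classical
  haveI := Fintype.ofFinite P
  obtain ⟨h1, -⟩ := normalised_of_smaller c.hM c.hind.1 c.hmax c.hnil c.hψ c.h0
    (smallerNormalised c.hM _)
  rw [regPair_self_eq_sum] at h1
  have hP : (Nat.card P : ℂ) = ((2 : ℕ) : ℂ) ^ blockDefect 2 b := by
    rw [c.gen.card, c.hmaj, c.hdef]; push_cast; rfl
  rw [hP] at h1
  have hC : (Nat.card H : ℂ) ≠ 0 := Nat.cast_ne_zero.2 Nat.card_pos.ne'
  set ω := (ψ : H → ℂ) (x ^ 2 ^ (m - 1)) / (ψ : H → ℂ) 1 with hω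
  have hω1 : ω * conj ω = 1 := by
    rw [hω, Complex.mul_conj, Complex.normSq_eq_norm_sq, norm_div,
      CfsgLib.Chars.norm_map_of_mem_center ψ (z_mem_center c),
      div_self (norm_ne_zero_iff.mpr (Chars.map_one_ne_zero ψ))]
    norm_num
  have hres : ∀ φ : IrrCharacter G, ∀ s ∈ regSet 2 H,
      sectPart b (1 : G) φ s = pFn b P g ψ φ 1 * (ψ : H → ℂ) s := fun φ s hs => by
    rw [sectPart]
    simp only [one_mul]
    exact pFn_regular c φ (mem_regSet.1 hs)
  constructor
  · rw [contrib, Finset.sum_congr rfl fun s hs => by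
      rw [sectPart_z c χ (mem_regSet.1 hs), sectPart_z c φ (mem_regSet.1 hs)]]
    rw [Finset.sum_congr rfl (g := fun s => (pFn b P g ψ χ (x ^ 2 ^ (m - 1)) *
        conj (pFn b P g ψ φ (x ^ 2 ^ (m - 1)))) * ((ψ : H → ℂ) s * conj ((ψ : H → ℂ) s)))
      fun s _ => by
        rw [map_mul, map_mul]
        linear_combination (pFn b P g ψ χ (x ^ 2 ^ (m - 1)) *
          conj (pFn b P g ψ φ (x ^ 2 ^ (m - 1))) * ((ψ : H → ℂ) s * conj ((ψ : H → ℂ) s))) * hω1,
      ← Finset.mul_sum]
    field_simp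
    linear_combination (pFn b P g ψ χ (x ^ 2 ^ (m - 1)) *
      conj (pFn b P g ψ φ (x ^ 2 ^ (m - 1)))) * h1
  · rw [contrib, Finset.sum_congr rfl fun s hs => by rw [hres χ s hs, hres φ s hs]]
    rw [Finset.sum_congr rfl (g := fun s => (pFn b P g ψ χ 1 *
        conj (pFn b P g ψ φ 1)) * ((ψ : H → ℂ) s * conj ((ψ : H → ℂ) s)))
      fun s _ => by rw [map_mul]; ring,
      ← Finset.mul_sum]
    field_simp
    linear_combination (pFn b P g ψ χ 1 * conj (pFn b P g ψ φ 1)) * h1

theorem memLocalIdeal_intCast_iff (hM : IsPModular 2 M) (N : ℤ) :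
    MemLocalIdeal M (N : ℂ) ↔ (2 : ℤ) ∣ N := by
  have e : ((N : AlgInt) : ℂ) = (N : ℂ) := by simp
  rw [← e, memLocalIdeal_coe_iff, intCast_mem_iff hM]
  simp

/-- **The heights.** -/
theorem heights (c : Ctx M B m z H b P g ψ x y) {e : IrrCharacter G → ℤ}
    (he : ∀ χ, pFn b P g ψ χ (x ^ 2 ^ (m - 1)) = (e χ : ℂ)) {e₁ : IrrCharacter G → ℤ}
    (he₁ : ∀ χ, pFn b P g ψ χ 1 = (e₁ χ : ℂ)) (hpar : ∀ χ, (2 : ℤ) ∣ e χ - e₁ χ) :
    (∀ χ ∈ B, e χ ≠ 0 ∧ (Odd (e χ) ↔ blockHeight 2 B (χ : G → ℂ) = 0) ∧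
      (|e χ| ≤ 2 → blockHeight 2 B (χ : G → ℂ) ≤ 1)) ∧ ∃ χ ∈ B, Odd (e χ) := by
  classical
  obtain ⟨χ₀, hχ₀, h00⟩ := HeightZero.exists_height_zero (p := 2) c.hB
  have hodd : Odd (e χ₀) := by
    have h := not_memLocalIdeal_contrib_one c.hM c.hind hχ₀ h00 hχ₀ h00
    rw [(contrib_eq c χ₀ χ₀).2, he₁, map_intCast, ← Int.cast_mul,
      memLocalIdeal_intCast_iff c.hM] at h
    rw [Int.odd_iff]
    have h1 := hpar χ₀
    by_contra hne
    apply h
    exact Dvd.dvd.mul_right (by omega) _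
  refine ⟨fun φ hφ => ?_, χ₀, hχ₀, hodd⟩
  obtain ⟨zc, hzc, hval⟩ := exists_omega_contrib c.hM c.hH ⟨1, by rw [c.hz, pow_one]⟩ c.hind.1 χ₀
  have hω : ∀ φ : IrrCharacter G, MemLocalRing M (omega (φ : G → ℂ) zc) := fun φ =>
    memLocalRing_omega hzc φ
  have hprod : ∀ φ ∈ B, ∃ w : ℂ, MemLocalRing M w ∧ ¬ MemLocalIdeal M w ∧
      ((e χ₀ * e φ : ℤ) : ℂ) = (2 : ℂ) ^ blockHeight 2 B (φ : G → ℂ) *
        (w * omega (φ : G → ℂ) zc) := by
    intro φ hφ
    obtain ⟨w, hw, hwu, hwe⟩ := exists_unit_scale (p := 2) c.hM hφ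
    refine ⟨w, hw, hwu, ?_⟩
    have h := hval φ
    rw [(contrib_eq c χ₀ φ).1, he, he, map_intCast, c.hmaj, hwe] at h
    push_cast
    rw [h]
    push_cast
    ring
  have hωu : ∀ φ ∈ B, ¬ MemLocalIdeal M (omega (φ : G → ℂ) zc) := by
    intro φ hφ hI
    obtain ⟨w, hw, -, hwe⟩ := hprod χ₀ hχ₀
    rw [h00, pow_zero, one_mul] at hwe
    have h2 : MemLocalIdeal M (((e χ₀ * e χ₀ : ℤ)) : ℂ) := hwe ▸ memLocalIdeal_mul_left hw
      ((congr_omega_of_sameBlock hzc (sameBlock_of_mem c.hB hφ hχ₀)).mem_iff.1 hI)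
    rw [memLocalIdeal_intCast_iff c.hM] at h2
    obtain ⟨r, hr⟩ := hodd.mul hodd
    omega
  obtain ⟨w, hw, hwu, hwe⟩ := hprod φ hφ
  have hu : ¬ MemLocalIdeal M (w * omega (φ : G → ℂ) zc) :=
    not_memLocalIdeal_mul hw (hω φ) hwu (hωu φ hφ)
  have hne : e φ ≠ 0 := by
    intro h
    rw [h, mul_zero, Int.cast_zero, eq_comm, mul_eq_zero] at hwe
    rcases hwe with h' | h'
    · exact absurd h' (pow_ne_zero _ two_ne_zero)
    · exact hu (h' ▸ memLocalIdeal_zero)
  have htwo : MemLocalIdeal M (2 : ℂ) := by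
    simpa using (memLocalIdeal_intCast_iff c.hM 2).2 dvd_rfl
  have hiff : Odd (e φ) ↔ blockHeight 2 B (φ : G → ℂ) = 0 := by
    constructor
    · intro ho
      by_contra hh
      obtain ⟨h', hh'⟩ := Nat.exists_eq_succ_of_ne_zero hh
      have h2 : MemLocalIdeal M (((e χ₀ * e φ : ℤ)) : ℂ) := by
        rw [hwe, hh', pow_succ, mul_assoc]
        refine memLocalIdeal_mul_left ((localRing M).pow_mem (natCast_mem (localRing M) 2) h') ?_
        exact memLocalIdeal_mul_right htwo ((localRing M).mul_mem hw (hω φ))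
      rw [memLocalIdeal_intCast_iff c.hM] at h2
      obtain ⟨r, hr⟩ := hodd.mul ho
      omega
    · intro hh
      rw [hh, pow_zero, one_mul] at hwe
      by_contra ho
      apply hu
      rw [← hwe, memLocalIdeal_intCast_iff c.hM]
      exact Dvd.dvd.mul_left (even_iff_two_dvd.1 (Int.not_odd_iff_even.1 ho)) _
  refine ⟨hne, hiff, fun hle => ?_⟩
  by_contra hh
  have ho : ¬ Odd (e φ) := fun ho => by rw [hiff.1 ho] at hh; omega
  obtain ⟨r, hr⟩ := Int.not_odd_iff_even.1 ho
  obtain ⟨h', hh'⟩ : ∃ h', blockHeight 2 B (φ : G → ℂ) = h' + 2 :=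
    ⟨blockHeight 2 B (φ : G → ℂ) - 2, by omega⟩
  have hcast : ((e χ₀ * r : ℤ) : ℂ) = 2 * (2 ^ h' * (w * omega (φ : G → ℂ) zc)) := by
    rw [hh', pow_add, hr] at hwe
    push_cast at hwe ⊢
    linear_combination hwe / 2
  have h2 : MemLocalIdeal M (((e χ₀ * r : ℤ)) : ℂ) := by
    rw [hcast]
    exact memLocalIdeal_mul_right htwo ((localRing M).mul_mem
      ((localRing M).pow_mem (natCast_mem (localRing M) 2) h') ((localRing M).mul_mem hw (hω φ)))
  rw [memLocalIdeal_intCast_iff c.hM] at h2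
  rw [abs_le] at hle
  obtain ⟨q, hq⟩ := hodd
  have : r = 1 ∨ r = -1 := by omega
  rcases this with e | e <;> rw [hq, e] at h2 <;> omega

end CfsgLib.Blocks.DihedralBlk
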